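import Mathlib
import Cfsg.Agent.Spec53.CubicUpper

/-!
The element orders of `PSL₃(q)`.
-/

set_option autoImplicit false

namespace CfsgLib.Spec53

open Polynomial Matrix

/-- A multiplicative map from a quadratic extension into `3 × 3` matrices of determinant one. -/
noncomputable def quadTorus {F K : Type*} [Field F] [Field K] [Algebra F K]
    (b : Module.Basis (Fin 2) F K) : K →* Matrix (Fin 3) (Fin 3) F where
  toFun z := reindexAlgEquiv F F (finSumFinEquiv (m := 2) (n := 1))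
    (fromBlocks (Algebra.leftMulMatrix b z) 0 0 (diagonal fun _ => (Algebra.norm F z)⁻¹))
  map_one' := by
    rw [map_one, map_one, inv_one, diagonal_one, fromBlocks_one, map_one]
  map_mul' x y := by
    rw [← map_mul, fromBlocks_multiply]
    simp [mul_comm]

theorem det_quadTorus {F K : Type*} [Field F] [Field K] [Algebra F K]
    (b : Module.Basis (Fin 2) F K) {z : K} (hz : z ≠ 0) : (quadTorus b z).det = 1 := by
  haveI : Module.Finite F K := Module.Finite.of_basis b
  show (reindexAlgEquiv F F _ _).det = 1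
  rw [det_reindexAlgEquiv, det_fromBlocks_zero₁₂, ← Algebra.norm_eq_matrix_det b,
    det_diagonal, Fin.prod_univ_one, mul_inv_cancel₀ (Algebra.norm_ne_zero_iff.2 hz)]

theorem isScalar3_quadTorus {F K : Type*} [Field F] [Fintype F] [Field K] [Algebra F K]
    (b : Module.Basis (Fin 2) F K) {z : K} (hz : z ≠ 0) :
    IsScalar3 (quadTorus b z) ↔ z ^ (Fintype.card F - 1) = 1 ∧ z ^ 3 = 1 := by
  haveI : Module.Free F K := Module.Free.of_basis b
  haveI : FiniteDimensional F K := b.finiteDimensional_of_finite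
  have hfin : Module.finrank F K = 2 := by rw [Module.finrank_eq_card_basis b, Fintype.card_fin]
  have hsc : ∀ c : F, Matrix.scalar (Fin 3) c =
      reindexAlgEquiv F F (finSumFinEquiv (m := 2) (n := 1))
        (fromBlocks (Algebra.leftMulMatrix b (algebraMap F K c)) 0 0 (diagonal fun _ => c)) := by
    intro c
    rw [AlgHom.commutes, algebraMap_eq_diagonal, fromBlocks_diagonal]
    have : (Sum.elim (algebraMap F (Fin 2 → F) c) fun _ : Fin 1 => c) = fun _ => c := by
      funext i; cases i <;> simp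
    rw [this]
    exact ((reindexAlgEquiv F F (finSumFinEquiv (m := 2) (n := 1))).commutes c).symm
  constructor
  · rintro ⟨c, hc⟩
    rw [hsc] at hc
    obtain ⟨h1, -, -, h2⟩ := fromBlocks_inj.1 ((reindexAlgEquiv F F _).injective hc)
    have hzc := Algebra.leftMulMatrix_injective b h1
    have hN : (Algebra.norm F z)⁻¹ = c := by simpa using congrFun (congrFun h2 0) 0
    rw [hzc, Algebra.norm_algebraMap, hfin] at hN
    have hc0 : c ≠ 0 := by
      rintro rfl
      exact hz (by simpa using hzc)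
    rw [hzc, ← map_pow, ← map_pow, FiniteField.pow_card_sub_one_eq_one c hc0, map_one]
    refine ⟨rfl, ?_⟩
    rw [show c ^ 3 = 1 by
      calc c ^ 3 = c ^ 2 * c := by ring
        _ = c ^ 2 * (c ^ 2)⁻¹ := by rw [hN]
        _ = 1 := mul_inv_cancel₀ (pow_ne_zero _ hc0), map_one]
  · rintro ⟨h1, h3⟩
    obtain ⟨c, rfl⟩ := exists_algebraMap_of_pow_card (F := F) (x := z) (by
      rw [← Nat.sub_add_cancel (Fintype.one_lt_card (α := F)).le, pow_succ, h1, one_mul])
    refine ⟨c, ?_⟩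
    have hc : c ^ 3 = 1 := (algebraMap F K).injective (by rw [map_pow, h3, map_one])
    have hN : (Algebra.norm F (algebraMap F K c))⁻¹ = c := by
      rw [Algebra.norm_algebraMap, hfin]
      exact inv_eq_of_mul_eq_one_right (by rw [← hc]; ring)
    rw [hsc]
    show reindexAlgEquiv F F _ _ = _
    rw [hN]

variable {F : Type*} [Field F] [Fintype F]

/-- The quotient map kills exactly the scalar matrices. -/
theorem mk_psl_eq_one_iff (g : Matrix.SpecialLinearGroup (Fin 3) F) :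
    QuotientGroup.mk' (Subgroup.center (Matrix.SpecialLinearGroup (Fin 3) F)) g = 1 ↔
      IsScalar3 (g : Matrix (Fin 3) (Fin 3) F) := by
  rw [QuotientGroup.mk'_apply, QuotientGroup.eq_one_iff, Matrix.SpecialLinearGroup.mem_center_iff]
  constructor
  · rintro ⟨c, -, hc⟩
    exact ⟨c, hc.symm⟩
  · rintro ⟨c, hc⟩
    refine ⟨c, ?_, hc.symm⟩
    have := g.2
    rw [hc] at this
    simpa [det_diagonal] using this

theorem orderOf_psl_eq (A : Matrix (Fin 3) (Fin 3) F) (hA : A.det = 1) {n : ℕ}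
    (h : ∀ k : ℕ, IsScalar3 (A ^ k) ↔ n ∣ k) :
    ∃ x : ProjectiveSpecialLinearGroup (Fin 3) F, orderOf x = n :=
  ⟨_, orderOf_quot_eq (QuotientGroup.mk' _)
    ((Units.coeHom _).comp Matrix.SpecialLinearGroup.toGL) mk_psl_eq_one_iff ⟨A, hA⟩ h⟩

theorem psl3_upper (p : ℕ) [Fact p.Prime] [CharP F p]
    (x : ProjectiveSpecialLinearGroup (Fin 3) F) :
    ∃ n, Cubic3Target p (Fintype.card F : ℤ) (Nat.gcd 3 (Fintype.card F - 1)) n ∧ x ^ n = 1 := by
  obtain ⟨g, rfl⟩ := QuotientGroup.mk'_surjective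
    (Subgroup.center (Matrix.SpecialLinearGroup (Fin 3) F)) x
  set Q := Fintype.card F with hQ
  have hQ1 : 1 ≤ Q := Fintype.card_pos
  obtain ⟨e, -, he⟩ := FiniteField.card F p
  obtain ⟨n, hn, hsc⟩ := exists_target_isScalar3 p (g : Matrix (Fin 3) (Fin 3) F) g.2 (Q : ℤ)
    (Nat.gcd 3 (Q - 1))
    (by
      have : ((Nat.gcd 3 (Q - 1) : ℕ) : ℤ) ∣ ((Q - 1 : ℕ) : ℤ) :=
        Int.natCast_dvd_natCast.2 (Nat.gcd_dvd_right _ _)
      rwa [Nat.cast_sub hQ1] at this)
    (Nat.gcd_dvd_left _ _)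
    (by
      intro r hne hprod hr
      set f := algebraMap F (AlgebraicClosure F)
      set σ := iterateFrobenius (AlgebraicClosure F) p e
      have hσ : ∀ y, σ y = y ^ Q := fun y => by rw [iterateFrobenius_def, hQ, he]
      have hfix : ((g : Matrix (Fin 3) (Fin 3) F).map f).map σ =
          (g : Matrix (Fin 3) (Fin 3) F).map f := by
        ext i j
        simp only [Matrix.map_apply]
        rw [hσ, ← map_pow, hQ, FiniteField.pow_card]
      have h1 := congrArg Polynomial.roots (charpoly_map_eq_prod σ _ r hr)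
      rw [hfix, hr, roots_prod_three, roots_prod_three] at h1
      conv_rhs => rw [h1]
      rw [Multiset.map_map]
      exact Multiset.map_congr rfl fun i _ => by simp [hσ])
  refine ⟨n, hn, ?_⟩
  rw [← map_pow, mk_psl_eq_one_iff, Matrix.SpecialLinearGroup.coe_pow]
  exact hsc

theorem exists_generator_field (K : Type*) [Field K] [Finite K] :
    ∃ x : K, x ≠ 0 ∧ ∀ m : ℕ, x ^ m = 1 ↔ Nat.card K - 1 ∣ m := by
  obtain ⟨u, hu⟩ := IsCyclic.exists_ofOrder_eq_natCard (α := Kˣ)
  refine ⟨u, u.ne_zero, fun m => ?_⟩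
  rw [← Nat.card_units, ← hu, orderOf_dvd_iff_pow_eq_one, Units.ext_iff, Units.val_pow_eq_pow_val,
    Units.val_one]

theorem sq_sub_one_eq (Q : ℕ) : Q ^ 2 - 1 = (Q + 1) * (Q - 1) := by
  simpa using Nat.sq_sub_sq Q 1

theorem gcd_sq_add_add_one (Q : ℕ) (hQ : 1 ≤ Q) :
    Nat.gcd (Q ^ 2 + Q + 1) (Q - 1) = Nat.gcd 3 (Q - 1) := by
  obtain ⟨t, rfl⟩ := Nat.exists_eq_add_of_le hQ
  rw [Nat.add_sub_cancel_left, show (1 + t) ^ 2 + (1 + t) + 1 = 3 + (t + 3) * t by ring,
    Nat.gcd_add_mul_right_left]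

theorem psl3_lower (p : ℕ) [Fact p.Prime] [CharP F p] {n : ℕ}
    (hn : Cubic3Target p (Fintype.card F : ℤ) (Nat.gcd 3 (Fintype.card F - 1)) n) :
    ∃ x : ProjectiveSpecialLinearGroup (Fin 3) F, orderOf x = n := by
  classical
  set Q := Fintype.card F with hQ
  have hQ2 : 2 ≤ Q := Fintype.one_lt_card
  have hp : p.Prime := Fact.out
  set d := Nat.gcd 3 (Q - 1) with hd
  have hdQ : d ∣ Q - 1 := Nat.gcd_dvd_right _ _
  obtain ⟨e, -, he⟩ := FiniteField.card F p
  obtain ⟨γ, hγ0, hγ⟩ := exists_generator_field F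
  rw [Nat.card_eq_fintype_card] at hγ
  have hcast : ((Q - 1 : ℕ) : ℤ) = (Q : ℤ) - 1 := by rw [Nat.cast_sub (by omega)]; simp
  have e1 : ((Q : ℤ) - 1).natAbs = Q - 1 := by rw [← hcast]; rfl
  have e2 : ((Q : ℤ) ^ 2 - 1).natAbs = Q ^ 2 - 1 := by
    have : ((Q ^ 2 - 1 : ℕ) : ℤ) = (Q : ℤ) ^ 2 - 1 := by
      rw [Nat.cast_sub (Nat.one_le_pow _ _ (by omega))]; simp
    rw [← this]; rfl
  have e3 : ((Q : ℤ) ^ 2 + Q + 1).natAbs = Q ^ 2 + Q + 1 := by
    rw [show (Q : ℤ) ^ 2 + Q + 1 = ((Q ^ 2 + Q + 1 : ℕ) : ℤ) by push_cast; ring]; rfl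
  rcases hn with hn | hn | hn | hn | ⟨hp2, hn⟩
  · -- split torus
    refine orderOf_psl_eq (diagonal ![γ, 1, γ⁻¹]) ?_ fun k => ?_
    · simp [det_diagonal, Fin.prod_univ_three, hγ0]
    · rw [diagonal_pow, isScalar3_diagonal_iff, hn, e1, ← hγ]
      simp only [Pi.pow_apply, Matrix.cons_val_zero, Matrix.cons_val_one, Matrix.cons_val_two,
        Matrix.tail_cons, Matrix.head_cons, one_pow, inv_pow]
      constructor
      · exact fun h => h.1
      · intro h; simp [h]
  · -- semisimple times transvection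
    refine orderOf_psl_eq (jordan3 γ (γ ^ 2)⁻¹ 1) ?_ fun k => ?_
    · rw [jordan3, det_fin_three]
      simp
      field_simp
    · rw [isScalar3_jordan3_pow p hγ0 one_ne_zero, hn, e1]
      have hQp : Q - 1 ≠ 0 := by omega
      have hcop : Nat.Coprime p ((Q - 1) / d) := by
        refine Nat.Coprime.coprime_dvd_right (Nat.div_dvd_of_dvd hdQ) ?_
        rw [hp.coprime_iff_not_dvd]
        intro hdiv
        have h1 : p ∣ Q := by rw [hQ, he]; exact dvd_pow_self p e.ne_zero
        have h2 := Nat.dvd_sub h1 hdiv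
        rw [Nat.sub_sub_self (by omega), Nat.dvd_one] at h2
        exact hp.ne_one h2
      have h3 : γ ^ k = ((γ ^ 2)⁻¹) ^ k ↔ (Q - 1) / d ∣ k := by
        rw [inv_pow, ← mul_eq_one_iff_eq_inv₀ (pow_ne_zero _ (pow_ne_zero _ hγ0)), ← pow_mul, ← pow_add,
          show k + 2 * k = k * 3 by ring, hγ, dvd_mul_iff_div_dvd (d := d) (by rw [hd, hQ, Nat.gcd_comm]) hQp]
      rw [h3, Nat.mul_div_assoc p hdQ]
      exact ⟨fun h => hcop.mul_dvd_of_dvd_of_dvd h.1 h.2,
        fun h => ⟨(dvd_mul_right _ _).trans h, (dvd_mul_left _ _).trans h⟩⟩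
  · -- quadratic torus
    let K := FiniteField.Extension F p 2
    haveI : Fintype K := Fintype.ofFinite K
    have hfin : Module.finrank F K = 2 := FiniteField.finrank_extension F p 2
    let b := Module.finBasisOfFinrankEq F K hfin
    obtain ⟨x, hx0, hx⟩ := exists_generator_field K
    have hK : Nat.card K = Q ^ 2 := by
      rw [Nat.card_eq_fintype_card, Module.card_eq_pow_finrank (K := F), hfin]
    rw [hK] at hx
    refine orderOf_psl_eq (quadTorus b x) (det_quadTorus b hx0) fun k => ?_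
    rw [← map_pow, isScalar3_quadTorus b (pow_ne_zero _ hx0), ← hQ, hn, e2, ← pow_mul, ← pow_mul,
      hx, hx]
    have hdM : d ∣ Q ^ 2 - 1 := hdQ.trans ⟨Q + 1, by rw [sq_sub_one_eq, mul_comm]⟩
    rw [← dvd_mul_iff_div_dvd (e := d) (Nat.gcd_eq_right hdM)
      (by rw [sq_sub_one_eq]; exact Nat.mul_ne_zero (by omega) (by omega))]
    constructor
    · rintro ⟨h1, h2⟩
      rw [hd, ← Nat.gcd_mul_left]
      exact Nat.dvd_gcd h2 h1
    · exact fun h => ⟨h.trans (mul_dvd_mul_left _ hdQ), h.trans (mul_dvd_mul_left _ (Nat.gcd_dvd_left _ _))⟩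
  · -- Singer cycle
    let K := FiniteField.Extension F p 3
    haveI : Fintype K := Fintype.ofFinite K
    have hfin : Module.finrank F K = 3 := FiniteField.finrank_extension F p 3
    let b := Module.finBasisOfFinrankEq F K hfin
    obtain ⟨x, hx0, hx⟩ := exists_generator_field K
    have hK : Nat.card K = Q ^ 3 := by
      rw [Nat.card_eq_fintype_card, Module.card_eq_pow_finrank (K := F), hfin]
    have hfac : Q ^ 3 - 1 = (Q ^ 2 + Q + 1) * (Q - 1) := by
      rw [Nat.mul_sub, mul_one]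
      have : (Q ^ 2 + Q + 1) * Q = Q ^ 3 - 1 + (Q ^ 2 + Q + 1) := by
        have : 1 ≤ Q ^ 3 := Nat.one_le_pow _ _ (by omega)
        have e : (Q ^ 2 + Q + 1) * Q + 1 = Q ^ 3 + (Q ^ 2 + Q + 1) := by ring
        omega
      omega
    rw [hK] at hx
    refine orderOf_psl_eq (Algebra.leftMulMatrix b (x ^ (Q - 1))) ?_ fun k => ?_
    · rw [← Algebra.norm_eq_matrix_det]
      refine (algebraMap F K).injective ?_
      rw [FiniteField.algebraMap_norm_eq_pow, map_one, hK, Nat.card_eq_fintype_card, ← hQ, hfac,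
        Nat.mul_div_cancel _ (by omega), ← pow_mul, hx, hfac, mul_comm]
    · rw [isScalar3_leftMulMatrix_pow b (pow_ne_zero _ hx0), ← hQ, ← pow_mul, hx, hfac, hn, e3,
        mul_comm (Q - 1), Nat.mul_dvd_mul_iff_right (by omega),
        dvd_mul_iff_div_dvd (gcd_sq_add_add_one Q (by omega)) (by positivity)]
  · -- regular unipotent element
    subst hp2 hn
    haveI : Fact (Nat.Prime 2) := ⟨Nat.prime_two⟩
    have h2 : (2 : F) = 0 := by exact_mod_cast CharP.cast_eq_zero F 2
    have hA2 : (!![1, 1, 0; 0, 1, 1; 0, 0, 1] : Matrix (Fin 3) (Fin 3) F) ^ 2 =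
        !![1, 0, 1; 0, 1, 0; 0, 0, 1] := by
      rw [pow_two]
      ext i j
      fin_cases i <;> fin_cases j <;> simp [Matrix.mul_apply, Fin.sum_univ_three, ← two_mul, h2]
    let g : Matrix.SpecialLinearGroup (Fin 3) F :=
      ⟨!![1, 1, 0; 0, 1, 1; 0, 0, 1], by simp [det_fin_three]⟩
    refine ⟨QuotientGroup.mk' (Subgroup.center (Matrix.SpecialLinearGroup (Fin 3) F)) g,
      orderOf_eq_prime_pow (p := 2) (n := 1) ?_ ?_⟩
    · rw [← map_pow, mk_psl_eq_one_iff, Matrix.SpecialLinearGroup.coe_pow, pow_one]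
      show ¬ IsScalar3 (_ ^ 2)
      rw [hA2]
      rintro ⟨c, hc⟩
      have := congrFun (congrFun hc 0) 2
      simp at this
    · rw [← map_pow, mk_psl_eq_one_iff, Matrix.SpecialLinearGroup.coe_pow]
      refine ⟨1, ?_⟩
      show _ ^ (2 ^ 2) = _
      rw [show 2 ^ 2 = 2 * 2 from rfl, pow_mul, hA2, pow_two, map_one]
      ext i j
      fin_cases i <;> fin_cases j <;> simp [Matrix.mul_apply, Fin.sum_univ_three, ← two_mul, h2]

end CfsgLib.Spec53
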