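import Mathlib
import Cfsg.Agent.Spec53.SUSemisimple
import Cfsg.Agent.Classical.Semisimple.OrderRCount

/-!
The classes of elements of odd prime order `r` in `GU_n(q)`.
-/

set_option autoImplicit false

namespace CfsgLib.Spec53

open Polynomial Matrix CfsgLib.Unitary Cfsg CfsgLib.Classical.Semisimple

open scoped _root_.Classical

/-- Products over a family of pairwise coprime non-units determine the multiset. -/
theorem multiset_prod_map_injective {ι R : Type*} [CommRing R] [IsDomain R] (φ : ι → R)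
    (h0 : ∀ i, φ i ≠ 0) (hu : ∀ i, ¬ IsUnit (φ i)) (hco : ∀ i j, i ≠ j → IsCoprime (φ i) (φ j))
    (s t : Multiset ι) (h : (s.map φ).prod = (t.map φ).prod) : s = t := by
  induction s using Multiset.induction_on generalizing t with
  | empty =>
    rcases t.empty_or_exists_mem with rfl | ⟨a, ha⟩
    · rfl
    · exfalso
      obtain ⟨t', rfl⟩ := Multiset.exists_cons_of_mem ha
      rw [Multiset.map_zero, Multiset.prod_zero, Multiset.map_cons, Multiset.prod_cons] at h
      exact hu a ⟨⟨φ a, (t'.map φ).prod, h.symm, by rw [mul_comm]; exact h.symm⟩, rfl⟩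
  | cons a s ih =>
    have hmem : a ∈ t := by
      by_contra hn
      have hc : IsCoprime (φ a) (t.map φ).prod := by
        clear h
        induction t using Multiset.induction_on with
        | empty => simpa using isCoprime_one_right
        | cons b t iht =>
          rw [Multiset.map_cons, Multiset.prod_cons]
          rw [Multiset.mem_cons, not_or] at hn
          exact (hco a b hn.1).mul_right (iht hn.2)
      exact hu a (hc.isUnit_of_dvd' dvd_rfl (by
        rw [← h, Multiset.map_cons, Multiset.prod_cons]; exact dvd_mul_right _ _))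
    obtain ⟨t', rfl⟩ := Multiset.exists_cons_of_mem hmem
    rw [Multiset.map_cons, Multiset.map_cons, Multiset.prod_cons, Multiset.prod_cons] at h
    rw [ih t' (mul_left_cancel₀ (h0 a) h)]

variable {F : Type*} [Field F] [Fintype F] {q n r : ℕ} [hr : Fact r.Prime]

theorem isCoprime_of_irreducible_monic {f g : F[X]} (hf : Irreducible f) (hfm : f.Monic)
    (hg : Irreducible g) (hgm : g.Monic) (h : f ≠ g) : IsCoprime f g :=
  (hf.coprime_iff_not_dvd).2 fun hd =>
    h (eq_of_monic_of_associated hfm hgm (hf.associated_of_dvd hg hd))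

omit [Fintype F] hr in
theorem conjRecip_one (σ : F →+* F) : conjRecip σ (1 : F[X]) = 1 := by
  unfold conjRecip
  rw [Polynomial.map_one, show Polynomial.reverse (1 : F[X]) = 1 by rw [← C_1, reverse_C]]
  simp

omit [Fintype F] hr in
theorem conjRecip_X_sub_one (σ : F →+* F) : conjRecip σ (X - 1 : F[X]) = X - 1 := by
  refine Polynomial.ext fun k => ?_
  have h0 : (X - 1 : F[X]).coeff 0 ≠ 0 := by simp
  have hd : (X - 1 : F[X]).natDegree = 1 := by rw [← C_1]; exact natDegree_X_sub_C 1
  rcases le_or_gt k 1 with hk | hk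
  · rw [coeff_conjRecip (by rw [hd]; exact hk), hd]
    interval_cases k <;> simp [Polynomial.coeff_one]
  · rw [coeff_eq_zero_of_natDegree_lt (by rw [natDegree_conjRecip h0, hd]; exact hk),
      coeff_eq_zero_of_natDegree_lt (by rw [hd]; exact hk)]

omit [Fintype F] in
theorem conjRecip_X_pow_sub_one (σ : F →+* F) :
    conjRecip σ (X ^ r - 1 : F[X]) = X ^ r - 1 := by
  refine Polynomial.ext fun k => ?_
  have hr0 := hr.out.ne_zero
  have h0 : (X ^ r - 1 : F[X]).coeff 0 = -1 := by simp [hr0.symm]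
  have hd : (X ^ r - 1 : F[X]).natDegree = r := by rw [← C_1]; exact natDegree_X_pow_sub_C
  rcases le_or_gt k r with hk | hk
  · rw [coeff_conjRecip (by rw [hd]; exact hk), hd, h0]
    by_cases hk0 : k = 0
    · subst hk0
      simp [hr0, Polynomial.coeff_one, hr0.symm]
    by_cases hkr : k = r
    · subst hkr
      simp [hr0, Polynomial.coeff_one, hr0.symm]
    · have a1 : r - k ≠ r := by omega
      have a2 : r - k ≠ 0 := by omega
      rw [coeff_sub, coeff_sub, coeff_X_pow, coeff_X_pow, coeff_one, coeff_one, if_neg hkr,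
        if_neg a1, if_neg hk0, if_neg a2, sub_zero, map_zero, mul_zero]
  · rw [coeff_eq_zero_of_natDegree_lt (by
      rw [natDegree_conjRecip (by rw [h0]; exact neg_ne_zero.2 one_ne_zero), hd]; exact hk),
      coeff_eq_zero_of_natDegree_lt (by rw [hd]; exact hk)]

omit [Fintype F] in
theorem conjRecip_cyclotomic (σ : F →+* F) :
    conjRecip σ (cyclotomic r F) = cyclotomic r F := by
  refine mul_right_cancel₀ (X_sub_C_ne_zero (1 : F)) ?_
  rw [C_1, cyclotomic_prime_mul_X_sub_one]
  nth_rw 1 [← conjRecip_X_sub_one σ]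
  rw [← conjRecip_mul, cyclotomic_prime_mul_X_sub_one, conjRecip_X_pow_sub_one]

omit [Fintype F] in
theorem coeff_zero_ne_zero_of_mem_orbitPolys {f : F[X]} (hf : f ∈ orbitPolys F r) :
    f.coeff 0 ≠ 0 := fun h => by
  obtain ⟨c, hc⟩ := ((mem_orbitPolys f).1 hf).2.2
  have h1 := cyclotomic_coeff_zero F hr.out.one_lt
  rw [hc, mul_coeff_zero, h, zero_mul] at h1
  exact zero_ne_one h1

theorem conjRecip_mem_orbitPolys (hF : Fintype.card F = q ^ 2) {f : F[X]}
    (hf : f ∈ orbitPolys F r) : conjRecip (conjHom hF) f ∈ orbitPolys F r := by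
  obtain ⟨h1, h2, c, hc⟩ := (mem_orbitPolys f).1 hf
  have h0 := coeff_zero_ne_zero_of_mem_orbitPolys hf
  exact (mem_orbitPolys _).2 ⟨irreducible_conjRecip (conjHom_conjHom hF) h1 h2 h0,
    monic_conjRecip h0, conjRecip (conjHom hF) c, by rw [← conjRecip_mul, ← hc, conjRecip_cyclotomic]⟩

omit [Fintype F] in
theorem ne_X_sub_one_of_mem_orbitPolys (hrF : (r : F) ≠ 0) {f : F[X]}
    (hf : f ∈ orbitPolys F r) : f ≠ X - 1 := by
  intro h
  have h1 := ((mem_orbitPolys f).1 hf).2.2
  rw [h, ← C_1, dvd_iff_isRoot, IsRoot.def, eval_one_cyclotomic_prime] at h1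
  exact hrF h1

/-- The self-dual atoms. -/
noncomputable def atomOf (σ : F →+* F) (f : F[X]) : F[X] :=
  if conjRecip σ f = f then f else f * conjRecip σ f

theorem atomOf_conjRecip (hF : Fintype.card F = q ^ 2) {f : F[X]} (hf : f ∈ orbitPolys F r) :
    atomOf (conjHom hF) (conjRecip (conjHom hF) f) = atomOf (conjHom hF) f := by
  obtain ⟨-, hm, -⟩ := (mem_orbitPolys f).1 hf
  have h := conjRecip_conjRecip (conjHom_conjHom hF) hm (coeff_zero_ne_zero_of_mem_orbitPolys hf)
  by_cases hfix : conjRecip (conjHom hF) f = f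
  · rw [hfix]
  · rw [atomOf, atomOf, h, if_neg hfix, if_neg (Ne.symm hfix), mul_comm]

theorem atomOf_spec (hF : Fintype.card F = q ^ 2) {f : F[X]} (hf : f ∈ orbitPolys F r) :
    (atomOf (conjHom hF) f).Monic ∧
      conjRecip (conjHom hF) (atomOf (conjHom hF) f) = atomOf (conjHom hF) f ∧
      f ∣ atomOf (conjHom hF) f ∧ atomOf (conjHom hF) f ∣ cyclotomic r F ∧
      ∀ g ∈ orbitPolys F r, g ∣ atomOf (conjHom hF) f →
        atomOf (conjHom hF) g = atomOf (conjHom hF) f := by
  obtain ⟨hi, hm, hd⟩ := (mem_orbitPolys f).1 hf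
  obtain ⟨hi', hm', hd'⟩ := (mem_orbitPolys _).1 (conjRecip_mem_orbitPolys hF hf)
  have h0 := coeff_zero_ne_zero_of_mem_orbitPolys hf
  by_cases hfix : conjRecip (conjHom hF) f = f
  · have e : atomOf (conjHom hF) f = f := if_pos hfix
    refine ⟨by rwa [e], by rw [e, hfix], by rw [e], by rw [e]; exact hd, fun g hg hgd => ?_⟩
    rw [e] at hgd
    obtain ⟨gi, gm, -⟩ := (mem_orbitPolys g).1 hg
    rw [eq_of_monic_of_associated gm hm (gi.associated_of_dvd hi hgd)]
  · have e : atomOf (conjHom hF) f = f * conjRecip (conjHom hF) f := if_neg hfix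
    refine ⟨by rw [e]; exact hm.mul hm', ?_, by rw [e]; exact dvd_mul_right _ _,
      by rw [e]; exact (isCoprime_of_irreducible_monic hi hm hi' hm' (Ne.symm hfix)).mul_dvd hd hd',
      fun g hg hgd => ?_⟩
    · rw [e, conjRecip_mul, conjRecip_conjRecip (conjHom_conjHom hF) hm h0, mul_comm]
    · rw [e] at hgd
      obtain ⟨gi, gm, -⟩ := (mem_orbitPolys g).1 hg
      rcases gi.prime.dvd_or_dvd hgd with h | h
      · rw [eq_of_monic_of_associated gm hm (gi.associated_of_dvd hi h)]
      · rw [eq_of_monic_of_associated gm hm' (gi.associated_of_dvd hi' h), atomOf_conjRecip hF hf]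

theorem isCoprime_atomOf (hF : Fintype.card F = q ^ 2) {f g : F[X]} (hf : f ∈ orbitPolys F r)
    (hg : g ∈ orbitPolys F r) (h : atomOf (conjHom hF) f ≠ atomOf (conjHom hF) g) :
    IsCoprime (atomOf (conjHom hF) f) (atomOf (conjHom hF) g) := by
  have key : ∀ a ∈ orbitPolys F r, ∀ b ∈ orbitPolys F r,
      atomOf (conjHom hF) a ≠ atomOf (conjHom hF) b → IsCoprime a b := fun a ha b hb hab => by
    obtain ⟨ai, am, -⟩ := (mem_orbitPolys a).1 ha
    obtain ⟨bi, bm, -⟩ := (mem_orbitPolys b).1 hb
    exact isCoprime_of_irreducible_monic ai am bi bm fun e => hab (by rw [e])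
  have hf' := conjRecip_mem_orbitPolys hF hf
  have hg' := conjRecip_mem_orbitPolys hF hg
  have ef := atomOf_conjRecip hF hf
  have eg := atomOf_conjRecip hF hg
  have c1 := key f hf g hg h
  have c2 := key f hf _ hg' (by rwa [eg])
  have c3 := key _ hf' g hg (by rwa [ef])
  have c4 := key _ hf' _ hg' (by rwa [ef, eg])
  unfold atomOf
  split_ifs
  · exact c1
  · exact c1.mul_right c2
  · exact c1.mul_left c3
  · exact (c1.mul_right c2).mul_left (c3.mul_right c4)

/-- Frobenius conjugates and the dual of an irreducible factor of the cyclotomic polynomial. -/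
theorem conjRecip_eq_self_iff (hF : Fintype.card F = q ^ 2) (hrF : (r : F) ≠ 0) {f : F[X]}
    (hf : f ∈ orbitPolys F r) :
    conjRecip (conjHom hF) f = f ↔ ∃ k : ℕ, ((q : ZMod r) ^ 2) ^ k = -(q : ZMod r) := by
  obtain ⟨hi, hm, hd⟩ := (mem_orbitPolys f).1 hf
  obtain ⟨p, e, hp, hc, -, hq⟩ := exists_char hF
  haveI := hc
  haveI := Fact.mk hp
  haveI := Fact.mk hi
  set E := AdjoinRoot f
  haveI : CharP E p := charP_of_injective_algebraMap (algebraMap F E).injective p
  haveI : NeZero (r : E) := ⟨by rw [← map_natCast (algebraMap F E)]; exact (_root_.map_ne_zero _).2 hrF⟩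
  set ζ : E := AdjoinRoot.root f
  have hζf : aeval ζ f = 0 := by
    rw [AdjoinRoot.aeval_eq]; exact AdjoinRoot.mk_self
  have hζ : IsPrimitiveRoot ζ r := by
    rw [← Polynomial.isRoot_cyclotomic_iff, IsRoot.def, ← map_cyclotomic r (algebraMap F E),
      eval_map, ← aeval_def]
    obtain ⟨c, hc⟩ := hd
    rw [hc, map_mul, hζf, zero_mul]
  have hpow : ∀ a b : ℕ, ζ ^ a = ζ ^ b ↔ (a : ZMod r) = (b : ZMod r) := fun a b => by
    rw [ZMod.natCast_eq_natCast_iff, (hζ.isOfFinOrder hr.out.ne_zero).pow_eq_pow_iff_modEq,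
      ← hζ.eq_orderOf]
  have hroot : ∀ k : ℕ, aeval (ζ ^ (Fintype.card F ^ k)) f = 0 := by
    intro k
    induction k with
    | zero => rwa [pow_zero, pow_one]
    | succ k ih =>
      rw [pow_succ, pow_mul, ← expand_aeval, FiniteField.expand_card, map_pow, ih,
        zero_pow Fintype.card_ne_zero]
  have hqq : (Fintype.card F : ZMod r) = (q : ZMod r) ^ 2 := by rw [hF, Nat.cast_pow]
  have hdeg : f.natDegree = orderOf (Fintype.card F : ZMod r) :=
    natDegree_of_dvd_cyclotomic hrF hi hd
  have hall : ∀ y : E, aeval y f = 0 → ∃ k, y = ζ ^ (Fintype.card F ^ k) := by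
    intro y hy
    by_contra hne
    push Not at hne
    set S := (Finset.range f.natDegree).image fun k => ζ ^ (Fintype.card F ^ k)
    have hS : S.card = f.natDegree := by
      rw [Finset.card_image_of_injOn, Finset.card_range]
      intro a ha b hb hab
      simp only [Finset.coe_range, Set.mem_Iio] at ha hb
      have := (hpow _ _).1 hab
      rw [Nat.cast_pow, Nat.cast_pow] at this
      exact pow_injOn_Iio_orderOf (by rw [← hdeg]; exact ha) (by rw [← hdeg]; exact hb) this
    have hsub : insert y S ⊆ (f.map (algebraMap F E)).roots.toFinset := by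
      intro z hz
      rw [Multiset.mem_toFinset, mem_roots (map_ne_zero hm.ne_zero), IsRoot.def, eval_map,
        ← aeval_def]
      rcases Finset.mem_insert.1 hz with rfl | hz
      · exact hy
      · obtain ⟨k, -, rfl⟩ := Finset.mem_image.1 hz
        exact hroot k
    have h1 := (Finset.card_le_card hsub).trans
      ((Multiset.toFinset_card_le _).trans (card_roots' _))
    rw [natDegree_map, Finset.card_insert_of_notMem (fun hy' => by
      obtain ⟨k, -, hk⟩ := Finset.mem_image.1 hy'
      exact hne k hk.symm), hS] at h1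
    omega
  set y : E := (ζ ^ q)⁻¹
  have hy : aeval y (conjRecip (conjHom hF) f) = 0 := by
    have hfr : ∀ x : E, iterateFrobenius E p e x = x ^ q := fun x => by
      rw [iterateFrobenius_def, hq]
    have hcomp : (iterateFrobenius E p e).comp (algebraMap F E) =
        (algebraMap F E).comp (conjHom hF) := RingHom.ext fun x => by
      rw [RingHom.comp_apply, RingHom.comp_apply, hfr, conjHom_apply, map_pow]
    have h1 : Polynomial.eval₂ (algebraMap F E) (ζ ^ q) (f.map (conjHom hF)) = 0 := by
      rw [eval₂_map, ← hcomp, ← hfr, ← hom_eval₂, ← aeval_def, hζf, map_zero]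
    haveI : Invertible (ζ ^ q) := invertibleOfNonzero (pow_ne_zero _ (hζ.ne_zero hr.out.ne_zero))
    unfold conjRecip
    rw [map_mul, aeval_def y (Polynomial.reverse _),
      show y = ⅟(ζ ^ q) from (invOf_eq_inv _).symm,
      (eval₂_reverse_eq_zero_iff (algebraMap F E) (ζ ^ q) _).2 h1, mul_zero]
  have hyiff : ∀ k : ℕ, y = ζ ^ (Fintype.card F ^ k) ↔
      ((q : ZMod r) ^ 2) ^ k = -(q : ZMod r) := fun k => by
    rw [inv_eq_iff_eq_inv, ← mul_eq_one_iff_eq_inv₀ (pow_ne_zero _ (hζ.ne_zero hr.out.ne_zero)),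
      ← pow_add, ← pow_zero ζ, hpow, Nat.cast_add, Nat.cast_pow, hqq, Nat.cast_zero, add_comm,
      add_eq_zero_iff_eq_neg]
  constructor
  · intro hfix
    rw [hfix] at hy
    obtain ⟨k, hk⟩ := hall y hy
    exact ⟨k, (hyiff k).1 hk⟩
  · rintro ⟨k, hk⟩
    obtain ⟨hi', hm', -⟩ := (mem_orbitPolys _).1 (conjRecip_mem_orbitPolys hF hf)
    have hyf : aeval y f = 0 := by rw [(hyiff k).2 hk]; exact hroot k
    have e1 : minpoly F y = f := (minpoly.eq_of_irreducible_of_monic hi hyf hm).symm
    have e2 : minpoly F y = conjRecip (conjHom hF) f :=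
      (minpoly.eq_of_irreducible_of_monic hi' hy hm').symm
    rw [← e2, e1]

omit hr in
/-- `-q` is a power of `q ^ 2` modulo `r` exactly when the order of `q` is twice an odd number. -/
theorem exists_pow_eq_neg_iff {r : ℕ} [Fact r.Prime] (hr2 : r ≠ 2) {u : ZMod r} (hu : u ≠ 0) :
    (∃ k : ℕ, (u ^ 2) ^ k = -u) ↔ orderOf u % 4 = 2 := by
  haveI : Fact (2 < r) := ⟨by have := (Fact.out : r.Prime).two_le; omega⟩
  have hpos : 0 < orderOf u := orderOf_pos_iff.mpr (isOfFinOrder_iff_pow_eq_one.mpr
    ⟨r - 1, by have := (Fact.out : r.Prime).two_le; omega, ZMod.pow_card_sub_one_eq_one hu⟩)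
  set i := orderOf u
  have hne : (-1 : ZMod r) ≠ 1 := ZMod.neg_one_ne_one
  constructor
  · rintro ⟨k, hk⟩
    obtain ⟨j, hj⟩ : ∃ j, 2 * (k + i) = j + 1 := ⟨2 * (k + i) - 1, by omega⟩
    have h1 : u ^ j = -1 := by
      refine mul_right_cancel₀ hu ?_
      rw [← pow_succ, ← hj, mul_add, pow_add, pow_mul, hk, mul_comm 2 i, pow_mul,
        pow_orderOf_eq_one, one_pow, mul_one, neg_one_mul]
    have hd : i ∣ 2 * j := orderOf_dvd_of_pow_eq_one (by
      rw [mul_comm, pow_mul, h1, neg_one_sq])
    have hnd : ¬ i ∣ j := fun h => hne (by rw [← h1, orderOf_dvd_iff_pow_eq_one.1 h])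
    rcases Nat.even_or_odd i with ⟨a, ha⟩ | hodd
    · have ha2 : a ∣ j := by
        obtain ⟨c, hc⟩ := hd
        exact ⟨c, by rw [ha] at hc; linarith⟩
      obtain ⟨c, hc⟩ := ha2
      rcases Nat.even_or_odd a with ⟨b, hb⟩ | ⟨b, hb⟩
      · rw [hc, hb] at hj; exfalso; ring_nf at hj; omega
      · omega
    · exact absurd ((Nat.Coprime.dvd_mul_left (hodd.coprime_two_right)).1 hd) hnd
  · intro h4
    obtain ⟨a, ha⟩ : ∃ a, i = 2 * (2 * a + 1) := ⟨i / 4, by omega⟩
    have h1 : u ^ (2 * a + 1) = -1 := by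
      have h := mul_self_eq_one_iff.1 (show u ^ (2 * a + 1) * u ^ (2 * a + 1) = 1 by
        rw [← pow_add, ← two_mul, ← ha, pow_orderOf_eq_one])
      refine h.resolve_left fun h1 => ?_
      have := Nat.le_of_dvd (by omega) (orderOf_dvd_of_pow_eq_one h1)
      omega
    refine ⟨a + 1, ?_⟩
    rw [← pow_mul, show 2 * (a + 1) = (2 * a + 1) + 1 by ring, pow_succ, h1, neg_one_mul]

/-- The set of atoms. -/
noncomputable def atoms (σ : F →+* F) (r : ℕ) : Finset F[X] := (orbitPolys F r).image (atomOf σ)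

/-- A self-dual polynomial all of whose factors divide `X ^ r - 1` is a product of atoms. -/
theorem exists_atoms_prod (hF : Fintype.card F = q ^ 2) (P : F[X]) (hm : P.Monic)
    (h0 : P.coeff 0 ≠ 0) (hP : conjRecip (conjHom hF) P = P)
    (hfac : ∀ f : F[X], Irreducible f → f.Monic → f ∣ P → f = X - 1 ∨ f ∈ orbitPolys F r) :
    ∃ (D : Multiset (atoms (conjHom hF) r)) (j : ℕ),
      P = (D.map Subtype.val).prod * (X - 1) ^ j := by
  induction hd : P.natDegree using Nat.strong_induction_on generalizing P with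
  | _ d ih =>
    rcases Nat.eq_zero_or_pos d with rfl | hpos
    · exact ⟨0, 0, by simp [eq_one_of_monic_natDegree_zero hm hd]⟩
    obtain ⟨f, hfm, hfi, hfd⟩ := exists_monic_irreducible_factor P (fun h => by
      have := natDegree_eq_zero_of_isUnit h; omega)
    obtain ⟨a, haM, haP, had, hapos, hcase⟩ : ∃ a : F[X], a.Monic ∧ conjRecip (conjHom hF) a = a ∧
        a ∣ P ∧ 0 < a.natDegree ∧ ((a = X - 1) ∨ a ∈ atoms (conjHom hF) r) := by
      rcases hfac f hfi hfm hfd with rfl | hf
      · exact ⟨_, hfm, conjRecip_X_sub_one _, hfd, hfi.natDegree_pos, Or.inl rfl⟩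
      · obtain ⟨h1, h2, h3, -⟩ := atomOf_spec hF hf
        refine ⟨_, h1, h2, ?_, ?_, Or.inr (Finset.mem_image_of_mem _ hf)⟩
        · unfold atomOf
          split_ifs with hfix
          · exact hfd
          · obtain ⟨hi', hm', -⟩ := (mem_orbitPolys _).1 (conjRecip_mem_orbitPolys hF hf)
            obtain ⟨c, hc⟩ := hfd
            exact (isCoprime_of_irreducible_monic hfi hfm hi' hm' (Ne.symm hfix)).mul_dvd ⟨c, hc⟩
              ⟨conjRecip (conjHom hF) c, by rw [← conjRecip_mul, ← hc, hP]⟩
        · exact hfi.natDegree_pos.trans_le (natDegree_le_of_dvd h3 h1.ne_zero)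
    obtain ⟨R, rfl⟩ := had
    have hRm : R.Monic := haM.of_mul_monic_left hm
    have hR0 : R.coeff 0 ≠ 0 := fun h => h0 (by rw [mul_coeff_zero, h, mul_zero])
    have hR : conjRecip (conjHom hF) R = R := by
      refine mul_left_cancel₀ haM.ne_zero ?_
      nth_rw 1 [← haP]
      rw [← conjRecip_mul, hP]
    obtain ⟨D, j, hDj⟩ := ih R.natDegree (by
        rw [haM.natDegree_mul hRm] at hd; omega) R hRm hR0 hR
      (fun f h1 h2 h3 => hfac f h1 h2 (h3.trans (dvd_mul_left _ _))) rfl
    rcases hcase with rfl | ha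
    · exact ⟨D, j + 1, by rw [hDj, pow_succ]; ring⟩
    · exact ⟨⟨a, ha⟩ ::ₘ D, j, by rw [hDj, Multiset.map_cons, Multiset.prod_cons, mul_assoc]⟩

variable (p : ℕ) [Fact p.Prime] [CharP F p]

/-- Classes of elements with `r`-th power one correspond to multisets of atoms. -/
theorem card_gu_classes_pow_eq_one (hF : Fintype.card F = q ^ 2) (hrp : r ≠ p) {d : ℕ}
    (hd0 : 0 < d) (hd : ∀ a ∈ atoms (conjHom hF) r, a.natDegree = d) :
    Nat.card {C : ConjClasses ↥(GU n F q) // ∃ g, ConjClasses.mk g = C ∧ g ^ r = 1} =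
      ((atoms (conjHom hF) r).card + n / d).choose (n / d) := by
  have hrF : (r : F) ≠ 0 := fun h => hrp ((Nat.prime_dvd_prime_iff_eq (Fact.out : p.Prime)
    hr.out).mp ((CharP.cast_eq_zero_iff F p r).mp h)).symm
  set A := atoms (conjHom hF) r
  set φ : Option A → F[X] := fun o => o.elim ((X - 1) ^ d) Subtype.val
  have hX : (X - 1 : F[X]).natDegree = 1 ∧ (X - 1 : F[X]).Monic ∧ Irreducible (X - 1 : F[X]) ∧
      (X - 1 : F[X]).coeff 0 ≠ 0 := by
    refine ⟨?_, ?_, ?_, by simp⟩
    · rw [← C_1]; exact natDegree_X_sub_C 1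
    · rw [← C_1]; exact monic_X_sub_C 1
    · rw [← C_1]; exact irreducible_X_sub_C 1
  have hA : ∀ a : A, ∃ f ∈ orbitPolys F r, atomOf (conjHom hF) f = a := fun a =>
    Finset.mem_image.1 a.2
  have hφm : ∀ o, (φ o).Monic := by
    rintro (_ | a)
    · exact hX.2.1.pow d
    · obtain ⟨f, hf, he⟩ := hA a
      show (a : F[X]).Monic
      rw [← he]; exact (atomOf_spec hF hf).1
  have hφd : ∀ o, (φ o).natDegree = d := by
    rintro (_ | a)
    · show ((X - 1 : F[X]) ^ d).natDegree = d
      rw [hX.2.1.natDegree_pow, hX.1, mul_one]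
    · exact hd _ a.2
  have hφs : ∀ o, conjRecip (conjHom hF) (φ o) = φ o := by
    have key : ∀ j : ℕ, conjRecip (conjHom hF) ((X - 1 : F[X]) ^ j) = (X - 1) ^ j := by
      intro j
      induction j with
      | zero => exact conjRecip_one _
      | succ j ih => rw [pow_succ, conjRecip_mul, ih, conjRecip_X_sub_one]
    rintro (_ | a)
    · exact key d
    · obtain ⟨f, hf, he⟩ := hA a
      show conjRecip (conjHom hF) (a : F[X]) = a
      rw [← he]; exact (atomOf_spec hF hf).2.1
  have hXnd : ∀ f ∈ orbitPolys F r, ¬ (X - 1 : F[X]) ∣ atomOf (conjHom hF) f := fun f hf h => by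
    have h1 : (X - 1 : F[X]) ∣ cyclotomic r F := h.trans (atomOf_spec hF hf).2.2.2.1
    exact ne_X_sub_one_of_mem_orbitPolys hrF
      ((mem_orbitPolys _).2 ⟨hX.2.2.1, hX.2.1, h1⟩) rfl
  have hφc : ∀ o o', o ≠ o' → IsCoprime (φ o) (φ o') := by
    rintro (_ | a) (_ | b) hne
    · exact absurd rfl hne
    · obtain ⟨f, hf, he⟩ := hA b
      show IsCoprime ((X - 1 : F[X]) ^ d) (b : F[X])
      rw [← he]
      exact ((hX.2.2.1.coprime_iff_not_dvd).2 (hXnd f hf)).pow_left
    · obtain ⟨f, hf, he⟩ := hA a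
      show IsCoprime (a : F[X]) ((X - 1 : F[X]) ^ d)
      rw [← he]
      exact ((hX.2.2.1.coprime_iff_not_dvd).2 (hXnd f hf)).pow_left.symm
    · obtain ⟨f, hf, he⟩ := hA a
      obtain ⟨g, hg, he'⟩ := hA b
      show IsCoprime (a : F[X]) (b : F[X])
      rw [← he, ← he']
      exact isCoprime_atomOf hF hf hg (by
        rw [he, he']; exact fun e => hne (congrArg some (Subtype.ext e)))
  set P : Sym (Option A) (n / d) → F[X] := fun s =>
    (X - 1) ^ (n % d) * ((s : Multiset (Option A)).map φ).prod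
  have hPm : ∀ s, (P s).Monic := fun s => (hX.2.1.pow _).mul
    (monic_multiset_prod_of_monic _ _ fun o _ => hφm o)
  have hPdeg : ∀ s, (P s).natDegree = n := fun s => by
    rw [(hX.2.1.pow _).natDegree_mul (monic_multiset_prod_of_monic _ _ fun o _ => hφm o),
      hX.2.1.natDegree_pow, hX.1, mul_one,
      natDegree_multiset_prod_of_monic _ (fun f hf => by
        obtain ⟨o, -, rfl⟩ := Multiset.mem_map.1 hf; exact hφm o),
      Multiset.map_map, Multiset.map_congr rfl (fun o _ => show (natDegree ∘ φ) o = d from hφd o),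
      Multiset.map_const', Multiset.sum_replicate, smul_eq_mul,
      show Multiset.card (s : Multiset (Option A)) = n / d from s.2]
    exact Nat.mod_add_div' n d
  have hPs : ∀ s, conjRecip (conjHom hF) (P s) = P s := fun s => by
    have key : ∀ t : Multiset (Option A),
        conjRecip (conjHom hF) (t.map φ).prod = (t.map φ).prod := by
      intro t
      induction t using Multiset.induction_on with
      | empty => simpa using conjRecip_one (conjHom hF)
      | cons o t ih => rw [Multiset.map_cons, Multiset.prod_cons, conjRecip_mul, hφs, ih]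
    have key2 : ∀ j : ℕ, conjRecip (conjHom hF) ((X - 1 : F[X]) ^ j) = (X - 1) ^ j := by
      intro j
      induction j with
      | zero => exact conjRecip_one _
      | succ j ih => rw [pow_succ, conjRecip_mul, ih, conjRecip_X_sub_one]
    rw [conjRecip_mul, key, key2]
  have hPf : ∀ s, ∀ f : F[X], Irreducible f → f.Monic → f ∣ P s → f ∣ X ^ r - 1 := by
    intro s f hfi hfm hfd
    rw [← cyclotomic_prime_mul_X_sub_one]
    rcases hfi.prime.dvd_or_dvd hfd with h | h
    · exact (hfi.prime.dvd_of_dvd_pow h).trans (dvd_mul_left _ _)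
    · obtain ⟨o, ho, hfo⟩ := hfi.prime.exists_mem_multiset_map_dvd h
      rcases o with _ | a
      · exact (hfi.prime.dvd_of_dvd_pow hfo).trans (dvd_mul_left _ _)
      · obtain ⟨g, hg, he⟩ := hA a
        refine (hfo.trans ?_).trans (dvd_mul_right _ _)
        show (a : F[X]) ∣ cyclotomic r F
        rw [← he]
        exact (atomOf_spec hF hg).2.2.2.1
  have hP0 : ∀ s, (P s).coeff 0 ≠ 0 := fun s h => by
    rw [coeff_zero_eq_eval_zero] at h
    obtain ⟨f, hfi, hfd⟩ : ∃ f : F[X], Irreducible f ∧ f ∣ P s ∧ f.Monic ∧ f.eval 0 = 0 :=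
      ⟨X, irreducible_X, X_dvd_iff.2 (by rwa [coeff_zero_eq_eval_zero]), monic_X, eval_X⟩
    have h1 := Polynomial.eval_dvd (x := (0 : F)) (hPf s f hfi hfd.2.1 hfd.1)
    rw [hfd.2.2, zero_dvd_iff] at h1
    simp [hr.out.ne_zero] at h1
  have hcop : ∀ g : ↥(GU n F q), g ^ r = 1 → (orderOf g).Coprime p := fun g hg =>
    Nat.Coprime.coprime_dvd_left (orderOf_dvd_of_pow_eq_one hg)
      ((Nat.coprime_primes hr.out Fact.out).mpr hrp)
  choose G hG hGc using fun s => exists_gu_charpoly p hF (hPm s) (hPdeg s) (hP0 s) (hPs s)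
  have hGr : ∀ s, G s ^ r = 1 := fun s => by
    refine Subtype.ext (Units.ext (Matrix.toLin'.injective ?_))
    have h := aeval_eq_zero_of_forall_dvd
      (gl_isSemisimple (ι := Fin n) p (g := (G s : GL (Fin n) F))
        (by rw [Subgroup.orderOf_coe]; exact hG s))
      (Q := X ^ r - 1) (fun f hfi hfm hfd => hPf s f hfi hfm (by
        rwa [Matrix.charpoly_toLin', hGc] at hfd))
    rw [SubgroupClass.coe_pow, Units.val_pow_eq_pow_val, Matrix.toLin'_pow, OneMemClass.coe_one,
      Units.val_one, Matrix.toLin'_one]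
    simpa [sub_eq_zero, Module.End.one_eq_id] using h
  have hcard : Nat.card (Sym (Option A) (n / d)) = (A.card + n / d).choose (n / d) := by
    rw [Nat.card_eq_fintype_card, Sym.card_sym_eq_choose, Fintype.card_option, Fintype.card_coe]
    rw [Nat.add_right_comm, Nat.add_sub_cancel]
  rw [← hcard]
  symm
  refine Nat.card_eq_of_bijective (fun s => ⟨ConjClasses.mk (G s), G s, rfl, hGr s⟩) ⟨?_, ?_⟩
  · intro s t hst
    obtain ⟨u, hu⟩ := isConj_iff.1 (MonoidHom.map_isConj (GU n F q).subtype
      (ConjClasses.mk_eq_mk_iff_isConj.1 (congrArg Subtype.val hst)))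
    have heq : P s = P t := by
      rw [← hGc s, ← hGc t, show ((G t : GL (Fin n) F)) = u * (G s : GL (Fin n) F) * u⁻¹ from hu.symm,
        Units.val_mul, Units.val_mul, Matrix.coe_units_inv, Matrix.charpoly_units_conj]
    exact Sym.coe_injective (multiset_prod_map_injective φ (fun o => (hφm o).ne_zero)
      (fun o hu => by
        have := natDegree_eq_zero_of_isUnit hu
        rw [hφd] at this
        omega) hφc _ _
      (mul_left_cancel₀ (pow_ne_zero _ hX.2.1.ne_zero) heq))
  · rintro ⟨C, g, rfl, hg⟩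
    set χ := ((g : GL (Fin n) F) : Matrix (Fin n) (Fin n) F).charpoly with hχ
    have hχm : χ.Monic := Matrix.charpoly_monic _
    have hgr : ((g : GL (Fin n) F) : Matrix (Fin n) (Fin n) F) ^ r = 1 := by
      rw [← Units.val_pow_eq_pow_val, ← SubgroupClass.coe_pow, hg]; rfl
    have hfac : ∀ f : F[X], Irreducible f → f.Monic → f ∣ χ →
        f = X - 1 ∨ f ∈ orbitPolys F r := by
      intro f hfi hfm hfd
      have hpow : (Matrix.toLin' ((g : GL (Fin n) F) : Matrix (Fin n) (Fin n) F) :
          Module.End F (Fin n → F)) ^ r = 1 := by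
        rw [← Matrix.toLin'_pow, hgr, Matrix.toLin'_one]; rfl
      obtain ⟨v, hv, hv0⟩ := exists_apply_eq_zero_of_dvd_charpoly
        (isSemisimple_of_pow_eq_one hrF hpow) hfi hfm (by rwa [Matrix.charpoly_toLin'])
      have hdvd : f ∣ X ^ r - 1 := by
        by_contra hnd
        obtain ⟨a, b, hab⟩ := hfi.coprime_iff_not_dvd.mpr hnd
        have := congrArg (fun T => aeval (Matrix.toLin' ((g : GL (Fin n) F) :
          Matrix (Fin n) (Fin n) F) : Module.End F (Fin n → F)) T v) hab
        simp [hv0, hpow] at this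
        exact hv this.symm
      rw [← cyclotomic_prime_mul_X_sub_one] at hdvd
      rcases hfi.prime.dvd_or_dvd hdvd with h | h
      · exact Or.inr ((mem_orbitPolys f).mpr ⟨hfi, hfm, h⟩)
      · exact Or.inl (eq_of_monic_of_associated hfm hX.2.1 (hfi.associated_of_dvd hX.2.2.1 h))
    obtain ⟨D, j, hDj⟩ := exists_atoms_prod hF χ hχm (coeff_zero_charpoly_ne_zero _)
      (conjRecip_charpoly_of_mem hF g.2) hfac
    have hDm : (D.map Subtype.val).prod.Monic :=
      monic_multiset_prod_of_monic _ _ fun a _ => hφm (some a)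
    have hdeg : Multiset.card D * d + j = n := by
      have h1 := congrArg natDegree hDj
      rw [hDm.natDegree_mul (hX.2.1.pow _), hX.2.1.natDegree_pow, hX.1, mul_one,
        natDegree_multiset_prod_of_monic _ (fun f hf => by
          obtain ⟨a, -, rfl⟩ := Multiset.mem_map.1 hf; exact hφm (some a)),
        Multiset.map_map, Multiset.map_congr rfl
          (fun a _ => show (natDegree ∘ Subtype.val) a = d from hφd (some a)),
        Multiset.map_const', Multiset.sum_replicate, smul_eq_mul,
        show χ.natDegree = n from (Matrix.charpoly_natDegree_eq_dim _).trans (Fintype.card_fin n)]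
        at h1
      exact h1.symm
    have hle : Multiset.card D ≤ n / d := (Nat.le_div_iff_mul_le hd0).2 (by omega)
    let s : Sym (Option A) (n / d) :=
      ⟨D.map some + Multiset.replicate (n / d - Multiset.card D) none, by simp; omega⟩
    refine ⟨s, Subtype.ext (ConjClasses.mk_eq_mk_iff_isConj.2
      (gu_isConj_of_charpoly_eq p hF (hG s) (hcop g hg) ?_))⟩
    have hs : (s : Multiset (Option A)) =
        D.map some + Multiset.replicate (n / d - Multiset.card D) none := rfl
    rw [hGc, ← hχ, hDj]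
    show (X - 1 : F[X]) ^ (n % d) * ((s : Multiset (Option A)).map φ).prod = _
    rw [hs]
    rw [Multiset.map_add, Multiset.prod_add, Multiset.map_map, Multiset.map_replicate,
      Multiset.prod_replicate, show φ none = (X - 1) ^ d from rfl, ← pow_mul,
      show φ ∘ some = Subtype.val from rfl,
      show j = n % d + d * (n / d - Multiset.card D) by
        have h1 := Nat.mod_add_div n d
        rw [Nat.mul_sub]
        have h2 := Nat.mul_le_mul_left d hle
        rw [mul_comm d (Multiset.card D)] at h2 ⊢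
        omega,
      pow_add]
    ring

/-- The number of classes of elements of order `r` in `GU_n(q)`. -/
theorem card_gu_classes_orderOf (hF : Fintype.card F = q ^ 2) (hrp : r ≠ p) (hr2 : r ≠ 2)
    {b s : ℕ} (hi2 : orderOf (q : ZMod r) ≠ 2)
    (hb : b = if Odd (orderOf (q : ZMod r)) then orderOf (q : ZMod r)
      else orderOf (q : ZMod r) / 2)
    (hs : s * b = r - 1) :
    Nat.card {C : ConjClasses ↥(GU n F q) // ∃ g, ConjClasses.mk g = C ∧ orderOf g = r} =
      if orderOf (q : ZMod r) % 4 = 2 then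
        Nat.choose (2 * n / orderOf (q : ZMod r) + s) s - 1
      else Nat.choose (n / (2 * b) + s / 2) (s / 2) - 1 := by
  have hrF : (r : F) ≠ 0 := fun h => hrp ((Nat.prime_dvd_prime_iff_eq (Fact.out : p.Prime)
    hr.out).mp ((CharP.cast_eq_zero_iff F p r).mp h)).symm
  have hq0 : (q : ZMod r) ≠ 0 := fun h => card_ne_zero_mod hrF (by rw [hF, Nat.cast_pow, h]; simp)
  have hb' : orderOf (Fintype.card F : ZMod r) = b := by
    rw [hF, Nat.cast_pow, orderOf_pow' _ two_ne_zero, hb]
    split_ifs with h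
    · rw [Nat.Coprime.gcd_eq_one h.coprime_two_right, Nat.div_one]
    · rw [Nat.not_odd_iff_even, even_iff_two_dvd] at h
      rw [Nat.gcd_eq_right h]
  have hbpos : 0 < b := hb' ▸ orderOf_card_pos hrF
  have hcardO : (orbitPolys F r).card = s := by
    have h1 := card_orbitPolys_mul (F := F) (r := r) hrF
    rw [hb', ← hs] at h1
    exact Nat.eq_of_mul_eq_mul_right hbpos h1
  have hdeg : ∀ f ∈ orbitPolys F r, f.natDegree = b := fun f hf => by
    rw [natDegree_of_dvd_cyclotomic hrF ((mem_orbitPolys f).1 hf).1 ((mem_orbitPolys f).1 hf).2.2,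
      hb']
  have hfix : ∀ f ∈ orbitPolys F r, conjRecip (conjHom hF) f = f ↔
      orderOf (q : ZMod r) % 4 = 2 := fun f hf => by
    rw [conjRecip_eq_self_iff hF hrF hf, exists_pow_eq_neg_iff hr2 hq0]
  have hid : Nat.card {C : ConjClasses ↥(GU n F q) // ∃ g, ConjClasses.mk g = C ∧ orderOf g = r} =
      Nat.card {C : ConjClasses ↥(GU n F q) // ∃ g, ConjClasses.mk g = C ∧ g ^ r = 1} - 1 := by
    haveI : Finite ↥(GU n F q) := inferInstance
    have hset : {C : ConjClasses ↥(GU n F q) | ∃ g, ConjClasses.mk g = C ∧ orderOf g = r} =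
        {C : ConjClasses ↥(GU n F q) | ∃ g, ConjClasses.mk g = C ∧ g ^ r = 1} \
          {ConjClasses.mk 1} := by
      ext C
      constructor
      · rintro ⟨g, rfl, hg⟩
        refine ⟨⟨g, rfl, by rw [← hg]; exact pow_orderOf_eq_one g⟩, fun h => ?_⟩
        have h2 : g = 1 := isConj_one_left.1 (ConjClasses.mk_eq_mk_iff_isConj.1 h)
        rw [h2, orderOf_one] at hg
        exact hr.out.ne_one hg.symm
      · rintro ⟨⟨g, rfl, hg⟩, h⟩
        exact ⟨g, rfl, orderOf_eq_prime hg fun e => h (by rw [e]; exact rfl)⟩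
    show Nat.card ↥{C : ConjClasses ↥(GU n F q) | ∃ g, ConjClasses.mk g = C ∧ orderOf g = r} =
      Nat.card ↥{C : ConjClasses ↥(GU n F q) | ∃ g, ConjClasses.mk g = C ∧ g ^ r = 1} - 1
    have hmem : ConjClasses.mk (1 : ↥(GU n F q)) ∈
        {C : ConjClasses ↥(GU n F q) | ∃ g, ConjClasses.mk g = C ∧ g ^ r = 1} :=
      ⟨1, rfl, one_pow r⟩
    rw [Nat.card_coe_set_eq, Nat.card_coe_set_eq, hset, Set.ncard_sdiff_singleton_of_mem hmem]
  rw [hid]
  split_ifs with h4
  · have hat : atoms (conjHom hF) r = orbitPolys F r := by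
      rw [atoms]
      conv_rhs => rw [← Finset.image_id (s := orbitPolys F r)]
      exact Finset.image_congr fun f hf => by
        simp only [atomOf, if_pos ((hfix f hf).2 h4), id]
    rw [card_gu_classes_pow_eq_one p hF hrp hbpos (by rw [hat]; exact hdeg), hat, hcardO]
    have hbe : orderOf (q : ZMod r) = 2 * b := by
      rw [hb, if_neg (by rw [Nat.odd_iff]; omega)]
      omega
    rw [hbe, Nat.mul_div_mul_left _ _ two_pos, add_comm (n / b) s, Nat.choose_symm_add]
  · have hnf : ∀ f ∈ orbitPolys F r, conjRecip (conjHom hF) f ≠ f := fun f hf h =>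
      h4 ((hfix f hf).1 h)
    have hd2 : ∀ a ∈ atoms (conjHom hF) r, a.natDegree = 2 * b := by
      intro a ha
      obtain ⟨f, hf, rfl⟩ := Finset.mem_image.1 ha
      have hm := ((mem_orbitPolys f).1 hf).2.1
      have h0 := coeff_zero_ne_zero_of_mem_orbitPolys hf
      rw [atomOf, if_neg (hnf f hf), hm.natDegree_mul (monic_conjRecip h0),
        natDegree_conjRecip h0, hdeg f hf, two_mul]
    have hcA : (atoms (conjHom hF) r).card = s / 2 := by
      have h1 : (orbitPolys F r).card = 2 * (atoms (conjHom hF) r).card := by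
        rw [Finset.card_eq_sum_card_image (atomOf (conjHom hF)) (orbitPolys F r),
          Finset.sum_const_nat (m := 2), mul_comm, atoms]
        intro a ha
        obtain ⟨f, hf, rfl⟩ := Finset.mem_image.1 ha
        rw [show (orbitPolys F r).filter (fun g => atomOf (conjHom hF) g = atomOf (conjHom hF) f) =
          {f, conjRecip (conjHom hF) f} from ?_, Finset.card_pair (Ne.symm (hnf f hf))]
        ext g
        simp only [Finset.mem_filter, Finset.mem_insert, Finset.mem_singleton]
        constructor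
        · rintro ⟨hg, he⟩
          have hgd : g ∣ atomOf (conjHom hF) f := he ▸ (atomOf_spec hF hg).2.2.1
          obtain ⟨gi, gm, -⟩ := (mem_orbitPolys g).1 hg
          obtain ⟨fi, fm, -⟩ := (mem_orbitPolys f).1 hf
          obtain ⟨fi', fm', -⟩ := (mem_orbitPolys _).1 (conjRecip_mem_orbitPolys hF hf)
          rw [atomOf, if_neg (hnf f hf)] at hgd
          rcases gi.prime.dvd_or_dvd hgd with h | h
          · exact Or.inl (eq_of_monic_of_associated gm fm (gi.associated_of_dvd fi h))
          · exact Or.inr (eq_of_monic_of_associated gm fm' (gi.associated_of_dvd fi' h))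
        · rintro (rfl | rfl)
          · exact ⟨hf, rfl⟩
          · exact ⟨conjRecip_mem_orbitPolys hF hf, atomOf_conjRecip hF hf⟩
      omega
    rw [card_gu_classes_pow_eq_one p hF hrp (Nat.mul_pos two_pos hbpos) hd2, hcA,
      add_comm (n / (2 * b)) (s / 2), Nat.choose_symm_add]

end CfsgLib.Spec53
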