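import Mathlib
import Cfsg.Agent.Spec53.GUPrimeOrderClasses
import Cfsg.Agent.Classical.Unitary.Center
import Cfsg.Agent.Zsigmondy.Main

/-!
The centralizer of a semisimple element of `GU_{2m}(q)` with characteristic polynomial `f f~` is
cyclic; element orders in `PSU_{2m}(q)`.
-/

set_option autoImplicit false

namespace CfsgLib.Spec53

open Polynomial Matrix CfsgLib.Unitary Cfsg CfsgLib.Classical.Semisimple

open scoped _root_.Classical

variable {F : Type*} [Field F]

/-- Matrices commuting with a semisimple matrix with squarefree characteristic polynomial are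
polynomials in it. -/
theorem exists_aeval_eq_of_commute {n : ℕ} {A B : Matrix (Fin n) (Fin n) F}
    (hA : Module.End.IsSemisimple (Matrix.toLin' A : Module.End F (Fin n → F)))
    (hs : Squarefree A.charpoly) (hc : Commute B A) : ∃ R : F[X], aeval A R = B := by
  have hP : A.charpoly.Monic := Matrix.charpoly_monic A
  set P := A.charpoly with hPdef
  let pb := AdjoinRoot.powerBasis hP.ne_zero
  haveI : FiniteDimensional F (AdjoinRoot P) := pb.finite
  set g : Module.End F (AdjoinRoot P) := Algebra.lmul F (AdjoinRoot P) (AdjoinRoot.root P) with hg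
  have hev : ∀ Q : F[X], aeval g Q = Algebra.lmul F (AdjoinRoot P) (AdjoinRoot.mk P Q) := fun Q => by
    rw [hg, aeval_algHom_apply, AdjoinRoot.aeval_eq]
  have hgs : g.IsSemisimple := Module.End.isSemisimple_of_squarefree_aeval_eq_zero hs
    (by rw [hev, AdjoinRoot.mk_self, map_zero])
  have hgc : g.charpoly = P := by
    rw [← LinearMap.charpoly_toMatrix g pb.basis, hg, ← Algebra.leftMulMatrix_apply, ← AdjoinRoot.powerBasis_gen hP.ne_zero,
      charpoly_leftMulMatrix]
    exact AdjoinRoot.minpoly_powerBasis_gen_of_monic hP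
  obtain ⟨e, he⟩ := exists_equiv_of_charpoly_eq hA hgs
    (by rw [Matrix.charpoly_toLin', hgc])
  set a : Module.End F (Fin n → F) := Matrix.toLin' A
  set b : Module.End F (Fin n → F) := Matrix.toLin' B
  have hea : e.conjAlgEquiv F a = g := LinearMap.ext fun x => by
    simp [LinearEquiv.conjAlgEquiv_apply, he]
  have hab : Commute b a := hc.map (Matrix.toLinAlgEquiv' (R := F) (n := Fin n))
  set φ : Module.End F (AdjoinRoot P) := e.conjAlgEquiv F b
  have hφ : Commute φ g := by rw [← hea]; exact hab.map _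
  obtain ⟨R, hR⟩ := AdjoinRoot.mk_surjective (φ 1)
  have hφR : φ = aeval g R := LinearMap.ext fun x => by
    obtain ⟨Q, rfl⟩ := AdjoinRoot.mk_surjective x
    have h1 : Commute φ (aeval g Q) := Algebra.commute_of_mem_adjoin_singleton_of_commute
      (Polynomial.aeval_mem_adjoin_singleton F g) hφ
    have h2 := LinearMap.congr_fun h1.eq 1
    rw [Module.End.mul_apply, Module.End.mul_apply, hev, Algebra.coe_lmul_eq_mul,
      LinearMap.mul_apply', LinearMap.mul_apply', mul_one, ← hR] at h2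
    rw [h2, hev, Algebra.coe_lmul_eq_mul, LinearMap.mul_apply', mul_comm]
  refine ⟨R, (Matrix.toLinAlgEquiv' (R := F) (n := Fin n)).injective ?_⟩
  rw [← aeval_algHom_apply]
  refine (e.conjAlgEquiv F).injective ?_
  rw [← aeval_algHom_apply]
  show aeval (e.conjAlgEquiv F a) R = φ
  rw [hea, hφR]

variable [Fintype F] {q n r : ℕ}

theorem cjT_aeval (hF : Fintype.card F = q ^ 2) (A : Matrix (Fin n) (Fin n) F) (P : F[X]) :
    cjT q (aeval A P) = aeval (cjT q A) (P.map (conjHom hF)) := by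
  have hpow : ∀ k : ℕ, cjT q (A ^ k) = cjT q A ^ k := fun k => by
    induction k with
    | zero => rw [pow_zero, pow_zero, cjT_one hF]
    | succ k ih => rw [pow_succ, cjT_mul hF, ih, ← pow_succ']
  induction P using Polynomial.induction_on' with
  | add a b ha hb => rw [map_add, cjT_add hF, ha, hb, Polynomial.map_add, map_add]
  | monomial k c =>
    rw [Polynomial.map_monomial, aeval_monomial, aeval_monomial, cjT_mul hF, hpow,
      show cjT q (algebraMap F (Matrix (Fin n) (Fin n) F) c) =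
        algebraMap F (Matrix (Fin n) (Fin n) F) (conjHom hF c) from cjT_scalar hF c]
    exact (Algebra.commutes _ _).symm

variable [hr : Fact r.Prime]

/-- For `f` an irreducible factor of the cyclotomic polynomial that is not self-dual, the
centralizer of a unitary element with characteristic polynomial `f f~` is the multiplicative group
of the field `F[X] / f`. -/
theorem exists_centralizer_hom (p : ℕ) [Fact p.Prime] [CharP F p]
    (hF : Fintype.card F = q ^ 2) (hrF : (r : F) ≠ 0) {f : F[X]}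
    (hf : f ∈ orbitPolys F r) (hnf : conjRecip (conjHom hF) f ≠ f) {s : ↥(GU n F q)}
    (hs : (orderOf s).Coprime p)
    (hc : ((s : GL (Fin n) F) : Matrix (Fin n) (Fin n) F).charpoly =
      f * conjRecip (conjHom hF) f) :
    ∃ Ψ : (AdjoinRoot f)ˣ →* ↥(GU n F q), Function.Injective Ψ ∧
      Ψ.range = Subgroup.centralizer {s} := by
  obtain ⟨hi, hm, hd⟩ := (mem_orbitPolys f).1 hf
  obtain ⟨hi', hm', hd'⟩ := (mem_orbitPolys _).1 (conjRecip_mem_orbitPolys hF hf)
  obtain ⟨p', e, hp', hc', -, hq⟩ := exists_char hF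
  have hpp : p' = p := CharP.eq F hc' ‹CharP F p›
  subst p'
  haveI := Fact.mk hi
  set f' := conjRecip (conjHom hF) f with hf'
  set E := AdjoinRoot f
  haveI : CharP E p := charP_of_injective_algebraMap (algebraMap F E).injective p
  haveI : NeZero (r : E) :=
    ⟨by rw [← map_natCast (algebraMap F E)]; exact (_root_.map_ne_zero _).2 hrF⟩
  haveI : FiniteDimensional F E := (AdjoinRoot.powerBasis hi.ne_zero).finite
  haveI : Finite E := Module.finite_of_finite F
  set ζ : E := AdjoinRoot.root f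
  have hζf : aeval ζ f = 0 := by rw [AdjoinRoot.aeval_eq]; exact AdjoinRoot.mk_self
  have hζ : IsPrimitiveRoot ζ r := by
    rw [← Polynomial.isRoot_cyclotomic_iff, IsRoot.def, ← map_cyclotomic r (algebraMap F E),
      eval_map, ← aeval_def]
    obtain ⟨c, hc⟩ := hd
    rw [hc, map_mul, hζf, zero_mul]
  have hζ0 : ζ ≠ 0 := hζ.ne_zero hr.out.ne_zero
  set η : E := (ζ ^ q)⁻¹
  have hηr : η ^ r = 1 := by
    rw [inv_pow, ← pow_mul, mul_comm, pow_mul, hζ.pow_eq_one, one_pow, inv_one]
  have hinv : ∀ x : E, x ^ r = 1 → x ^ (r - 1) = x⁻¹ := fun x hx => by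
    refine eq_inv_of_mul_eq_one_left ?_
    rw [← pow_succ, Nat.sub_add_cancel hr.out.one_le, hx]
  have hfr : ∀ x : E, iterateFrobenius E p e x = x ^ q := fun x => by
    rw [iterateFrobenius_def, hq]
  have hcomp : (iterateFrobenius E p e).comp (algebraMap F E) =
      (algebraMap F E).comp (conjHom hF) := RingHom.ext fun x => by
    rw [RingHom.comp_apply, RingHom.comp_apply, hfr, conjHom_apply, map_pow]
  have hconj : ∀ (x : E) (P : F[X]), aeval (x ^ q) (P.map (conjHom hF)) = (aeval x P) ^ q := by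
    intro x P
    rw [aeval_def, eval₂_map, ← hcomp, ← hfr, ← hom_eval₂, ← aeval_def, hfr]
  have hηf : aeval η f' = 0 := by
    haveI : Invertible (ζ ^ q) := invertibleOfNonzero (pow_ne_zero _ hζ0)
    rw [hf']
    unfold conjRecip
    rw [map_mul, aeval_def η (Polynomial.reverse _),
      show η = ⅟(ζ ^ q) from (invOf_eq_inv _).symm,
      (eval₂_reverse_eq_zero_iff (algebraMap F E) (ζ ^ q) _).2 (by
        rw [← aeval_def, hconj, hζf, zero_pow (by have := two_le_q hF; omega)]), mul_zero]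
  have hζdvd : ∀ P : F[X], aeval ζ P = 0 → f ∣ P := fun P hP => by
    rw [minpoly.eq_of_irreducible_of_monic hi hζf hm]; exact minpoly.dvd F ζ hP
  have hηdvd : ∀ P : F[X], aeval η P = 0 → f' ∣ P := fun P hP => by
    rw [minpoly.eq_of_irreducible_of_monic hi' hηf hm']; exact minpoly.dvd F η hP
  have hco : IsCoprime f f' := isCoprime_of_irreducible_monic hi hm hi' hm' (Ne.symm hnf)
  have hsq : Squarefree (f * f') := squarefree_mul_iff.2 ⟨hco.isRelPrime, hi.squarefree, hi'.squarefree⟩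
  set A : Matrix (Fin n) (Fin n) F := ((s : GL (Fin n) F) : Matrix (Fin n) (Fin n) F) with hA
  have hss : Module.End.IsSemisimple (Matrix.toLin' A : Module.End F (Fin n → F)) :=
    gl_isSemisimple (ι := Fin n) p (g := (s : GL (Fin n) F)) (by rwa [Subgroup.orderOf_coe])
  have haev : ∀ P : F[X], Matrix.toLin' (aeval A P) =
      aeval (Matrix.toLin' A : Module.End F (Fin n → F)) P := fun P =>
    (aeval_algHom_apply (Matrix.toLinAlgEquiv' (R := F) (n := Fin n)).toAlgHom A P).symm
  have hzero : ∀ P : F[X], aeval A P = 0 ↔ aeval ζ P = 0 ∧ aeval η P = 0 := by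
    intro P
    constructor
    · intro h
      have key : ∀ g : F[X], Irreducible g → g.Monic → g ∣ f * f' → g ∣ P := by
        intro g hgi hgm hgd
        by_contra hnd
        obtain ⟨v, hv, hv0⟩ := exists_apply_eq_zero_of_dvd_charpoly hss hgi hgm
          (by rwa [Matrix.charpoly_toLin', hA, hc])
        obtain ⟨a, b, hab⟩ := hgi.coprime_iff_not_dvd.mpr hnd
        have := congrArg (fun T => aeval (Matrix.toLin' A : Module.End F (Fin n → F)) T v) hab
        simp [hv0, ← haev P, h] at this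
        exact hv this.symm
      obtain ⟨a, ha⟩ := key f hi hm (dvd_mul_right _ _)
      obtain ⟨b, hb⟩ := key f' hi' hm' (dvd_mul_left _ _)
      exact ⟨by rw [ha, map_mul, hζf, zero_mul], by rw [hb, map_mul, hηf, zero_mul]⟩
    · rintro ⟨h1, h2⟩
      refine Matrix.toLin'.injective ?_
      rw [haev, map_zero]
      refine aeval_eq_zero_of_forall_dvd hss fun g hgi hgm hgd => ?_
      rw [Matrix.charpoly_toLin', hA, hc] at hgd
      rcases hgi.prime.dvd_or_dvd hgd with h | h
      · exact h.trans (hζdvd P h1)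
      · exact h.trans (hηdvd P h2)
  have hAr : A ^ r = 1 := by
    have h := (hzero (X ^ r - 1)).2 ⟨by simp [hζ.pow_eq_one], by simp [hηr]⟩
    simpa [sub_eq_zero] using h
  have hgu : cjT q A * A = 1 := (mem_GU_iff_cjT hF).1 s.2
  have hcA : cjT q A = A ^ (r - 1) := by
    calc cjT q A = cjT q A * (A * A ^ (r - 1)) := by
          rw [← pow_succ', Nat.sub_add_cancel hr.out.one_le, hAr, mul_one]
      _ = A ^ (r - 1) := by rw [← mul_assoc, hgu, one_mul]
  set H : F[X] → F[X] := fun P => (P.map (conjHom hF)).comp (X ^ (r - 1)) * P - 1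
  have hHs : ∀ P : F[X], aeval A (H P) = cjT q (aeval A P) * aeval A P - 1 := fun P => by
    rw [map_sub, map_one, map_mul, aeval_comp, aeval_X_pow, cjT_aeval hF, hcA]
  have hHη : ∀ P : F[X], aeval η (H P) = (aeval ζ P) ^ q * aeval η P - 1 := fun P => by
    rw [map_sub, map_one, map_mul, aeval_comp, aeval_X_pow, hinv η hηr, inv_inv, hconj]
  have hu : ∀ P : F[X], (aeval ζ P) ^ q * aeval η P = 1 ↔
      cjT q (aeval A P) * aeval A P = 1 := fun P => by
    constructor
    · intro h
      rw [← sub_eq_zero, ← hHs, hzero]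
      refine ⟨?_, by rw [hHη, h, sub_self]⟩
      -- a Galois conjugate of `ζ` is a root as well
      have hroot : aeval (ζ ^ Fintype.card F) (H P) = 0 := by
        have e1 : aeval (ζ ^ Fintype.card F) P = (aeval ζ P) ^ Fintype.card F := by
          rw [← expand_aeval, FiniteField.expand_card, map_pow]
        have e2 : (ζ ^ Fintype.card F) ^ (r - 1) = η ^ q := by
          rw [hinv _ (by rw [← pow_mul, mul_comm, pow_mul, hζ.pow_eq_one, one_pow]), inv_pow,
            ← pow_mul, hF, sq]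
        rw [map_sub, map_one, map_mul, aeval_comp, aeval_X_pow, e2, hconj, e1, hF, sq, pow_mul,
          ← mul_pow, mul_comm, h, one_pow, sub_self]
      rw [← expand_aeval, FiniteField.expand_card, map_pow] at hroot
      exact eq_zero_of_pow_eq_zero hroot
    · intro h
      rw [← sub_eq_zero, ← hHη]
      exact ((hzero _).1 (by rw [hHs, h, sub_self])).2
  have hex : ∀ y : Eˣ, ∃ P : F[X], aeval ζ P = y ∧ (aeval ζ P) ^ q * aeval η P = 1 := by
    intro y
    obtain ⟨R1, hR1⟩ := AdjoinRoot.mk_surjective (y : E)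
    obtain ⟨R2, hR2⟩ := AdjoinRoot.mk_surjective ((y⁻¹ : Eˣ) : E)
    rw [← AdjoinRoot.aeval_eq] at hR1 hR2
    set R3 := (R2.map (conjHom hF)).comp (X ^ (r - 1))
    have hR3 : aeval η R3 = ((y : E) ^ q)⁻¹ := by
      rw [aeval_comp, aeval_X_pow, hinv η hηr, inv_inv, hconj, hR2, Units.val_inv_eq_inv_val,
        inv_pow]
    obtain ⟨a, b, hab⟩ := hco
    refine ⟨R1 * (b * f') + R3 * (a * f), ?_⟩
    have e1 : aeval ζ (b * f') = 1 := by
      have h := congrArg (fun T => aeval ζ T) hab
      simpa [hζf] using h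
    have e2 : aeval η (a * f) = 1 := by
      have h := congrArg (fun T => aeval η T) hab
      simpa [hηf] using h
    have e3 : aeval ζ (a * f) = 0 := by rw [map_mul, hζf, mul_zero]
    have e4 : aeval η (b * f') = 0 := by rw [map_mul, hηf, mul_zero]
    have h1 : aeval ζ (R1 * (b * f') + R3 * (a * f)) = y := by
      rw [map_add, map_mul _ R1, e1, map_mul _ R3, e3, mul_one, mul_zero, add_zero, hR1]
    refine ⟨h1, ?_⟩
    rw [h1, map_add, map_mul _ R1, e4, map_mul _ R3, e2, mul_zero, mul_one, zero_add, hR3,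
      mul_inv_cancel₀ (pow_ne_zero _ y.ne_zero)]
  choose R hR1 hR2 using hex
  have huniq : ∀ P : F[X], (aeval ζ P) ^ q * aeval η P = 1 → ∀ y : Eˣ, aeval ζ P = y →
      aeval A P = aeval A (R y) := by
    intro P hP y hy
    rw [← sub_eq_zero, ← map_sub, hzero]
    refine ⟨by rw [map_sub, hy, hR1, sub_self], ?_⟩
    rw [map_sub, sub_eq_zero]
    have h2 := hR2 y
    rw [hR1, ← hP, hy] at h2
    exact (mul_left_cancel₀ (pow_ne_zero _ y.ne_zero) h2).symm
  let G : Eˣ → ↥(GU n F q) := fun y =>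
    ⟨⟨aeval A (R y), cjT q (aeval A (R y)), mul_eq_one_comm.1 ((hu _).1 (hR2 y)),
      (hu _).1 (hR2 y)⟩, (mem_GU_iff_cjT hF).2 ((hu _).1 (hR2 y))⟩
  have hGmul : ∀ x y, G (x * y) = G x * G y := fun x y => Subtype.ext (Units.ext (by
    show aeval A (R (x * y)) = aeval A (R x) * aeval A (R y)
    rw [← map_mul]
    refine (huniq _ ?_ _ ?_).symm
    · rw [map_mul, map_mul, mul_pow, mul_mul_mul_comm, hR2, hR2, mul_one]
    · rw [map_mul, hR1, hR1, Units.val_mul]))
  refine ⟨MonoidHom.mk' G hGmul, fun x y hxy => ?_, le_antisymm ?_ ?_⟩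
  · have h : aeval A (R x) = aeval A (R y) :=
      congrArg (fun z : ↥(GU n F q) => ((z : GL (Fin n) F) : Matrix (Fin n) (Fin n) F)) hxy
    rw [← sub_eq_zero, ← map_sub, hzero, map_sub, sub_eq_zero, hR1, hR1] at h
    exact Units.ext h.1
  · rintro _ ⟨y, rfl⟩
    rw [Subgroup.mem_centralizer_singleton_iff]
    exact Subtype.ext (Units.ext (show aeval A (R y) * A = A * aeval A (R y) from
      (Algebra.commute_of_mem_adjoin_self (Polynomial.aeval_mem_adjoin_singleton F A)).symm.eq))
  · intro z hz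
    rw [Subgroup.mem_centralizer_singleton_iff] at hz
    have hz' : Commute ((z : GL (Fin n) F) : Matrix (Fin n) (Fin n) F) A :=
      congrArg (fun w : ↥(GU n F q) => ((w : GL (Fin n) F) : Matrix (Fin n) (Fin n) F)) hz
    obtain ⟨P, hP⟩ := exists_aeval_eq_of_commute hss (by rw [hA, hc]; exact hsq) hz'
    have hPu : (aeval ζ P) ^ q * aeval η P = 1 := (hu P).2 (by
      rw [hP]; exact (mem_GU_iff_cjT hF).1 z.2)
    have hP0 : aeval ζ P ≠ 0 := fun h => by
      rw [h, zero_pow (by have := two_le_q hF; omega), zero_mul] at hPu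
      exact zero_ne_one hPu
    refine ⟨Units.mk0 _ hP0, Subtype.ext (Units.ext ?_)⟩
    show aeval A (R _) = _
    rw [← huniq P hPu (Units.mk0 _ hP0) rfl, hP]

variable {m : ℕ}

/-- The orders in the image of a torus `C_SU(s)` in `PSU`. -/
theorem psu_torus_image (p : ℕ) [Fact p.Prime] [CharP F p]
    (hF : Fintype.card F = q ^ 2) (hn : 2 ≤ n) (hrF : (r : F) ≠ 0) {f : F[X]}
    (hf : f ∈ orbitPolys F r) (hfd : f.natDegree = m)
    (hnf : conjRecip (conjHom hF) f ≠ f) {s : ↥(GU n F q)} (hs : (orderOf s).Coprime p)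
    (hc : ((s : GL (Fin n) F) : Matrix (Fin n) (Fin n) F).charpoly =
      f * conjRecip (conjHom hF) f) :
    ∃ N : ℕ, N * (Nat.gcd n (q + 1) * (q + 1)) = q ^ (2 * m) - 1 ∧
      (∃ g : PSU n F q, orderOf g = N) ∧
      ∀ x : ↥(SU n F q), Commute (suToGU x) s → ((x : PSU n F q)) ^ N = 1 := by
  obtain ⟨Ψ, hΨ, hΨr⟩ := exists_centralizer_hom p hF hrF hf hnf hs hc
  obtain ⟨hi, hm, -⟩ := (mem_orbitPolys f).1 hf
  haveI := Fact.mk hi
  haveI : FiniteDimensional F (AdjoinRoot f) := (AdjoinRoot.powerBasis hi.ne_zero).finite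
  haveI : Finite (AdjoinRoot f) := Module.finite_of_finite F
  haveI : Fintype (AdjoinRoot f) := Fintype.ofFinite _
  set C : Subgroup ↥(GU n F q) := Subgroup.centralizer {s}
  haveI hCc : IsCyclic ↥Ψ.range := isCyclic_of_surjective Ψ.rangeRestrict Ψ.rangeRestrict_surjective
  have hCcard : Nat.card ↥Ψ.range = q ^ (2 * m) - 1 := by
    rw [← Nat.card_congr (MonoidHom.ofInjective hΨ).toEquiv, Nat.card_units,
      Module.natCard_eq_pow_finrank (K := F), (AdjoinRoot.powerBasis hi.ne_zero).finrank,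
      AdjoinRoot.powerBasis_dim, hfd, Nat.card_eq_fintype_card, hF, ← pow_mul]
  rw [hΨr] at hCc hCcard
  set T : Subgroup ↥(SU n F q) := C.comap suToGU
  haveI : IsCyclic ↥T := isCyclic_of_injective ((suToGU.comp T.subtype).codRestrict C fun x => x.2)
    (fun x y h => Subtype.ext (suToGU_injective (congrArg Subtype.val h)))
  set δ : ↥C →* Fˣ := detGU.comp C.subtype
  have hTk : Nat.card ↥T = Nat.card ↥δ.ker := by
    refine Nat.card_eq_of_bijective (fun x => ⟨⟨suToGU x.1, x.2⟩, ?_⟩) ⟨?_, ?_⟩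
    · rw [MonoidHom.mem_ker]
      show detGU (suToGU x.1) = 1
      rw [← MonoidHom.mem_ker, ker_detGU]
      exact ⟨x.1, rfl⟩
    · intro x y h
      exact Subtype.ext (suToGU_injective (congrArg (fun w => (w.1.1 : ↥(GU n F q))) h))
    · rintro ⟨⟨w, hw⟩, hk⟩
      obtain ⟨x, rfl⟩ : w ∈ (suToGU : ↥(SU n F q) →* ↥(GU n F q)).range := by
        rw [← ker_detGU]; exact hk
      exact ⟨⟨x, hw⟩, rfl⟩
  have hrange : Nat.card ↥δ.range = q + 1 := by
    have h : δ.range = (powMonoidHom (q + 1) : Fˣ →* Fˣ).ker := by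
      refine le_antisymm ?_ fun t ht => ?_
      · rintro _ ⟨w, rfl⟩
        rw [← range_detGU (n := n) hF (by omega)]
        exact ⟨w.1, rfl⟩
      · rw [MonoidHom.mem_ker, powMonoidHom_apply] at ht
        obtain ⟨z, hz, hzd⟩ := exists_commute_gu_det p hF (by omega : 1 ≤ n) hs (x := (t : F))
          (by rw [← Units.val_pow_eq_pow_val, ht, Units.val_one])
        exact ⟨⟨z, Subgroup.mem_centralizer_singleton_iff.2 hz.eq⟩, Units.ext hzd⟩
    rw [h, IsCyclic.card_powMonoidHom_ker, card_units_eq hF]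
    exact Nat.gcd_eq_right (dvd_mul_left _ _)
  have hT : Nat.card ↥T * (q + 1) = q ^ (2 * m) - 1 := by
    rw [← hCcard, ← Subgroup.card_mul_index δ.ker, Subgroup.index_ker, hrange, hTk]
  set Z := Subgroup.center ↥(SU n F q)
  have hZT : Z ≤ T := fun z hz => by
    rw [Subgroup.mem_comap, Subgroup.mem_centralizer_singleton_iff]
    obtain ⟨c, hzc⟩ := (mem_center_SU_iff hF hn z).1 hz
    refine Subtype.ext (Units.ext ?_)
    simp only [Subgroup.coe_mul, Units.val_mul, suToGU_val, hzc]
    exact (Matrix.scalar_commute c (fun _ => Commute.all _ _) _).eq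
  have hZc : Nat.card ↥Z = Nat.gcd n (q + 1) := card_center_SU hF hn
  set d := Nat.gcd n (q + 1)
  have hd : d ∣ Nat.card ↥T := hZc ▸ Subgroup.card_dvd_of_le hZT
  obtain ⟨N, hN⟩ := hd
  have hd0 : 0 < d := Nat.gcd_pos_of_pos_right _ (Nat.succ_pos q)
  haveI : Fintype ↥T := Fintype.ofFinite _
  have hZiff : ∀ x : ↥T, (x.1 ∈ Z ↔ x ^ d = 1) := by
    have hpow : ∀ z : ↥T, z.1 ∈ Z → z ^ d = 1 := fun z hz => by
      rw [← hZc]
      have h := congrArg Subtype.val (pow_card_eq_one' (x := (⟨z.1, hz⟩ : ↥Z)))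
      rw [SubgroupClass.coe_pow] at h
      exact Subtype.ext h
    set S1 : Finset ↥T := Finset.univ.filter fun x => x.1 ∈ Z
    set S2 : Finset ↥T := Finset.univ.filter fun x => x ^ d = 1
    have h1 : S1.card = d := by
      rw [← Fintype.card_subtype, ← Nat.card_eq_fintype_card, ← hZc]
      exact Nat.card_congr ⟨fun x => ⟨x.1.1, x.2⟩, fun z => ⟨⟨z.1, hZT z.2⟩, z.2⟩,
        fun x => rfl, fun z => rfl⟩
    have heq : S1 = S2 := Finset.eq_of_subset_of_card_le
      (fun x hx => by simp only [S1, S2, Finset.mem_filter] at hx ⊢; exact ⟨hx.1, hpow x hx.2⟩)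
      (by rw [h1]; exact IsCyclic.card_pow_eq_one_le hd0)
    intro x
    constructor
    · exact hpow x
    · intro hx
      have h : x ∈ S1 := by rw [heq]; simp [S2, hx]
      simpa [S1] using h
  refine ⟨N, ?_, ?_, ?_⟩
  · rw [← hT, hN]; ring
  · obtain ⟨t, ht⟩ := IsCyclic.exists_ofOrder_eq_natCard (α := ↥T)
    refine ⟨(t.1 : PSU n F q), Nat.dvd_antisymm (orderOf_dvd_of_pow_eq_one ?_) ?_⟩
    · rw [← QuotientGroup.mk_pow, QuotientGroup.eq_one_iff]
      exact (hZiff (t ^ N)).2 (by rw [← pow_mul, mul_comm, ← hN, pow_card_eq_one'])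
    · have h : (t.1 : PSU n F q) ^ orderOf (t.1 : PSU n F q) = 1 := pow_orderOf_eq_one _
      rw [← QuotientGroup.mk_pow, QuotientGroup.eq_one_iff] at h
      have h1 := (hZiff (t ^ orderOf (t.1 : PSU n F q))).1 h
      rw [← pow_mul] at h1
      have h2 := orderOf_dvd_of_pow_eq_one h1
      rw [ht, hN, mul_comm _ d] at h2
      exact Nat.dvd_of_mul_dvd_mul_left hd0 h2
  · intro x hx
    have hxT : x ∈ T := Subgroup.mem_centralizer_singleton_iff.2 hx.eq
    rw [← QuotientGroup.mk_pow, QuotientGroup.eq_one_iff]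
    exact (hZiff ((⟨x, hxT⟩ : ↥T) ^ N)).2 (by rw [← pow_mul, mul_comm, ← hN, pow_card_eq_one'])

/-- The atom decomposition of an element of order `r` in dimension equal to the atom degree. -/
theorem exists_charpoly_eq_atom (p : ℕ) [Fact p.Prime] [CharP F p]
    (hF : Fintype.card F = q ^ 2) (hrp : r ≠ p) (hrF : (r : F) ≠ 0) (hn : 0 < n)
    (hd : ∀ a ∈ atoms (conjHom hF) r, a.natDegree = n) {s : ↥(GU n F q)} (hs : s ^ r = 1)
    (hs1 : s ≠ 1) :
    ∃ f ∈ orbitPolys F r,
      ((s : GL (Fin n) F) : Matrix (Fin n) (Fin n) F).charpoly = atomOf (conjHom hF) f := by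
  have hcop : (orderOf s).Coprime p := Nat.Coprime.coprime_dvd_left (orderOf_dvd_of_pow_eq_one hs)
    ((Nat.coprime_primes hr.out Fact.out).mpr hrp)
  set χ := ((s : GL (Fin n) F) : Matrix (Fin n) (Fin n) F).charpoly with hχ
  have hpow : (Matrix.toLin' ((s : GL (Fin n) F) : Matrix (Fin n) (Fin n) F) :
      Module.End F (Fin n → F)) ^ r = 1 := by
    rw [← Matrix.toLin'_pow, ← Units.val_pow_eq_pow_val, ← SubgroupClass.coe_pow, hs,
      OneMemClass.coe_one, Units.val_one, Matrix.toLin'_one]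
    rfl
  have hXm : (X - 1 : F[X]).Monic := by rw [← C_1]; exact monic_X_sub_C 1
  have hXi : Irreducible (X - 1 : F[X]) := by rw [← C_1]; exact irreducible_X_sub_C 1
  have hXd : (X - 1 : F[X]).natDegree = 1 := by rw [← C_1]; exact natDegree_X_sub_C 1
  obtain ⟨D, j, hDj⟩ := exists_atoms_prod hF χ (Matrix.charpoly_monic _)
    (coeff_zero_charpoly_ne_zero _) (conjRecip_charpoly_of_mem hF s.2) (by
      intro g hgi hgm hgd
      obtain ⟨v, hv, hv0⟩ := exists_apply_eq_zero_of_dvd_charpoly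
        (isSemisimple_of_pow_eq_one hrF hpow) hgi hgm (by rwa [Matrix.charpoly_toLin'])
      have hdvd : g ∣ X ^ r - 1 := by
        by_contra hnd
        obtain ⟨a, b, hab⟩ := hgi.coprime_iff_not_dvd.mpr hnd
        have := congrArg (fun T => aeval (Matrix.toLin' ((s : GL (Fin n) F) :
          Matrix (Fin n) (Fin n) F) : Module.End F (Fin n → F)) T v) hab
        simp [hv0, hpow] at this
        exact hv this.symm
      rw [← cyclotomic_prime_mul_X_sub_one] at hdvd
      rcases hgi.prime.dvd_or_dvd hdvd with h | h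
      · exact Or.inr ((mem_orbitPolys g).mpr ⟨hgi, hgm, h⟩)
      · exact Or.inl (eq_of_monic_of_associated hgm hXm (hgi.associated_of_dvd hXi h)))
  have hAm : ∀ a : atoms (conjHom hF) r, (a : F[X]).Monic := fun a => by
    obtain ⟨g, hg, he⟩ := Finset.mem_image.1 a.2
    rw [← he]; exact (atomOf_spec hF hg).1
  have hdeg : Multiset.card D * n + j = n := by
    have h1 := congrArg natDegree hDj
    rw [(monic_multiset_prod_of_monic _ _ fun a _ => hAm a).natDegree_mul (hXm.pow _),
      hXm.natDegree_pow, hXd, mul_one, natDegree_multiset_prod_of_monic _ (fun g hg => by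
        obtain ⟨a, -, rfl⟩ := Multiset.mem_map.1 hg; exact hAm a),
      Multiset.map_map, Multiset.map_congr rfl
        (fun a _ => show (natDegree ∘ Subtype.val) a = n from hd _ a.2),
      Multiset.map_const', Multiset.sum_replicate, smul_eq_mul,
      show χ.natDegree = n from (Matrix.charpoly_natDegree_eq_dim _).trans (Fintype.card_fin n)]
      at h1
    exact h1.symm
  rcases D.empty_or_exists_mem with rfl | ⟨a, ha⟩
  · exfalso
    have hj : j = n := by simpa using hdeg
    refine hs1 (isConj_one_left.1 (gu_isConj_of_charpoly_eq p hF hcop (by simp) ?_))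
    rw [← hχ, hDj, hj, Multiset.map_zero, Multiset.prod_zero, one_mul, OneMemClass.coe_one,
      Units.val_one, Matrix.charpoly_one, Fintype.card_fin]
  · obtain ⟨D', rfl⟩ := Multiset.exists_cons_of_mem ha
    rw [Multiset.card_cons, add_mul, one_mul] at hdeg
    have hD' : D' = 0 := Multiset.card_eq_zero.1 ((Nat.mul_eq_zero.1
      (by omega : Multiset.card D' * n = 0)).resolve_right hn.ne')
    have hj : j = 0 := by omega
    obtain ⟨g, hg, he⟩ := Finset.mem_image.1 a.2
    refine ⟨g, hg, ?_⟩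
    rw [hDj, hD', hj, he]
    simp

omit hr in
/-- `gcd (2m, q + 1) ∣ m` in terms of two-parts. -/
theorem gcd_dvd_half_iff {m : ℕ} (hm : 0 < m) :
    Nat.gcd (2 * m) (q + 1) ∣ m ↔ padicValNat 2 (q + 1) < padicValNat 2 (2 * m) := by
  have hv : padicValNat 2 (2 * m) = padicValNat 2 m + 1 := by
    rw [padicValNat.mul two_ne_zero (by omega), padicValNat.self one_lt_two, add_comm]
  constructor
  · intro hdh
    by_contra hle
    push Not at hle
    have h1 : 2 ^ padicValNat 2 (2 * m) ∣ Nat.gcd (2 * m) (q + 1) :=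
      Nat.dvd_gcd pow_padicValNat_dvd ((pow_dvd_pow 2 hle).trans pow_padicValNat_dvd)
    have h2 := (padicValNat_dvd_iff_le (p := 2) (by omega : m ≠ 0)).1 (h1.trans hdh)
    omega
  · intro hlt
    obtain ⟨c, hc⟩ := Nat.gcd_dvd_left (2 * m) (q + 1)
    have hd1 := Nat.gcd_dvd_right (2 * m) (q + 1)
    generalize Nat.gcd (2 * m) (q + 1) = d at hc hd1 ⊢
    rcases Nat.even_or_odd c with ⟨c', rfl⟩ | hcodd
    · exact ⟨c', by rw [mul_add] at hc; omega⟩
    · exfalso
      have h1 : 2 ^ padicValNat 2 (2 * m) ∣ d := by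
        have h2 : 2 ^ padicValNat 2 (2 * m) ∣ d * c := hc ▸ pow_padicValNat_dvd
        exact ((Nat.coprime_two_left.2 hcodd).pow_left _).dvd_of_dvd_mul_right h2
      have h2 := (padicValNat_dvd_iff_le (p := 2) (by omega : q + 1 ≠ 0)).1 (h1.trans hd1)
      omega

omit hr in
/-- `PSU_{2m}(q)`, `q` odd, has an element of order `q ^ m + (-1) ^ m` exactly when the two-part
of `2m` exceeds that of `q + 1`. -/
theorem psu_half_torus_criterion (hF : Fintype.card F = q ^ 2) (hodd : Odd q) {m : ℕ}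
    (hm : 2 ≤ m) :
    (∃ g : PSU (2 * m) F q, orderOf g = if Even m then q ^ m + 1 else q ^ m - 1) ↔
      padicValNat 2 (q + 1) < padicValNat 2 (2 * m) := by
  obtain ⟨p, e, hp, hcp, he, hqe⟩ := exists_char hF
  haveI := hcp
  haveI := Fact.mk hp
  have hq2 := two_le_q hF
  have hq3 : q % 2 = 1 := Nat.odd_iff.1 hodd
  set i := if Even m then 2 * m else m with hi
  have hi3 : 3 ≤ i ∧ i % 4 ≠ 2 ∧ i ∣ 2 * m ∧ i / Nat.gcd i 2 = m := by
    rw [hi]
    split_ifs with h
    · obtain ⟨a, rfl⟩ := h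
      refine ⟨by omega, by omega, dvd_rfl, ?_⟩
      rw [Nat.gcd_eq_right (dvd_mul_right _ _), Nat.mul_div_cancel_left _ two_pos]
    · rw [Nat.not_even_iff_odd] at h
      refine ⟨by rcases h with ⟨a, rfl⟩; omega, by rcases h with ⟨a, rfl⟩; omega, dvd_mul_left _ _,
        ?_⟩
      rw [Nat.Coprime.gcd_eq_one h.coprime_two_right, Nat.div_one]
  obtain ⟨r, hR⟩ := CfsgLib.Zsigmondy.exists_isPPD_of_three_le (a := q) (n := i) hq2 hi3.1
    (by omega)
  haveI hrf : Fact r.Prime := ⟨hR.1⟩
  have hord : orderOf (q : ZMod r) = i := hR.orderOf_eq (by omega) (by omega)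
  have hr1 : ¬ r ∣ q + 1 := fun h => by
    have h2 : r ∣ q ^ 2 - 1 := by
      rw [show q ^ 2 - 1 = (q + 1) * (q - 1) by rw [← Nat.sq_sub_sq, one_pow]]
      exact h.trans (dvd_mul_right _ _)
    exact hR.2.2 2 two_pos (by omega) h2
  have hr2 : r ≠ 2 := fun h => hr1 (h ▸ ⟨(q + 1) / 2, by omega⟩)
  have hrq : ¬ r ∣ q := hR.not_dvd_base (by omega) (by omega)
  have hrp : r ≠ p := fun h => hrq (h ▸ hqe ▸ dvd_pow_self p he.ne')
  have hrF : (r : F) ≠ 0 := fun h => hrp ((Nat.prime_dvd_prime_iff_eq hp hR.1).mp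
    ((CharP.cast_eq_zero_iff F p r).mp h)).symm
  have hq0 : (q : ZMod r) ≠ 0 := by rwa [Ne, ZMod.natCast_eq_zero_iff]
  have hordQ : orderOf (Fintype.card F : ZMod r) = m := by
    rw [hF, Nat.cast_pow, orderOf_pow' _ two_ne_zero, hord, hi3.2.2.2]
  have hnf : ∀ f ∈ orbitPolys F r, conjRecip (conjHom hF) f ≠ f := fun f hf h => by
    rw [conjRecip_eq_self_iff hF hrF hf, exists_pow_eq_neg_iff hr2 hq0, hord] at h
    exact hi3.2.1 h
  have hfd : ∀ f ∈ orbitPolys F r, f.natDegree = m := fun f hf => by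
    rw [natDegree_of_dvd_cyclotomic hrF ((mem_orbitPolys f).1 hf).1 ((mem_orbitPolys f).1 hf).2.2,
      hordQ]
  have had : ∀ a ∈ atoms (conjHom hF) r, a.natDegree = 2 * m := fun a ha => by
    obtain ⟨f, hf, rfl⟩ := Finset.mem_image.1 ha
    have h0 := coeff_zero_ne_zero_of_mem_orbitPolys hf
    rw [atomOf, if_neg (hnf f hf), ((mem_orbitPolys f).1 hf).2.1.natDegree_mul (monic_conjRecip h0),
      natDegree_conjRecip h0, hfd f hf, two_mul]
  -- arithmetic
  set E := if Even m then q ^ m + 1 else q ^ m - 1 with hE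
  set E' := if Even m then q ^ m - 1 else q ^ m + 1 with hE'
  have hEE : E * E' = q ^ (2 * m) - 1 := by
    have h1 : (q ^ m + 1) * (q ^ m - 1) = q ^ (2 * m) - 1 := by
      rw [← Nat.sq_sub_sq, one_pow, ← pow_mul, mul_comm m]
    rw [hE, hE']
    split_ifs
    · exact h1
    · rw [mul_comm]; exact h1
  have hqm : 1 < q ^ m := Nat.one_lt_pow (by omega) (by omega)
  have hE0 : 0 < E := by rw [hE]; split_ifs <;> omega
  have hE'int : (E' : ℤ) = (q : ℤ) ^ m - (-1) ^ m := by
    rw [hE']
    split_ifs with h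
    · rw [h.neg_one_pow, Nat.cast_sub hqm.le]; push_cast; ring
    · rw [(Nat.not_even_iff_odd.1 h).neg_one_pow]; push_cast; ring
  set S : ℤ := ∑ j ∈ Finset.range m, (q : ℤ) ^ j * (-1) ^ (m - 1 - j) with hS
  have hSE : S * ((q : ℤ) + 1) = (E' : ℤ) := by
    rw [hE'int, hS, ← geom_sum₂_mul, sub_neg_eq_add]
  obtain ⟨M, hM⟩ : q + 1 ∣ E' := by
    have h : ((q + 1 : ℕ) : ℤ) ∣ (E' : ℤ) := ⟨S, by rw [← hSE]; push_cast; ring⟩
    exact_mod_cast h
  have hMS : (M : ℤ) = S := by
    refine mul_right_cancel₀ (show ((q : ℤ) + 1) ≠ 0 by positivity) ?_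
    rw [hSE, hM]; push_cast; ring
  set d := Nat.gcd (2 * m) (q + 1) with hd
  have hdM : d ∣ M ↔ d ∣ m := by
    rw [← ZMod.natCast_eq_zero_iff M d, ← ZMod.natCast_eq_zero_iff m d]
    have hq : (q : ZMod d) = -1 := by
      rw [eq_neg_iff_add_eq_zero, ← Nat.cast_one, ← Nat.cast_add, ZMod.natCast_eq_zero_iff]
      exact Nat.gcd_dvd_right _ _
    have h1 : (M : ZMod d) = (m : ZMod d) * (-1) ^ (m - 1) := by
      rw [← Int.cast_natCast (R := ZMod d) M, hMS, hS]
      push_cast
      rw [hq, Finset.sum_congr rfl (g := fun _ => (-1 : ZMod d) ^ (m - 1)) fun j hj => by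
        rw [← pow_add]; congr 1; have := Finset.mem_range.1 hj; omega]
      rw [Finset.sum_const, Finset.card_range, nsmul_eq_mul]
    rw [h1]
    constructor
    · intro h
      have h2 := congrArg (· * (-1 : ZMod d) ^ (m - 1)) h
      simp only [zero_mul, mul_assoc, ← mul_pow, neg_one_mul, neg_neg, one_pow, mul_one] at h2
      exact h2
    · intro h; rw [h, zero_mul]
  rw [← gcd_dvd_half_iff (by omega : 0 < m), ← hd, ← hdM]
  have key : ∀ (N : ℕ), N * (d * (q + 1)) = q ^ (2 * m) - 1 → (E ∣ N ↔ d ∣ M) := by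
    intro N hN
    rw [← hEE, hM] at hN
    have h : N * d = E * M := Nat.eq_of_mul_eq_mul_right (by omega : 0 < q + 1) (by
      rw [mul_assoc, hN]; ring)
    constructor
    · rintro ⟨k, rfl⟩
      exact ⟨k, Nat.eq_of_mul_eq_mul_left hE0 (by rw [← h]; ring)⟩
    · rintro ⟨k, rfl⟩
      refine ⟨k, Nat.eq_of_mul_eq_mul_right (show 0 < d from Nat.gcd_pos_of_pos_right _ (by omega)) ?_⟩
      rw [h]; ring
  have hn2 : 2 ≤ 2 * m := by omega
  constructor
  · rintro ⟨g, hg⟩
    obtain ⟨x, rfl⟩ := QuotientGroup.mk_surjective g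
    have hrE : r ∣ E := by
      rw [hE]
      by_cases h : Even m
      · have hi' : i = 2 * m := by rw [hi, if_pos h]
        have h2 : r ∣ (q ^ m + 1) * (q ^ m - 1) := by
          rw [← Nat.sq_sub_sq, one_pow, ← pow_mul, mul_comm m, ← hi']; exact hR.2.1
        rw [if_pos h]
        exact (hR.1.dvd_mul.1 h2).resolve_right (hR.2.2 m (by omega) (by omega))
      · have hi' : i = m := by rw [hi, if_neg h]
        rw [if_neg h]; exact hi' ▸ hR.2.1
    obtain ⟨e', he'⟩ := hrE
    set y : ↥(SU (2 * m) F q) := x ^ (e' * (q + 1)) with hy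
    have hyr : y ^ r = 1 := by
      have hz : x ^ E ∈ Subgroup.center ↥(SU (2 * m) F q) := by
        rw [← QuotientGroup.eq_one_iff, QuotientGroup.mk_pow, ← hg, pow_orderOf_eq_one]
      have h : (⟨x ^ E, hz⟩ : Subgroup.center ↥(SU (2 * m) F q)) ^ (q + 1) = 1 := by
        obtain ⟨k, hk⟩ := Nat.gcd_dvd_right (2 * m) (q + 1)
        rw [hk, pow_mul, ← card_center_SU (n := 2 * m) hF hn2, pow_card_eq_one', one_pow]
      have h' := congrArg Subtype.val h
      rw [SubgroupClass.coe_pow, OneMemClass.coe_one] at h'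
      rw [hy, ← pow_mul, mul_right_comm, mul_comm e' r, ← he', pow_mul, h']
    have hy1 : suToGU y ≠ 1 := by
      intro h
      have h1 : y = 1 := suToGU_injective (by rw [h, map_one])
      have h2 : (x : PSU (2 * m) F q) ^ (e' * (q + 1)) = 1 := by
        rw [← QuotientGroup.mk_pow, ← hy, h1, QuotientGroup.mk_one]
      have h3 := orderOf_dvd_of_pow_eq_one h2
      rw [hg, he', mul_comm r e'] at h3
      have he0 : 0 < e' := Nat.pos_of_ne_zero fun h0 => by rw [h0, mul_zero] at he'; omega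
      exact hr1 (Nat.dvd_of_mul_dvd_mul_left he0 h3)
    obtain ⟨f, hf, hfc⟩ := exists_charpoly_eq_atom p hF hrp hrF (by omega) had
      (s := suToGU y) (by rw [← map_pow, hyr, map_one]) hy1
    rw [atomOf, if_neg (hnf f hf)] at hfc
    have hcop : (orderOf (suToGU y)).Coprime p :=
      Nat.Coprime.coprime_dvd_left (orderOf_dvd_of_pow_eq_one (by rw [← map_pow, hyr, map_one]))
        ((Nat.coprime_primes hR.1 hp).mpr hrp)
    obtain ⟨N, hN, -, hup⟩ :=
      psu_torus_image (m := m) p hF hn2 hrF hf (hfd f hf) (hnf f hf) hcop hfc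
    refine (key N hN).1 ?_
    rw [← hg]
    exact orderOf_dvd_of_pow_eq_one (hup x (by
      rw [hy, map_pow]; exact (Commute.refl (suToGU x)).pow_right _))
  · intro hdm
    obtain ⟨f, hf⟩ : (orbitPolys F r).Nonempty := by
      rw [← Finset.card_pos]
      have h := card_orbitPolys_mul (F := F) (r := r) hrF
      have h2 := hR.1.two_le
      rcases Nat.eq_zero_or_pos (orbitPolys F r).card with h0 | h0
      · rw [h0, zero_mul] at h; omega
      · exact h0
    have ha := atomOf_spec hF hf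
    have ha0 : (atomOf (conjHom hF) f).coeff 0 ≠ 0 := by
      rw [atomOf, if_neg (hnf f hf), mul_coeff_zero]
      exact mul_ne_zero (coeff_zero_ne_zero_of_mem_orbitPolys hf)
        (coeff_zero_ne_zero_of_mem_orbitPolys (conjRecip_mem_orbitPolys hF hf))
    obtain ⟨s, hs, hsc⟩ := exists_gu_charpoly p hF ha.1
      (had _ (Finset.mem_image_of_mem _ hf)) ha0 ha.2.1
    rw [atomOf, if_neg (hnf f hf)] at hsc
    obtain ⟨N, hN, ⟨g, hg⟩, -⟩ :=
      psu_torus_image (m := m) p hF hn2 hrF hf (hfd f hf) (hnf f hf) hs hsc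
    obtain ⟨k, hk⟩ := (key N hN).2 hdm
    refine ⟨g ^ k, ?_⟩
    have hk0 : k ≠ 0 := by
      rintro rfl
      rw [mul_zero] at hk
      rw [hk, zero_mul] at hN
      have : 1 < q ^ (2 * m) := Nat.one_lt_pow (by omega) (by omega)
      omega
    rw [orderOf_pow' _ hk0, hg, hk, Nat.gcd_eq_right (dvd_mul_left _ _),
      Nat.mul_div_cancel _ (Nat.pos_of_ne_zero hk0)]

end CfsgLib.Spec53
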