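import Mathlib

/-!
A simple group is determined by its commuting graph once it is known that the automorphism
group of the subgraph on one class of centraliser-size is at most twice as big as the group.
-/

set_option autoImplicit false

namespace CfsgLib.Spec53

open Function

/-- The permutations of an indexing set keeping the commutation relation of an indexed family. -/
def commAut {G X : Type*} [Group G] (r : X → G) : Subgroup (Equiv.Perm X) where
  carrier := {σ | ∀ i j, Commute (r (σ i)) (r (σ j)) ↔ Commute (r i) (r j)}
  mul_mem' {a b} ha hb i j := (ha (b i) (b j)).trans (hb i j)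
  one_mem' _ _ := Iff.rfl
  inv_mem' {a} ha i j := by
    have := ha (a⁻¹ i) (a⁻¹ j)
    simpa using this.symm

theorem center_eq_bot_of_simple {G : Type*} [Group G] [IsSimpleGroup G]
    (hna : ¬ ∀ a b : G, a * b = b * a) : Subgroup.center G = ⊥ := by
  rcases Subgroup.Normal.eq_bot_or_eq_top (H := Subgroup.center G) inferInstance with h | h
  · exact h
  · exact absurd (fun a b => (Subgroup.mem_center_iff.1 (h ▸ Subgroup.mem_top b) a)) hna

theorem natCard_centralizer_congr {G H : Type*} [Group G] [Group H] (F : H ≃ G)
    (hF : ∀ x y, Commute (F x) (F y) ↔ Commute x y) (y : H) :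
    Nat.card (Subgroup.centralizer {y}) = Nat.card (Subgroup.centralizer {F y}) :=
  Nat.card_congr (F.subtypeEquiv fun a => by
    rw [Subgroup.mem_centralizer_singleton_iff, Subgroup.mem_centralizer_singleton_iff]
    exact (hF a y).symm)

theorem natCard_centralizer_conj {H : Type*} [Group H] (h y : H) :
    Nat.card (Subgroup.centralizer {h * y * h⁻¹}) = Nat.card (Subgroup.centralizer {y}) := by
  symm
  exact Nat.card_congr ((MulAut.conj h).toEquiv.subtypeEquiv fun a => by
    rw [Subgroup.mem_centralizer_singleton_iff, Subgroup.mem_centralizer_singleton_iff]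
    exact (Commute.conj_iff (a := a) (b := y) h).symm)

/-- A group whose commuting relation matches that of `G` acts faithfully on the chosen class. -/
theorem exists_injective_hom_commAut {G H X : Type*} [Group G] [Group H] [IsSimpleGroup G]
    (hna : ¬ ∀ a b : G, a * b = b * a) [Nonempty X] (r : X → G) (hr : Injective r) (c : ℕ)
    (hX : ∀ g : G, (g ≠ 1 ∧ Nat.card (Subgroup.centralizer {g}) = c) ↔ g ∈ Set.range r)
    (F : H ≃ G) (hF : ∀ x y, Commute (F x) (F y) ↔ Commute x y) :
    ∃ θ : H →* Equiv.Perm X, Injective θ ∧ θ.range ≤ commAut r := by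
  have hcen := center_eq_bot_of_simple hna
  have hF1 : F 1 = 1 := by
    have hm : F 1 ∈ Subgroup.center G := Subgroup.mem_center_iff.2 fun g => by
      obtain ⟨x, rfl⟩ := F.surjective g
      exact ((hF x 1).2 (Commute.one_right x)).eq
    rwa [hcen, Subgroup.mem_bot] at hm
  have hex : ∀ (h : H) (i : X), ∃ j, r j = F (h * F.symm (r i) * h⁻¹) := by
    intro h i
    obtain ⟨h1, h2⟩ := (hX (r i)).2 ⟨i, rfl⟩
    refine (hX _).1 ⟨fun e => h1 ?_, ?_⟩
    · rw [← hF1] at e
      have e' : F.symm (r i) = 1 := by
        have := F.injective e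
        rw [mul_inv_eq_one] at this
        simpa using this
      rw [← hF1, ← e', F.apply_symm_apply]
    · rw [← natCard_centralizer_congr F hF, natCard_centralizer_conj,
        natCard_centralizer_congr F hF, F.apply_symm_apply, h2]
  choose φ hφ using hex
  have hmul : ∀ a b i, φ (a * b) i = φ a (φ b i) := by
    intro a b i
    refine hr ?_
    rw [hφ, hφ, hφ b i, F.symm_apply_apply]
    congr 1
    group
  have hone : ∀ i, φ 1 i = i := fun i => hr (by rw [hφ]; simp)
  let θ : H →* Equiv.Perm X :=
    { toFun := fun h => ⟨φ h, φ h⁻¹, fun i => by rw [← hmul, inv_mul_cancel, hone],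
        fun i => by rw [← hmul, mul_inv_cancel, hone]⟩
      map_one' := Equiv.ext hone
      map_mul' := fun a b => Equiv.ext fun i => hmul a b i }
  refine ⟨θ, ?_, ?_⟩
  · rw [injective_iff_map_eq_one]
    intro h hh
    have hall : ∀ i, Commute (F h) (r i) := by
      intro i
      have e : φ h i = i := congrArg (fun σ : Equiv.Perm X => σ i) hh
      have e2 := hφ h i
      rw [e] at e2
      have e3 : h * F.symm (r i) * h⁻¹ = F.symm (r i) := F.injective (by simpa using e2.symm)
      have : Commute h (F.symm (r i)) := mul_inv_eq_iff_eq_mul.1 e3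
      simpa using (hF _ _).2 this
    have hle : Subgroup.normalClosure (Set.range r) ≤ Subgroup.centralizer {F h} := by
      rw [Subgroup.normalClosure, Subgroup.closure_le]
      intro g hg
      rw [Group.mem_conjugatesOfSet_iff] at hg
      obtain ⟨a, ⟨i, rfl⟩, hconj⟩ := hg
      obtain ⟨u, hu⟩ := isConj_iff.1 hconj
      have hg' : g ∈ Set.range r := by
        obtain ⟨h1, h2⟩ := (hX (r i)).2 ⟨i, rfl⟩
        refine (hX g).1 ⟨?_, ?_⟩
        · rw [← hu]
          exact fun e => h1 (conj_eq_one_iff.1 e)
        · rw [← hu, natCard_centralizer_conj, h2]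
      obtain ⟨j, rfl⟩ := hg'
      exact Subgroup.mem_centralizer_singleton_iff.2 (hall j).symm.eq
    have htop : Subgroup.normalClosure (Set.range r) = ⊤ := by
      rcases Subgroup.Normal.eq_bot_or_eq_top
          (H := Subgroup.normalClosure (Set.range r)) inferInstance with e | e
      · obtain ⟨i⟩ := ‹Nonempty X›
        have hm : r i ∈ Subgroup.normalClosure (Set.range r) :=
          Subgroup.subset_normalClosure ⟨i, rfl⟩
        rw [e, Subgroup.mem_bot] at hm
        exact absurd hm ((hX (r i)).2 ⟨i, rfl⟩).1
      · exact e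
    have hm : F h ∈ Subgroup.center G := Subgroup.mem_center_iff.2 fun g =>
      Subgroup.mem_centralizer_singleton_iff.1 (hle (htop ▸ Subgroup.mem_top g))
    rw [hcen, Subgroup.mem_bot, ← hF1] at hm
    exact F.injective hm
  · rintro _ ⟨h, rfl⟩ i j
    show Commute (r (φ h i)) (r (φ h j)) ↔ Commute (r i) (r j)
    rw [hφ, hφ, hF, Commute.conj_iff, ← hF, F.apply_symm_apply, F.apply_symm_apply]

/-- Two injective homomorphisms from a simple group and a group of the same order into a group
of at most twice that order have equal images. -/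
theorem nonempty_mulEquiv_of_two_images {G H P : Type*} [Group G] [Group H] [Group P] [Finite G]
    [Finite P] [IsSimpleGroup G] (hna : ¬ ∀ a b : G, a * b = b * a)
    (hcard : Nat.card H = Nat.card G) {A : Subgroup P} (hA : Nat.card A ≤ 2 * Nat.card G)
    {a : G →* P} {b : H →* P} (ha : Injective a) (hb : Injective b) (haA : a.range ≤ A)
    (hbA : b.range ≤ A) : Nonempty (H ≃* G) := by
  have ca : Nat.card a.range = Nat.card G := Nat.card_congr (MonoidHom.ofInjective ha).toEquiv.symm
  have cb : Nat.card b.range = Nat.card G :=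
    (Nat.card_congr (MonoidHom.ofInjective hb).toEquiv.symm).trans hcard
  have hG : 0 < Nat.card G := Nat.card_pos
  have h2 : b.range.relIndex A ≤ 2 := by
    have := Subgroup.index_mul_card (b.range.subgroupOf A)
    rw [Nat.card_congr (Subgroup.subgroupOfEquivOfLe hbA).toEquiv, cb] at this
    exact Nat.le_of_mul_le_mul_right (this.trans_le hA) hG
  have hne : b.range.relIndex A ≠ 0 := Subgroup.index_ne_zero_of_finite
  have h3 : (b.range.comap a).index ≤ 2 := by
    rw [Subgroup.index_comap]
    exact (Subgroup.relIndex_le_of_le_right haA hne).trans h2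
  have htop : b.range.comap a = ⊤ := by
    have h0 : (b.range.comap a).index ≠ 0 := Subgroup.index_ne_zero_of_finite
    rcases (show (b.range.comap a).index = 1 ∨ (b.range.comap a).index = 2 by omega) with e | e
    · exact Subgroup.index_eq_one.1 e
    · have := Subgroup.normal_of_index_eq_two e
      rcases Subgroup.Normal.eq_bot_or_eq_top (H := b.range.comap a) inferInstance with e' | e'
      · rw [e', Subgroup.index_bot] at e
        have : Fact (Nat.Prime 2) := ⟨Nat.prime_two⟩
        have : IsCyclic G := isCyclic_of_prime_card e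
        exact absurd (fun x y => IsMulCommutative.is_comm.comm x y) hna
      · exact e'
  have hle : a.range ≤ b.range := by
    rintro _ ⟨g, rfl⟩
    exact Subgroup.mem_comap.1 (htop ▸ Subgroup.mem_top g)
  have heq : a.range = b.range := Subgroup.eq_of_le_of_card_ge hle (by rw [ca, cb])
  exact ⟨(MonoidHom.ofInjective hb).trans
    ((MulEquiv.subgroupCongr heq.symm).trans (MonoidHom.ofInjective ha).symm)⟩

/-- A simple group is determined by the commutation relation on its elements if the graph of one
centraliser-size class has at most twice as many automorphisms as the group has elements. -/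
theorem nonempty_mulEquiv_of_commute_iff {G H X : Type*} [Group G] [Group H] [Finite G]
    [IsSimpleGroup G] (hna : ¬ ∀ a b : G, a * b = b * a) [Finite X] [Nonempty X]
    (r : X → G) (hr : Injective r) (c : ℕ)
    (hX : ∀ g : G, (g ≠ 1 ∧ Nat.card (Subgroup.centralizer {g}) = c) ↔ g ∈ Set.range r)
    (haut : Nat.card (commAut r) ≤ 2 * Nat.card G)
    (f : {h : H // h ≠ 1} ≃ {g : G // g ≠ 1})
    (hf : ∀ x y : {h : H // h ≠ 1}, (x : H) * y = y * x ↔ (f x : G) * f y = f y * f x) :
    Nonempty (H ≃* G) := by
  classical
  let F : H ≃ G :=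
    (Equiv.optionSubtypeNe (1 : H)).symm.trans
      (f.optionCongr.trans (Equiv.optionSubtypeNe (1 : G)))
  have hF1 : F 1 = 1 := by simp [F]
  have hFne : ∀ (x : H) (hx : x ≠ 1), F x = f ⟨x, hx⟩ := by
    intro x hx
    simp [F, hx]
  have hF : ∀ x y, Commute (F x) (F y) ↔ Commute x y := by
    intro x y
    by_cases hx : x = 1
    · subst hx; simp [hF1, Commute.one_left]
    by_cases hy : y = 1
    · subst hy; simp [hF1, Commute.one_right]
    rw [hFne x hx, hFne y hy]
    exact (hf ⟨x, hx⟩ ⟨y, hy⟩).symm
  obtain ⟨b, hb, hbA⟩ := exists_injective_hom_commAut hna r hr c hX F hF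
  obtain ⟨a, ha, haA⟩ := exists_injective_hom_commAut (H := G) hna r hr c hX (Equiv.refl G)
    (fun _ _ => Iff.rfl)
  exact nonempty_mulEquiv_of_two_images hna (Nat.card_congr F) haut ha hb haA hbA

end CfsgLib.Spec53
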