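import Mathlib

/-!
A certificate bounding the automorphism group of a graph on `N` vertices given by bit rows:
fixing the vertices in the given order, the image of the next vertex has few candidates.
-/

set_option autoImplicit false

namespace CfsgLib.Spec53

/-- The number of common neighbours of two rows among the first `N` vertices. -/
def commonCount (N a b : ℕ) : ℕ := ((List.range N).filter (fun j => (a &&& b).testBit j)).length

/-- The vertices that can be an image of `v` when all vertices of `pre` (index, row, bound) are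
fixed. -/
def autCands (rows : List ℕ) (N : ℕ) (pre : List (ℕ × ℕ × ℕ)) (v vrow : ℕ) : List ℕ :=
  let mask := pre.foldl
    (fun m p => m &&& (if p.2.1.testBit v then p.2.1 else (2 ^ N - 1) ^^^ p.2.1)) (2 ^ N - 1)
  ((List.range N).filter fun u => mask.testBit u).filter fun u =>
    (pre.filter fun p => p.2.2 != 1).all fun p =>
      commonCount N p.2.1 (rows.getD u 0) == commonCount N p.2.1 vrow

/-- Checks the certificate: one bound for each vertex, in order. -/
def autCheck (rows : List ℕ) (N : ℕ) : List (ℕ × ℕ × ℕ) → List ℕ → Bool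
  | pre, [] => pre.length == N
  | pre, k :: ks =>
    decide (pre.length < N) &&
      decide ((autCands rows N pre pre.length (rows.getD pre.length 0)).length ≤ k) &&
      autCheck rows N (pre ++ [(pre.length, rows.getD pre.length 0, k)]) ks

theorem testBit_foldl_mask (N : ℕ) (v u : ℕ) (hu : u < N) :
    ∀ (pre : List (ℕ × ℕ × ℕ)) (m : ℕ), m.testBit u = true →
      (∀ p ∈ pre, p.2.1.testBit u = p.2.1.testBit v) →
      (pre.foldl (fun m p => m &&& (if p.2.1.testBit v then p.2.1 else (2 ^ N - 1) ^^^ p.2.1))
        m).testBit u = true := by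
  intro pre
  induction pre with
  | nil => intro m hm _; simpa using hm
  | cons p pre ih =>
    intro m hm h
    rw [List.foldl_cons]
    refine ih _ ?_ (fun q hq => h q (List.mem_cons_of_mem _ hq))
    rw [Nat.testBit_and, hm, Bool.true_and]
    have hp := h p List.mem_cons_self
    split
    · next e => rw [hp, e]
    · next e =>
      rw [Nat.testBit_xor, Nat.testBit_two_pow_sub_one, hp, Bool.eq_false_iff.2 e]
      simp [hu]

theorem commonCount_eq_card (N : ℕ) (a b : ℕ) :
    commonCount N a b =
      (Finset.univ.filter fun j : Fin N => a.testBit j ∧ b.testBit j).card := by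
  rw [commonCount, ← List.toFinset_card_of_nodup (List.nodup_range.filter _),
    ← Finset.card_map Fin.valEmbedding]
  congr 1
  ext j
  simp only [List.mem_toFinset, List.mem_filter, List.mem_range, Nat.testBit_and,
    Bool.and_eq_true, Finset.mem_map, Finset.mem_filter, Finset.mem_univ, true_and,
    Fin.valEmbedding_apply]
  exact ⟨fun h => ⟨⟨j, h.1⟩, h.2, rfl⟩, fun ⟨i, hi, e⟩ => e ▸ ⟨i.2, hi⟩⟩

/-- The automorphisms of the graph given by the rows. -/
def rowAut (rows : List ℕ) (N : ℕ) (σ : Equiv.Perm (Fin N)) : Prop :=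
  ∀ i j : Fin N, (rows.getD (σ i) 0).testBit (σ j) = (rows.getD i 0).testBit j

theorem mem_autCands {rows : List ℕ} {N : ℕ} {σ : Equiv.Perm (Fin N)} (hσ : rowAut rows N σ)
    {pre : List (ℕ × ℕ × ℕ)}
    (hpre : ∀ p ∈ pre, ∃ s : Fin N, (s : ℕ) = p.1 ∧ p.2.1 = rows.getD s 0 ∧ σ s = s)
    (v : Fin N) : (σ v : ℕ) ∈ autCands rows N pre v (rows.getD v 0) := by
  simp only [autCands, List.mem_filter, List.mem_range, List.all_eq_true, bne_iff_ne,
    beq_iff_eq, and_imp]
  refine ⟨⟨(σ v).2, ?_⟩, ?_⟩
  · refine testBit_foldl_mask N v (σ v) (σ v).2 pre _ ?_ ?_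
    · rw [Nat.testBit_two_pow_sub_one]; simp
    · intro p hp
      obtain ⟨s, -, e, hs⟩ := hpre p hp
      have := hσ s v
      rwa [hs, ← e] at this
  · intro p hp _
    obtain ⟨s, -, e, hs⟩ := hpre p hp
    rw [commonCount_eq_card, commonCount_eq_card, e]
    symm
    refine Finset.card_equiv σ fun j => ?_
    simp only [Finset.mem_filter, Finset.mem_univ, true_and]
    have h1 := hσ s j
    have h2 := hσ v j
    rw [hs] at h1
    rw [h1, h2]

theorem natCard_le_of_autCheck (rows : List ℕ) (N : ℕ) :
    ∀ (ks : List ℕ) (pre : List (ℕ × ℕ × ℕ)) (B : Subgroup (Equiv.Perm (Fin N))),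
      (∀ σ ∈ B, rowAut rows N σ) → (pre.map Prod.fst = List.range pre.length) →
      (∀ p ∈ pre, p.2.1 = rows.getD p.1 0) →
      (∀ σ ∈ B, ∀ p ∈ pre, ∃ s : Fin N, (s : ℕ) = p.1 ∧ σ s = s) →
      autCheck rows N pre ks = true → Nat.card B ≤ ks.prod := by
  intro ks
  induction ks with
  | nil =>
    intro pre B _ hidx _ hfix hck
    simp only [autCheck, beq_iff_eq] at hck
    have hB : B = ⊥ := by
      refine (Subgroup.eq_bot_iff_forall _).2 fun σ hσ => Equiv.ext fun i => ?_
      have hmem : (i : ℕ) ∈ pre.map Prod.fst := by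
        rw [hidx, List.mem_range, hck]; exact i.2
      obtain ⟨p, hp, e⟩ := List.mem_map.1 hmem
      obtain ⟨s, hs, hs'⟩ := hfix σ hσ p hp
      have : s = i := Fin.ext (hs.trans e)
      rw [this] at hs'
      simpa using hs'
    subst hB
    simp
  | cons k ks ih =>
    intro pre B haut hidx hrow hfix hck
    simp only [autCheck, Bool.and_eq_true, decide_eq_true_eq] at hck
    obtain ⟨⟨hlt, hk⟩, hck⟩ := hck
    set v : Fin N := ⟨pre.length, hlt⟩ with hv
    let C : Subgroup (Equiv.Perm (Fin N)) := B ⊓ MulAction.stabilizer (Equiv.Perm (Fin N)) v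
    have hC : Nat.card C ≤ ks.prod := by
      refine ih (pre ++ [(pre.length, rows.getD pre.length 0, k)]) C (fun σ hσ => haut σ hσ.1) ?_
        ?_ ?_ hck
      · simp [hidx, List.range_succ]
      · intro p hp
        rcases List.mem_append.1 hp with hp | hp
        · exact hrow p hp
        · rw [List.mem_singleton.1 hp]
      · intro σ hσ p hp
        rcases List.mem_append.1 hp with hp | hp
        · exact hfix σ hσ.1 p hp
        · rw [List.mem_singleton.1 hp]
          exact ⟨v, rfl, hσ.2⟩
    have h1 : (MulAction.stabilizer B v).index ≤ k := by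
      rw [MulAction.index_stabilizer]
      refine le_trans ?_ hk
      set L := autCands rows N pre pre.length (rows.getD pre.length 0)
      have hsub : Fin.val '' MulAction.orbit B v ⊆ ↑L.toFinset := by
        rintro _ ⟨_, ⟨σ, rfl⟩, rfl⟩
        rw [List.coe_toFinset]
        refine mem_autCands (haut σ σ.2) (fun p hp => ?_) v
        obtain ⟨s, hs, hs'⟩ := hfix σ σ.2 p hp
        exact ⟨s, hs, by rw [hs]; exact hrow p hp, hs'⟩
      calc (MulAction.orbit B v).ncard = (Fin.val '' MulAction.orbit B v).ncard :=
            (Set.ncard_image_of_injective _ Fin.val_injective).symm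
        _ ≤ (↑L.toFinset : Set ℕ).ncard := Set.ncard_le_ncard hsub
        _ ≤ L.length := by rw [Set.ncard_coe_finset]; exact L.toFinset_card_le
    have h2 : Nat.card (MulAction.stabilizer B v) = Nat.card C :=
      Nat.card_congr
        { toFun := fun g => ⟨g.1.1, g.1.2, g.2⟩
          invFun := fun g => ⟨⟨g.1, g.2.1⟩, g.2.2⟩
          left_inv := fun _ => rfl
          right_inv := fun _ => rfl }
    rw [← Subgroup.card_mul_index (MulAction.stabilizer B v), h2, List.prod_cons, mul_comm k]
    exact Nat.mul_le_mul hC h1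

end CfsgLib.Spec53
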