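import Mathlib
import Cfsg.Agent.Spec53.CommutingGraph
import Cfsg.Agent.Spec53.GraphAutBound

/-!
Groups acting faithfully on at most 32 numbered points, with elements coded as naturals in
base 32, and certificates for one conjugacy class and the centraliser of a Sylow subgroup.
-/

set_option autoImplicit false

namespace CfsgLib.Spec53

open Function

/-- Reading the `i`th digit in base 32. -/
def dig (c i : ℕ) : ℕ := (c >>> (5 * i)) % 32

/-- An action on `n` numbered points that is determined by the base points `B`. -/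
structure PtRep (G : Type*) [Group G] (n : ℕ) (B : List ℕ) where
  /-- The action. -/
  act : G → ℕ → ℕ
  act_lt : ∀ g, ∀ i < n, act g i < n
  act_mul : ∀ g h, ∀ i < n, act (g * h) i = act g (act h i)
  act_one : ∀ i < n, act 1 i = i
  base_lt : ∀ b ∈ B, b < n
  ext : ∀ g h, (∀ b ∈ B, act g b = act h b) → g = h

/-- The base images as one number. -/
def baseKey (B : List ℕ) (c : ℕ) : List ℕ := B.map (dig c)

/-- Product check. -/
def mulOK (n a b c : ℕ) : Bool := (List.range n).all fun i => dig c i == dig a (dig b i)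

/-- Inverse check. -/
def invOK (n s t : ℕ) : Bool :=
  (List.range n).all fun i => decide (dig t i < n) && dig s (dig t i) == i

/-- Conjugate check: `d = s c t`. -/
def conjOK (n s t c d : ℕ) : Bool :=
  (List.range n).all fun i => dig d i == dig s (dig c (dig t i))

/-- Commutation check on the base. -/
def commOK (B : List ℕ) (a c : ℕ) : Bool := B.all fun b => dig a (dig c b) == dig c (dig a b)

section

variable {G : Type*} [Group G] {n : ℕ} {B : List ℕ} (R : PtRep G n B)

/-- The element has the code. -/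
def HasCode (g : G) (c : ℕ) : Prop := ∀ i < n, R.act g i = dig c i

theorem HasCode.eq {g h : G} {c d : ℕ} (hg : HasCode R g c) (hh : HasCode R h d)
    (e : baseKey B c = baseKey B d) : g = h := by
  refine R.ext g h fun b hb => ?_
  rw [hg b (R.base_lt b hb), hh b (R.base_lt b hb)]
  exact List.map_eq_map_iff.1 e b hb

theorem HasCode.key_eq {g : G} {c d : ℕ} (hg : HasCode R g c) (hg' : HasCode R g d) :
    baseKey B c = baseKey B d :=
  List.map_eq_map_iff.2 fun b hb =>
    ((hg b (R.base_lt b hb)).symm.trans (hg' b (R.base_lt b hb)))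

theorem HasCode.mul {g h : G} {a b c : ℕ} (hg : HasCode R g a) (hh : HasCode R h b)
    (hc : mulOK n a b c = true) : HasCode R (g * h) c := by
  intro i hi
  simp only [mulOK, List.all_eq_true, List.mem_range, beq_iff_eq] at hc
  rw [R.act_mul g h i hi, hg _ (R.act_lt h i hi), hh i hi, hc i hi]

theorem HasCode.inv {g : G} {s t : ℕ} (hg : HasCode R g s) (hc : invOK n s t = true) :
    HasCode R g⁻¹ t := by
  intro i hi
  simp only [invOK, List.all_eq_true, List.mem_range, Bool.and_eq_true, decide_eq_true_eq,
    beq_iff_eq] at hc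
  obtain ⟨h1, h2⟩ := hc i hi
  conv_lhs => rw [← h2, ← hg _ h1, ← R.act_mul g⁻¹ g _ h1, inv_mul_cancel, R.act_one _ h1]

theorem HasCode.conj {g x : G} {s t c d : ℕ} (hg : HasCode R g s) (hi : invOK n s t = true)
    (hx : HasCode R x c) (hd : conjOK n s t c d = true) : HasCode R (g * x * g⁻¹) d := by
  intro i hin
  simp only [conjOK, List.all_eq_true, List.mem_range, beq_iff_eq] at hd
  have h1 := HasCode.inv R hg hi i hin
  rw [R.act_mul _ _ i hin, R.act_mul _ _ _ (R.act_lt _ i hin),
    hg _ (R.act_lt x _ (R.act_lt _ i hin)), hx _ (R.act_lt _ i hin), h1, hd i hin]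

theorem commute_iff_commOK {g h : G} {a c : ℕ} (hg : HasCode R g a) (hh : HasCode R h c) :
    Commute g h ↔ commOK B a c = true := by
  simp only [commOK, List.all_eq_true, beq_iff_eq]
  constructor
  · intro e b hb
    have hbn := R.base_lt b hb
    have := congrArg (fun u => R.act u b) e.eq
    simp only [R.act_mul _ _ b hbn] at this
    rwa [hh b hbn, hg b hbn, hg _ (by rw [← hh b hbn]; exact R.act_lt h b hbn),
      hh _ (by rw [← hg b hbn]; exact R.act_lt g b hbn)] at this
  · intro e
    refine R.ext (g * h) (h * g) fun b hb => ?_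
    have hbn := R.base_lt b hb
    rw [R.act_mul _ _ b hbn, R.act_mul _ _ b hbn, hg _ (R.act_lt h b hbn),
      hh _ (R.act_lt g b hbn), hh b hbn, hg b hbn, e b hb]

/-- Straight-line programs on codes. -/
def codeProgOK (n : ℕ) : List ℕ → List (ℕ × ℕ × ℕ) → Bool
  | _, [] => true
  | prev, (i, j, c) :: es =>
    decide (i < prev.length) && decide (j < prev.length) &&
      mulOK n (prev.getD i 0) (prev.getD j 0) c && codeProgOK n (prev ++ [c]) es

theorem coded_of_prog :
    ∀ (es : List (ℕ × ℕ × ℕ)) (prev : List ℕ), (∀ c ∈ prev, ∃ g, HasCode R g c) →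
      codeProgOK n prev es = true →
      ∀ c ∈ prev ++ es.map (fun e => e.2.2), ∃ g, HasCode R g c := by
  intro es
  induction es with
  | nil => intro prev hp _ c hc; exact hp c (by simpa using hc)
  | cons e es ih =>
    obtain ⟨i, j, c⟩ := e
    intro prev hp hok d hd
    simp only [codeProgOK, Bool.and_eq_true, decide_eq_true_eq] at hok
    obtain ⟨⟨⟨hi, hj⟩, hm⟩, hok⟩ := hok
    rw [List.getD_eq_getElem _ _ hi, List.getD_eq_getElem _ _ hj] at hm
    obtain ⟨g, hg⟩ := hp _ (List.getElem_mem hi)
    obtain ⟨h, hh⟩ := hp _ (List.getElem_mem hj)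
    refine ih (prev ++ [c]) ?_ hok d (by simpa using hd)
    intro u hu
    rcases List.mem_append.1 hu with hu | hu
    · exact hp u hu
    · rw [List.mem_singleton.1 hu]; exact ⟨g * h, hg.mul R hh hm⟩

/-- The list is reached from the known entries by conjugation steps (child, parent, s, t). -/
def treeOK (n : ℕ) (L : List ℕ) : ℕ → List (ℕ × ℕ × ℕ × ℕ) → Bool
  | known, [] => known == 2 ^ L.length - 1
  | known, (c, p, s, t) :: es =>
    known.testBit p && invOK n s t && conjOK n s t (L.getD p 0) (L.getD c 0) &&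
      treeOK n L (known ||| 2 ^ c) es

theorem isConj_of_treeOK (L : List ℕ) (z : G) :
    ∀ (es : List (ℕ × ℕ × ℕ × ℕ)) (known : ℕ),
      (∀ e ∈ es, ∃ g, HasCode R g e.2.2.1) →
      (∀ i, known.testBit i = true → ∃ x, IsConj z x ∧ HasCode R x (L.getD i 0)) →
      treeOK n L known es = true →
      ∀ i < L.length, ∃ x, IsConj z x ∧ HasCode R x (L.getD i 0) := by
  intro es
  induction es with
  | nil =>
    intro known _ hk hok i hi
    simp only [treeOK, beq_iff_eq] at hok
    refine hk i ?_
    rw [hok, Nat.testBit_two_pow_sub_one]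
    simp [hi]
  | cons e es ih =>
    obtain ⟨c, p, s, t⟩ := e
    intro known hs hk hok
    simp only [treeOK, Bool.and_eq_true] at hok
    obtain ⟨⟨⟨hp, hi⟩, hc⟩, hok⟩ := hok
    refine ih _ (fun e he => hs e (List.mem_cons_of_mem _ he)) (fun j hj => ?_) hok
    rw [Nat.testBit_or, Bool.or_eq_true] at hj
    rcases hj with hj | hj
    · exact hk j hj
    · rw [Nat.testBit_two_pow, decide_eq_true_eq] at hj
      subst hj
      obtain ⟨g, hg⟩ := hs _ List.mem_cons_self
      obtain ⟨x, hx, hxc⟩ := hk p hp
      exact ⟨g * x * g⁻¹, hx.trans (isConj_iff.2 ⟨g, rfl⟩), hg.conj R hi hxc hc⟩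

/-- Each generator (code, inverse code, image list) maps the list into itself by conjugation. -/
def stableOK (n : ℕ) (L : List ℕ) (gens : List (ℕ × ℕ × List ℕ)) : Bool :=
  gens.all fun e => invOK n e.1 e.2.1 && (e.2.2.length == L.length) &&
    (L.zip e.2.2).all fun q =>
      decide (q.2 < L.length) && conjOK n e.1 e.2.1 q.1 (L.getD q.2 0)

/-- The rows are the commutation relation of the list. -/
def rowsOK (B : List ℕ) (L rows : List ℕ) : Bool :=
  (rows.length == L.length) &&
    (L.zip rows).all fun q => L.zipIdx.all fun e => q.2.testBit e.2 == commOK B q.1 e.1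

/-- The enumeration of a conjugacy class from its certificates. -/
theorem exists_class_enum [Finite G] (L : List ℕ) (root : ℕ) (z : G) (hroot : root < L.length)
    (hz : HasCode R z (L.getD root 0))
    (tree : List (ℕ × ℕ × ℕ × ℕ)) (htree : treeOK n L (2 ^ root) tree = true)
    (htg : ∀ e ∈ tree, ∃ g, HasCode R g e.2.2.1)
    (gens : List (ℕ × ℕ × List ℕ)) (hstable : stableOK n L gens = true)
    (hgen : Subgroup.closure {g | ∃ e ∈ gens, HasCode R g e.1} = ⊤)
    (hnd : (L.map (baseKey B)).Nodup) :
    ∃ r : Fin L.length → G, Injective r ∧ (∀ i, HasCode R (r i) L[i]) ∧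
      ∀ g, IsConj z g ↔ g ∈ Set.range r := by
  have h0 := isConj_of_treeOK R L z tree (2 ^ root) htg (fun i hi => by
    rw [Nat.testBit_two_pow, decide_eq_true_eq] at hi
    exact ⟨z, IsConj.refl z, hi ▸ hz⟩) htree
  choose r hrc hrh using fun i : Fin L.length => h0 i i.2
  have hrh' : ∀ i, HasCode R (r i) L[i] := by
    intro i
    have := hrh i
    rwa [List.getD_eq_getElem _ _ i.2] at this
  have hinj : Injective r := by
    intro i j e
    have hk := HasCode.key_eq R (hrh' i) (e ▸ hrh' j)
    apply Fin.ext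
    refine (hnd.getElem_inj_iff (hi := by simp) (hj := by simp)).1 ?_
    simp only [List.getElem_map]
    exact hk
  refine ⟨r, hinj, hrh', fun g => ⟨?_, fun ⟨i, e⟩ => e ▸ hrc i⟩⟩
  intro hg
  have key : ∀ u : G, ∀ x, u * x * u⁻¹ ∈ Set.range r ↔ x ∈ Set.range r := by
    intro u
    have hu : u ∈ Subgroup.closure {g | ∃ e ∈ gens, HasCode R g e.1} := hgen ▸ Subgroup.mem_top u
    induction hu using Subgroup.closure_induction with
    | one => simp
    | mem g hg =>
      obtain ⟨e, he, hge⟩ := hg
      simp only [stableOK, List.all_eq_true, Bool.and_eq_true, beq_iff_eq,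
        decide_eq_true_eq] at hstable
      obtain ⟨⟨hinv, hlen⟩, hst⟩ := hstable e he
      have hsub : (MulAut.conj g) '' Set.range r ⊆ Set.range r := by
        rintro _ ⟨_, ⟨i, rfl⟩, rfl⟩
        have hi : (i : ℕ) < (L.zip e.2.2).length := by simp [hlen]
        obtain ⟨hb, hc⟩ := hst _ (List.getElem_mem hi)
        simp only [List.getElem_zip] at hb hc
        rw [List.getD_eq_getElem _ _ hb] at hc
        exact ⟨⟨_, hb⟩, HasCode.eq R (hrh' ⟨_, hb⟩) (hge.conj R hinv (hrh' i) hc) rfl⟩
      have heq : (MulAut.conj g) '' Set.range r = Set.range r :=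
        Set.eq_of_subset_of_ncard_le hsub
          (by rw [Set.ncard_image_of_injective _ (MulAut.conj g).injective])
      intro x
      constructor
      · intro hx
        rw [← heq] at hx
        obtain ⟨y, hy, hy'⟩ := hx
        rwa [← (MulAut.conj g).injective (hy'.trans (MulAut.conj_apply g x).symm)]
      · intro hx
        exact hsub ⟨x, hx, rfl⟩
    | mul a b _ _ ha hb =>
      intro x
      rw [show a * b * x * (a * b)⁻¹ = a * (b * x * b⁻¹) * a⁻¹ by group, ha, hb]
    | inv a _ ha =>
      intro x
      rw [← ha (a⁻¹ * x * a⁻¹⁻¹)]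
      rw [show a * (a⁻¹ * x * a⁻¹⁻¹) * a⁻¹ = x by group]
  obtain ⟨u, hu⟩ := isConj_iff.1 hg
  rw [← hu, key u z]
  exact ⟨⟨root, hroot⟩, HasCode.eq R (hrh ⟨root, hroot⟩) hz rfl⟩

/-- The list is closed under products, as seen on the base. -/
def closedOK (B : List ℕ) (S : List ℕ) : Bool :=
  S.any (fun d => B.all fun b => dig d b == b) &&
    S.all fun a => S.all fun c => S.any fun d => B.all fun b => dig d b == dig a (dig c b)

theorem exists_subgroup_of_closedOK [Finite G] (S : List ℕ) (hS : ∀ c ∈ S, ∃ g, HasCode R g c)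
    (hnd : (S.map (baseKey B)).Nodup) (hok : closedOK B S = true) :
    ∃ P : Subgroup G, Nat.card P = S.length ∧ ∀ c ∈ S, ∀ g, HasCode R g c → g ∈ P := by
  simp only [closedOK, Bool.and_eq_true, List.any_eq_true, List.all_eq_true, beq_iff_eq] at hok
  obtain ⟨⟨e, he, he1⟩, hmul⟩ := hok
  choose r hr using fun i : Fin S.length => hS _ (List.getElem_mem i.2)
  have hmem : ∀ c ∈ S, ∀ g, HasCode R g c → g ∈ Set.range r := by
    intro c hc g hg
    obtain ⟨i, hi, rfl⟩ := List.getElem_of_mem hc
    exact ⟨⟨i, hi⟩, HasCode.eq R (hr ⟨i, hi⟩) hg rfl⟩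
  have hone : (1 : G) ∈ Set.range r := by
    obtain ⟨g, hg⟩ := hS e he
    have : g = 1 := R.ext g 1 fun b hb => by
      rw [hg b (R.base_lt b hb), he1 b hb, R.act_one b (R.base_lt b hb)]
    exact this ▸ hmem e he g hg
  have hmul' : ∀ {x y : G}, x ∈ Set.range r → y ∈ Set.range r → x * y ∈ Set.range r := by
    rintro _ _ ⟨i, rfl⟩ ⟨j, rfl⟩
    obtain ⟨d, hd, hd'⟩ := hmul _ (List.getElem_mem i.2) _ (List.getElem_mem j.2)
    obtain ⟨g, hg⟩ := hS d hd
    have : g = r i * r j := R.ext g _ fun b hb => by
      have hbn := R.base_lt b hb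
      rw [hg b hbn, hd' b hb, R.act_mul _ _ b hbn, hr i _ (R.act_lt _ b hbn), hr j b hbn]
    exact this ▸ hmem d hd g hg
  have hpow : ∀ x ∈ Set.range r, ∀ k : ℕ, x ^ k ∈ Set.range r := by
    intro x hx k
    induction k with
    | zero => simpa using hone
    | succ k ih => rw [pow_succ]; exact hmul' ih hx
  let P : Subgroup G :=
    { carrier := Set.range r
      mul_mem' := fun h h' => hmul' h h'
      one_mem' := hone
      inv_mem' := fun {x} hx => by
        rw [show x⁻¹ = x ^ (orderOf x - 1) from ?_]
        · exact hpow x hx _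
        · refine inv_eq_of_mul_eq_one_left ?_
          rw [← pow_succ, Nat.sub_add_cancel (orderOf_pos x), pow_orderOf_eq_one] }
  refine ⟨P, ?_, hmem⟩
  have hinj : Injective r := by
    intro i j e'
    have hk := HasCode.key_eq R (hr i) (e' ▸ hr j)
    apply Fin.ext
    refine (hnd.getElem_inj_iff (hi := by simp) (hj := by simp)).1 ?_
    simp only [List.getElem_map]
    exact hk
  show Nat.card (Set.range r) = S.length
  rw [Nat.card_congr (Equiv.ofInjective r hinj).symm, Nat.card_eq_fintype_card, Fintype.card_fin]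

/-- All tuples from a list of candidate lists. -/
def tuples : List (List ℕ) → List (List ℕ)
  | [] => [[]]
  | l :: ls => l.flatMap fun y => (tuples ls).map (y :: ·)

theorem mem_tuples : ∀ (ls : List (List ℕ)) (ys : List ℕ),
    List.Forall₂ (fun y l => y ∈ l) ys ls → ys ∈ tuples ls := by
  intro ls
  induction ls with
  | nil => intro ys h; cases h; simp [tuples]
  | cons l ls ih =>
    intro ys h
    cases h with
    | cons hy h => exact List.mem_flatMap.2 ⟨_, hy, List.mem_map.2 ⟨_, ih _ h, rfl⟩⟩

/-- Checks that the centraliser of the listed subgroup is `{1, z}`: `xs` are seeds whose images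
determine an element through `spec`, giving for each base point a seed index and a code. -/
def centOK (n : ℕ) (B S xs : List ℕ) (spec : List (ℕ × ℕ)) (zc : ℕ) (valid : List ℕ → Bool) :
    Bool :=
  (spec.length == B.length) && xs.all (fun x => decide (x < n)) &&
    (spec.zip B).all (fun q => decide (q.1.1 < xs.length) && S.contains q.1.2 &&
      dig q.1.2 (xs.getD q.1.1 0) == q.2) &&
    (tuples (xs.map fun x => (List.range n).filter fun y =>
        S.all fun c => dig c x != x || dig c y == y)).all fun ys =>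
      let vec := spec.map fun e => dig e.2 (ys.getD e.1 0)
      vec == B || vec == B.map (dig zc) || !valid vec

theorem eq_one_or_eq_of_centOK (S xs : List ℕ) (spec : List (ℕ × ℕ)) (zc : ℕ)
    (valid : List ℕ → Bool) (hvalid : ∀ g, valid (B.map (R.act g)) = true)
    (hok : centOK n B S xs spec zc valid = true) (hS : ∀ c ∈ S, ∃ g, HasCode R g c)
    {z : G} (hz : HasCode R z zc) {g : G}
    (hg : ∀ c ∈ S, ∀ s, HasCode R s c → Commute g s) : g = 1 ∨ g = z := by
  simp only [centOK, Bool.and_eq_true, List.all_eq_true, beq_iff_eq, decide_eq_true_eq,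
    Bool.or_eq_true, List.contains_eq_mem] at hok
  obtain ⟨⟨⟨hlen, hxs⟩, hspec⟩, hcand⟩ := hok
  have hfix : ∀ c ∈ S, ∀ x < n, dig c x = x → dig c (R.act g x) = R.act g x := by
    intro c hc x hx hcx
    obtain ⟨s, hs⟩ := hS c hc
    rw [← hs _ (R.act_lt g x hx), ← R.act_mul s g x hx, ← (hg c hc s hs).eq,
      R.act_mul g s x hx, hs x hx, hcx]
  have hmem := hcand (xs.map (R.act g)) (mem_tuples _ _ (by
    rw [List.forall₂_map_left_iff, List.forall₂_map_right_iff, List.forall₂_same]
    intro x hx
    rw [List.mem_filter, List.mem_range, List.all_eq_true]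
    refine ⟨R.act_lt g x (hxs x hx), fun c hc => ?_⟩
    by_cases hcx : dig c x = x
    · simp [hfix c hc x (hxs x hx) hcx]
    · simp [hcx]))
  have hvec : spec.map (fun e => dig e.2 ((xs.map (R.act g)).getD e.1 0)) = B.map (R.act g) := by
    refine List.ext_getElem (by simp [hlen]) fun i h1 h2 => ?_
    rw [List.length_map] at h1 h2
    have hi : i < (spec.zip B).length := by simp [h1, h2]
    obtain ⟨⟨hk, hc⟩, hx⟩ := hspec _ (List.getElem_mem hi)
    simp only [List.getElem_zip] at hk hc hx
    rw [List.getD_eq_getElem _ _ hk] at hx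
    have hxn := hxs _ (List.getElem_mem hk)
    obtain ⟨s, hs⟩ := hS _ hc
    rw [List.getElem_map, List.getElem_map,
      List.getD_eq_getElem _ _ (by simpa using hk), List.getElem_map,
      ← hs _ (R.act_lt g _ hxn), ← R.act_mul s g _ hxn, ← (hg _ hc s hs).eq,
      R.act_mul g s _ hxn, hs _ hxn, hx]
  simp only [hvec] at hmem
  rcases hmem with (h | h) | h
  · left
    refine R.ext g 1 fun b hb => ?_
    rw [R.act_one b (R.base_lt b hb)]
    exact List.map_eq_map_iff.1 (h.trans (List.map_id B).symm) b hb
  · right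
    refine R.ext g z fun b hb => ?_
    rw [hz b (R.base_lt b hb)]
    exact List.map_eq_map_iff.1 h b hb
  · simp [hvalid g] at h

end

end CfsgLib.Spec53
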