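import Mathlib
import Cfsg.Agent.Spec53.CodedGroup

/-!
From certificates to "the commuting graph determines the group".
-/

set_option autoImplicit false

namespace CfsgLib.Spec53

open Function

theorem natCard_centralizer_mul_ncard {G : Type*} [Group G] [Finite G] (z : G) :
    Nat.card (Subgroup.centralizer {z}) * {g : G | IsConj z g}.ncard = Nat.card G := by
  have h1 : MulAction.orbit (ConjAct G) z = {g : G | IsConj z g} := by
    ext g
    rw [ConjAct.mem_orbit_conjAct, Set.mem_setOf_eq, isConj_comm]
  have h2 : Nat.card (MulAction.stabilizer (ConjAct G) z) =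
      Nat.card (Subgroup.centralizer {z}) :=
    Nat.card_congr (ConjAct.ofConjAct.toEquiv.subtypeEquiv fun a => by
      rw [MulAction.mem_stabilizer_iff, ConjAct.smul_def, Subgroup.mem_centralizer_singleton_iff,
        mul_inv_eq_iff_eq_mul]
      rfl)
  rw [← h1, ← h2, ← MulAction.index_stabilizer, Subgroup.card_mul_index]
  exact Nat.card_congr ConjAct.ofConjAct.toEquiv

/-- The group is determined by its commuting graph, given the certificates. -/
theorem nonempty_mulEquiv_of_cert {G : Type*} [Group G] [Finite G] [IsSimpleGroup G] {n : ℕ}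
    {B : List ℕ} (R : PtRep G n B) (prev : List ℕ) (prog : List (ℕ × ℕ × ℕ))
    (hprev : ∀ c ∈ prev, ∃ g, HasCode R g c) (hprog : codeProgOK n prev prog = true)
    (gens : List (ℕ × ℕ × List ℕ))
    (hgen : Subgroup.closure {g | ∃ e ∈ gens, HasCode R g e.1} = ⊤)
    (L : List ℕ) (root : ℕ) (tree : List (ℕ × ℕ × ℕ × ℕ))
    (hnd : (L.map (baseKey B)).Nodup)
    (hclass : (decide (root < L.length) &&
      (prev ++ prog.map fun e => e.2.2).contains (L.getD root 0) &&
      tree.all (fun e => (prev ++ prog.map fun e => e.2.2).contains e.2.2.1) &&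
      treeOK n L (2 ^ root) tree && stableOK n L gens) = true)
    (S : List ℕ) (hSnd : (S.map (baseKey B)).Nodup)
    (hS : (S.all (fun c => (prev ++ prog.map fun e => e.2.2).contains c) && closedOK B S) = true)
    (xs : List ℕ) (spec : List (ℕ × ℕ)) (valid : List ℕ → Bool)
    (hvalid : ∀ g, valid (B.map (R.act g)) = true)
    (hcent' : centOK n B S xs spec (L.getD root 0) valid = true)
    (rows ks : List ℕ) (hrows : rowsOK B L rows = true)
    (haut : autCheck rows L.length [] ks = true) (hks : ks.prod ≤ 2 * Nat.card G)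
    (hnc : (List.range L.length).any (fun i => (List.range L.length).any
      fun j => !(rows.getD i 0).testBit j) = true)
    (c p k : ℕ) (hp : p.Prime) (hc : c * L.length = Nat.card G) (hpk : p ^ k ∣ c)
    (hpk' : ¬ p ^ (k + 1) ∣ Nat.card G) (hSlen : S.length = p ^ k)
    {H : Type*} [Group H]
    (f : {h : H // h ≠ 1} ≃ {g : G // g ≠ 1})
    (hf : ∀ x y : {h : H // h ≠ 1}, (x : H) * y = y * x ↔ (f x : G) * f y = f y * f x) :
    Nonempty (H ≃* G) := by
  simp only [Bool.and_eq_true, decide_eq_true_eq, List.all_eq_true, List.contains_eq_mem] at hclass hS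
  obtain ⟨⟨⟨⟨hroot, hzc⟩, htg⟩, htree⟩, hstable⟩ := hclass
  obtain ⟨hSmem, hclosed⟩ := hS
  have hall := coded_of_prog R prog prev hprev hprog
  obtain ⟨z, hz⟩ := hall _ hzc
  obtain ⟨r, hr, hrc, hconj⟩ := exists_class_enum R L root z hroot hz tree htree
    (fun e he => hall _ (htg e he)) gens hstable hgen hnd
  simp only [rowsOK, Bool.and_eq_true, beq_iff_eq, List.all_eq_true] at hrows
  obtain ⟨hrlen, hrows⟩ := hrows
  have hcomm : ∀ i j : Fin L.length,
      (rows.getD i 0).testBit j = true ↔ Commute (r i) (r j) := by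
    intro i j
    have hi : (i : ℕ) < (L.zip rows).length := by simp [hrlen]
    have hj : (j : ℕ) < L.zipIdx.length := by simp
    have := hrows _ (List.getElem_mem hi) _ (List.getElem_mem hj)
    simp only [List.getElem_zip, List.getElem_zipIdx, Nat.zero_add] at this
    rw [List.getD_eq_getElem _ _ (by omega : (i : ℕ) < rows.length), this]
    exact (commute_iff_commOK R (hrc i) (hrc j)).symm
  have hna : ¬ ∀ a b : G, a * b = b * a := by
    intro hab
    simp only [List.any_eq_true, List.mem_range, Bool.not_eq_true'] at hnc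
    obtain ⟨i, hi, j, hj, hij⟩ := hnc
    have := (hcomm ⟨i, hi⟩ ⟨j, hj⟩).2 (hab _ _)
    exact Bool.false_ne_true (hij.symm.trans this)
  have hN : {g : G | IsConj z g}.ncard = L.length := by
    have : {g : G | IsConj z g} = Set.range r := Set.ext hconj
    rw [this, ← Nat.card_coe_set_eq, Nat.card_congr (Equiv.ofInjective r hr).symm,
      Nat.card_eq_fintype_card, Fintype.card_fin]
  have hcz : Nat.card (Subgroup.centralizer {z}) = c := by
    have h := natCard_centralizer_mul_ncard z
    rw [hN, ← hc] at h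
    exact Nat.eq_of_mul_eq_mul_right (Nat.zero_lt_of_lt hroot) h
  have hz1 : z ≠ 1 := by
    rintro rfl
    have h1 : {g : G | IsConj 1 g} = {1} := by
      ext g; simp [eq_comm]
    rw [h1, Set.ncard_singleton] at hN
    simp only [List.any_eq_true, List.mem_range, Bool.not_eq_true'] at hnc
    obtain ⟨i, hi, j, hj, hij⟩ := hnc
    obtain rfl : i = j := by omega
    have := (hcomm ⟨i, hi⟩ ⟨i, hi⟩).2 (Commute.refl _)
    exact Bool.false_ne_true (hij.symm.trans this)
  haveI : Fact p.Prime := ⟨hp⟩
  obtain ⟨P, hP, hPS⟩ := exists_subgroup_of_closedOK R S (fun d hd => hall _ (hSmem d hd)) hSnd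
    hclosed
  rw [hSlen] at hP
  have hX : ∀ g : G, (g ≠ 1 ∧ Nat.card (Subgroup.centralizer {g}) = c) ↔ g ∈ Set.range r := by
    intro g
    rw [← hconj g]
    refine ⟨fun ⟨hg1, hgc⟩ => ?_, fun h => ?_⟩
    · obtain ⟨Q, hQ⟩ := Sylow.exists_subgroup_card_pow_prime p
        (show p ^ k ∣ Nat.card (Subgroup.centralizer {g}) by rw [hgc]; exact hpk)
      set Q' : Subgroup G := Q.map (Subgroup.centralizer {g}).subtype with hQ'
      have hQc : Nat.card Q' = p ^ k := by
        rw [hQ', Nat.card_congr (Q.equivMapOfInjective _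
          (Subgroup.centralizer {g}).subtype_injective).toEquiv.symm, hQ]
      have syl : ∀ A : Subgroup G, Nat.card A = p ^ k → ∃ T : Sylow p G, (T : Subgroup G) = A := by
        intro A hA
        obtain ⟨T, hT⟩ := (IsPGroup.of_card hA).exists_le_sylow
        refine ⟨T, (Subgroup.eq_of_le_of_card_ge hT ?_).symm⟩
        obtain ⟨a, ha⟩ := IsPGroup.iff_card.1 T.2
        rw [ha, hA]
        refine Nat.pow_le_pow_right hp.pos (not_lt.1 fun hlt => hpk' ?_)
        exact (pow_dvd_pow p hlt).trans (ha ▸ Subgroup.card_subgroup_dvd_card _)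
      obtain ⟨T1, hT1⟩ := syl Q' hQc
      obtain ⟨T2, hT2⟩ := syl P hP
      obtain ⟨u, hu⟩ := MulAction.exists_smul_eq G T1 T2
      have hcent : ∀ d ∈ S, ∀ s, HasCode R s d → Commute (u * g * u⁻¹) s := by
        intro d hd s hs
        have hsP : s ∈ (T2 : Subgroup G) := hT2 ▸ hPS d hd s hs
        rw [← hu, Sylow.coe_subgroup_smul, Subgroup.mem_pointwise_smul_iff_inv_smul_mem,
          hT1, hQ'] at hsP
        have hin := Subgroup.map_subtype_le Q hsP
        rw [Subgroup.mem_centralizer_singleton_iff, ← map_inv, MulAut.smul_def,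
          MulAut.conj_apply, inv_inv] at hin
        have h := (show Commute (u⁻¹ * s * u) g from hin).symm
        have h' := (Commute.conj_iff u).2 h
        rwa [show u * (u⁻¹ * s * u) * u⁻¹ = s by group] at h'
      rcases eq_one_or_eq_of_centOK R S xs spec _ valid hvalid hcent' (fun d hd => hall _ (hSmem d hd))
        hz hcent with e | e
      · exact absurd (conj_eq_one_iff.1 e) hg1
      · exact (isConj_iff.2 ⟨u, e⟩ : IsConj g z).symm
    · obtain ⟨u, rfl⟩ := isConj_iff.1 h
      exact ⟨fun e => hz1 (conj_eq_one_iff.1 e), by rw [natCard_centralizer_conj, hcz]⟩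
  haveI : Nonempty (Fin L.length) := ⟨⟨root, hroot⟩⟩
  refine nonempty_mulEquiv_of_commute_iff hna r hr c hX (le_trans ?_ hks) f hf
  refine natCard_le_of_autCheck rows L.length ks [] _ (fun σ hσ i j => ?_) (by simp) (by simp)
    (by simp) haut
  rw [Bool.eq_iff_iff, hcomm, hcomm]
  exact hσ i j

end CfsgLib.Spec53
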