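import Mathlib
import Cfsg.Agent.Classical.Linear.Generation
import Cfsg.Agent.Classical.Linear.Simple
import Cfsg.Agent.Classical.Linear.Card
import Cfsg.Agent.Spec53.GraphCert
import Cfsg.Agent.Spec53.L33CertData

/-!
`PSL(3,3)` is determined by its commuting graph.
-/

set_option autoImplicit false

namespace CfsgLib.Spec53

open Matrix

local notation "SL33" => Matrix.SpecialLinearGroup (Fin 3) (ZMod 3)

/-- The vector with the given number. -/
def vec3 (i : ℕ) : Fin 3 → ZMod 3 :=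
  ![((i % 3 : ℕ) : ZMod 3), ((i / 3 % 3 : ℕ) : ZMod 3), ((i / 9 : ℕ) : ZMod 3)]

/-- The number of a vector. -/
def num3 (v : Fin 3 → ZMod 3) : ℕ := (v 0).val + 3 * (v 1).val + 9 * (v 2).val

theorem vec3_num3 : ∀ v, vec3 (num3 v) = v := by decide +kernel

theorem num3_vec3 : ∀ i < 27, num3 (vec3 i) = i := by decide +kernel

theorem num3_lt : ∀ v, num3 v < 27 := by decide +kernel

theorem vec3_base : vec3 1 = Pi.single 0 1 ∧ vec3 3 = Pi.single 1 1 ∧ vec3 9 = Pi.single 2 1 := by
  decide +kernel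

theorem apply_eq_mulVec_vec3 (g : SL33) (i : Fin 3) :
    (g : Matrix (Fin 3) (Fin 3) (ZMod 3)) i 0 = ((g : Matrix _ _ _) *ᵥ vec3 1) i ∧
    (g : Matrix (Fin 3) (Fin 3) (ZMod 3)) i 1 = ((g : Matrix _ _ _) *ᵥ vec3 3) i ∧
    (g : Matrix (Fin 3) (Fin 3) (ZMod 3)) i 2 = ((g : Matrix _ _ _) *ᵥ vec3 9) i := by
  obtain ⟨h1, h3, h9⟩ := vec3_base
  simp [h1, h3, h9, Matrix.mulVec_single]

/-- `SL(3,3)` on the 27 vectors. -/
def l33Rep : PtRep SL33 27 [1, 3, 9] where
  act g i := num3 ((g : Matrix (Fin 3) (Fin 3) (ZMod 3)) *ᵥ vec3 i)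
  act_lt _ _ _ := num3_lt _
  act_mul g h i _ := by
    show num3 (((g * h : SL33) : Matrix (Fin 3) (Fin 3) (ZMod 3)) *ᵥ vec3 i) = num3 _
    rw [vec3_num3, mulVec_mulVec, Matrix.SpecialLinearGroup.coe_mul]
  act_one i hi := by
    show num3 (((1 : SL33) : Matrix (Fin 3) (Fin 3) (ZMod 3)) *ᵥ vec3 i) = i
    rw [Matrix.SpecialLinearGroup.coe_one, one_mulVec, num3_vec3 i hi]
  base_lt := by decide
  ext g h hb := by
    have e : ∀ b ∈ [1, 3, 9], (g : Matrix (Fin 3) (Fin 3) (ZMod 3)) *ᵥ vec3 b =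
        (h : Matrix (Fin 3) (Fin 3) (ZMod 3)) *ᵥ vec3 b := fun b hm => by
      rw [← vec3_num3 ((g : Matrix (Fin 3) (Fin 3) (ZMod 3)) *ᵥ vec3 b),
        ← vec3_num3 ((h : Matrix (Fin 3) (Fin 3) (ZMod 3)) *ᵥ vec3 b)]
      exact congrArg vec3 (hb b hm)
    apply Subtype.ext
    ext i j
    obtain ⟨g0, g1, g2⟩ := apply_eq_mulVec_vec3 g i
    obtain ⟨h0, h1, h2⟩ := apply_eq_mulVec_vec3 h i
    fin_cases j
    · exact g0.trans ((congrFun (e 1 (by simp)) i).trans h0.symm)
    · exact g1.trans ((congrFun (e 3 (by simp)) i).trans h1.symm)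
    · exact g2.trans ((congrFun (e 9 (by simp)) i).trans h2.symm)

/-- The action of the transvection `1 + e_{ij}`. -/
def tAct (i j : Fin 3) (t : ℕ) : ℕ :=
  num3 fun k => vec3 t k + if k = i then vec3 t j else 0

/-- The code is that of the transvection `1 + e_{ij}`. -/
def tCodeOK (c : ℕ) (i j : Fin 3) : Bool :=
  i != j && (List.range 27).all fun t => dig c t == tAct i j t

theorem hasCode_transvection {c : ℕ} {i j : Fin 3} (h : tCodeOK c i j = true) :
    ∃ hij : i ≠ j, HasCode l33Rep (Matrix.SpecialLinearGroup.transvection hij 1) c := by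
  simp only [tCodeOK, Bool.and_eq_true, bne_iff_ne, List.all_eq_true, List.mem_range,
    beq_iff_eq] at h
  refine ⟨h.1, fun t ht => ?_⟩
  rw [h.2 t ht]
  show num3 _ = num3 _
  congr 1
  funext k
  rw [CfsgLib.Classical.Linear.transvection_mulVec, one_mul]

theorem l33_gen :
    Subgroup.closure {g | ∃ e ∈ L33Cert.gens, HasCode l33Rep g e.1} = ⊤ := by
  refine CfsgLib.Classical.Linear.eq_top_of_transvection_mem fun i j hij a => ?_
  have hall : ∀ i j : Fin 3, i ≠ j → (L33Cert.gens.any fun e => tCodeOK e.1 i j) = true := by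
    decide +kernel
  have hlist := hall i j hij
  rw [List.any_eq_true] at hlist
  obtain ⟨e, he, hc⟩ := hlist
  obtain ⟨_, hcode⟩ := hasCode_transvection hc
  have h1 : Matrix.SpecialLinearGroup.transvection hij (1 : ZMod 3) ∈
      Subgroup.closure {g | ∃ e ∈ L33Cert.gens, HasCode l33Rep g e.1} :=
    Subgroup.subset_closure ⟨e, he, hcode⟩
  have hn : ∀ n : ℕ, Matrix.SpecialLinearGroup.transvection hij (n : ZMod 3) ∈
      Subgroup.closure {g | ∃ e ∈ L33Cert.gens, HasCode l33Rep g e.1} := by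
    intro n
    induction n with
    | zero =>
      rw [Nat.cast_zero, Matrix.SpecialLinearGroup.transvection_coeff_zero]
      exact one_mem _
    | succ n ih =>
      rw [Nat.cast_succ, Matrix.SpecialLinearGroup.transvection_add]
      exact mul_mem ih h1
  rw [← ZMod.natCast_zmod_val a]
  exact hn _

theorem l33_prev : ∀ c ∈ L33Cert.prev, ∃ g, HasCode l33Rep g c := by
  intro c hc
  have h : (L33Cert.prev.all fun c => (List.range 27).all (fun t => dig c t == t) ||
      (List.finRange 3).any fun i => (List.finRange 3).any fun j => tCodeOK c i j) = true := by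
    decide +kernel
  simp only [List.all_eq_true, Bool.or_eq_true, List.any_eq_true, List.mem_range,
    beq_iff_eq] at h
  rcases h c hc with h | ⟨i, -, j, -, h⟩
  · refine ⟨1, fun t ht => ?_⟩
    rw [h t ht, l33Rep.act_one t ht]
  · obtain ⟨_, hcode⟩ := hasCode_transvection h
    exact ⟨_, hcode⟩

/-- The base images span with determinant one. -/
def l33Valid (v : List ℕ) : Bool :=
  match v with
  | [a, b, c] =>
    decide (vec3 a 0 * vec3 b 1 * vec3 c 2 - vec3 a 0 * vec3 c 1 * vec3 b 2 -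
      vec3 b 0 * vec3 a 1 * vec3 c 2 + vec3 b 0 * vec3 c 1 * vec3 a 2 +
      vec3 c 0 * vec3 a 1 * vec3 b 2 - vec3 c 0 * vec3 b 1 * vec3 a 2 = 1)
  | _ => false

theorem l33_valid (g : SL33) : l33Valid ([1, 3, 9].map (l33Rep.act g)) = true := by
  have hd := g.det_coe
  rw [Matrix.det_fin_three, (apply_eq_mulVec_vec3 g 0).1, (apply_eq_mulVec_vec3 g 0).2.1,
    (apply_eq_mulVec_vec3 g 0).2.2, (apply_eq_mulVec_vec3 g 1).1, (apply_eq_mulVec_vec3 g 1).2.1,
    (apply_eq_mulVec_vec3 g 1).2.2, (apply_eq_mulVec_vec3 g 2).1, (apply_eq_mulVec_vec3 g 2).2.1,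
    (apply_eq_mulVec_vec3 g 2).2.2] at hd
  simp only [List.map_cons, List.map_nil, l33Valid, decide_eq_true_eq]
  show vec3 (num3 _) 0 * vec3 (num3 _) 1 * vec3 (num3 _) 2 - _ - _ + _ + _ - _ = 1
  simp only [l33Rep, vec3_num3]
  linear_combination hd

theorem card_sl33 : Nat.card SL33 = 5616 := by
  have h := CfsgLib.Classical.Linear.card_sl (F := ZMod 3) 3 (by norm_num)
  rw [ZMod.card] at h
  norm_num [Fin.prod_univ_succ] at h
  rw [Nat.card_eq_fintype_card]
  omega

theorem zmod3_cube_eq_one : ∀ r : ZMod 3, r ^ 3 = 1 → r = 1 := by decide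

theorem psl33_mk_injective : Function.Injective
    (QuotientGroup.mk' (Subgroup.center SL33) : SL33 →* _) := by
  haveI : Fact (Nat.Prime 3) := ⟨Nat.prime_three⟩
  rw [← MonoidHom.ker_eq_bot_iff, QuotientGroup.ker_mk', Subgroup.eq_bot_iff_forall]
  intro A hA
  obtain ⟨r, hr, hr'⟩ := Matrix.SpecialLinearGroup.mem_center_iff.1 hA
  apply Subtype.ext
  rw [← hr', zmod3_cube_eq_one r (by simpa using hr), map_one, Matrix.SpecialLinearGroup.coe_one]

theorem psl33_of_commutingGraph {H : Type*} [Group H]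
    (f : {h : H // h ≠ 1} ≃ {g : Matrix.ProjectiveSpecialLinearGroup (Fin 3) (ZMod 3) // g ≠ 1})
    (hf : ∀ x y : {h : H // h ≠ 1}, (x : H) * y = y * x ↔
      ((f x) : Matrix.ProjectiveSpecialLinearGroup (Fin 3) (ZMod 3)) * (f y) = (f y) * (f x)) :
    Nonempty (H ≃* Matrix.ProjectiveSpecialLinearGroup (Fin 3) (ZMod 3)) := by
  haveI : Fact (Nat.Prime 3) := ⟨Nat.prime_three⟩
  let e : SL33 ≃* Matrix.ProjectiveSpecialLinearGroup (Fin 3) (ZMod 3) :=
    MulEquiv.ofBijective (QuotientGroup.mk' _)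
      ⟨psl33_mk_injective, QuotientGroup.mk'_surjective _⟩
  haveI : IsSimpleGroup SL33 :=
    haveI := CfsgLib.Classical.Linear.isSimpleGroup_psl_of_three_le (ι := Fin 3) (F := ZMod 3)
      (by simp)
    e.isSimpleGroup
  let f' : {h : H // h ≠ 1} ≃ {g : SL33 // g ≠ 1} :=
    f.trans (e.symm.toEquiv.subtypeEquiv fun a => by simp)
  suffices Nonempty (H ≃* SL33) from this.map fun u => u.trans e
  refine nonempty_mulEquiv_of_cert l33Rep L33Cert.prev L33Cert.prog l33_prev (by decide +kernel)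
    L33Cert.gens l33_gen L33Cert.cls L33Cert.root L33Cert.tree (by decide +kernel)
    (by decide +kernel) L33Cert.syl (by decide +kernel) (by decide +kernel) L33Cert.seedPts
    L33Cert.spec l33Valid l33_valid (by decide +kernel) L33Cert.rows L33Cert.bounds
    (by decide +kernel) (by decide +kernel) ?_ (by decide +kernel) 48 2 4 Nat.prime_two ?_
    (by norm_num) ?_ (by decide +kernel) f' (fun x y => (hf x y).trans ?_)
  · rw [card_sl33]; decide +kernel
  · rw [card_sl33]; decide +kernel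
  · rw [card_sl33]; norm_num
  · show _ ↔ e.symm (f x).1 * e.symm (f y).1 = e.symm (f y).1 * e.symm (f x).1
    rw [← map_mul, ← map_mul, EmbeddingLike.apply_eq_iff_eq]

end CfsgLib.Spec53
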