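import Cfsg.Agent.Mathieu.Simple
import Cfsg.Agent.Spec53.GraphCert
import Cfsg.Agent.Spec53.M11CertData

/-!
The Mathieu group M11 is determined by its commuting graph.
-/

set_option autoImplicit false

namespace CfsgLib.Spec53

open Cfsg CfsgLib.Mathieu Function
open scoped Pointwise

/-- `M11` on the numbered points, with five base points in the dodecad. -/
def m11Rep : PtRep ↥Cfsg.Spor.M11 24 M11Cert.base where
  act g i := p2i ((g : Equiv.Perm GolayPt) (i2p i))
  act_lt _ _ _ := p2i_lt _
  act_mul g h i _ := by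
    show p2i ((g : Equiv.Perm GolayPt) ((h : Equiv.Perm GolayPt) (i2p i))) =
      p2i ((g : Equiv.Perm GolayPt) (i2p (p2i ((h : Equiv.Perm GolayPt) (i2p i)))))
    rw [i2p_p2i]
  act_one i hi := p2i_i2p i hi
  base_lt := by decide
  ext g h hb := by
    have hk : ((h⁻¹ * g : ↥Cfsg.Spor.M11) : Equiv.Perm GolayPt) = 1 := by
      refine eq_one_of_fix_five (h⁻¹ * g).2.1 (xs := M11Cert.base.map i2p) (by decide)
        (by decide +kernel) ?_ ?_
      · have e : (M11Cert.base.all fun b => decide (b < 24) && listD0.contains b) = true := by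
          decide +kernel
        simp only [List.all_eq_true, Bool.and_eq_true, decide_eq_true_eq, List.contains_eq_mem] at e
        intro x hx
        obtain ⟨b, hb', rfl⟩ := List.mem_map.1 hx
        rw [mem_squareDodecad, p2i_i2p b (e b hb').1]
        exact (e b hb').2
      · intro x hx
        obtain ⟨b, hb', rfl⟩ := List.mem_map.1 hx
        have e := p2i_injective (hb b hb')
        simp [e]
    have : h⁻¹ * g = 1 := Subtype.ext hk
    exact (inv_mul_eq_one.1 this).symm

/-- The code agrees with the table. -/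
def codeTabOK (c : ℕ) (t : List ℕ) : Bool := (List.range 24).all fun i => dig c i == app t i

theorem hasCode_m11 {g : ↥Cfsg.Spor.M11} {c : ℕ} {t : List ℕ}
    (ht : toTab (g : Equiv.Perm GolayPt) = t) (h : codeTabOK c t = true) :
    HasCode m11Rep g c := by
  intro i hi
  simp only [codeTabOK, List.all_eq_true, List.mem_range, beq_iff_eq] at h
  rw [h i hi, ← ht, app_toTab _ i hi]
  rfl

theorem seeds11_rep : ∀ t ∈ seeds11, Rep Cfsg.Spor.M11 t := by
  intro t ht
  obtain ⟨g, hg, hgt⟩ := rep_seeds (seeds := seeds11) (F := [0]) (by decide +kernel)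
    (by decide +kernel) t ht
  have h : seeds11.all (fun t => maskStable t maskD0) = true := by decide +kernel
  refine ⟨g, ⟨⟨hg.1, ?_⟩, hg.2⟩, hgt⟩
  show g • Cfsg.Spor.squareDodecad = Cfsg.Spor.squareDodecad
  rw [squareDodecad_eq]
  exact smul_ofMask_of_stable g maskD0 (hgt ▸ List.all_eq_true.1 h t ht)

theorem m11_prev : ∀ c ∈ M11Cert.prev, ∃ g, HasCode m11Rep g c := by
  intro c hc
  have h : (M11Cert.prev.all fun c => codeTabOK c idTab || seeds11.any (codeTabOK c)) = true := by
    decide +kernel
  simp only [List.all_eq_true, Bool.or_eq_true, List.any_eq_true] at h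
  rcases h c hc with h | ⟨t, ht, h⟩
  · exact ⟨1, hasCode_m11 toTab_one h⟩
  · obtain ⟨g, hg, hgt⟩ := seeds11_rep t ht
    exact ⟨⟨g, hg⟩, hasCode_m11 hgt h⟩

theorem m11_gen :
    Subgroup.closure {g | ∃ e ∈ M11Cert.gens, HasCode m11Rep g e.1} = ⊤ := by
  set K0 := Subgroup.closure {g | ∃ e ∈ M11Cert.gens, HasCode m11Rep g e.1} with hK0
  have hK : ∀ t ∈ idTab :: seeds11, Rep (K0.map (Cfsg.Spor.M11).subtype) t := by
    intro t ht
    rcases List.mem_cons.1 ht with rfl | ht
    · exact ⟨1, one_mem _, toTab_one⟩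
    · obtain ⟨g, hg, hgt⟩ := seeds11_rep t ht
      have h : (seeds11.all fun t => M11Cert.gens.any fun e => codeTabOK e.1 t) = true := by
        decide +kernel
      simp only [List.all_eq_true, List.any_eq_true] at h
      obtain ⟨e, he, hcode⟩ := h t ht
      exact ⟨g, ⟨⟨g, hg⟩, Subgroup.subset_closure ⟨e, he, hasCode_m11 hgt hcode⟩, rfl⟩, hgt⟩
  have hrep := rep_of_progOK (K0.map (Cfsg.Spor.M11).subtype) prog11 (idTab :: seeds11) hK
    (by decide +kernel)
  have hle := chainProd_le_card chain11 _ (rep_chainIn hrep (by decide +kernel)) (by decide +kernel)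
  apply Subgroup.eq_top_of_le_card
  rw [card_M11, Nat.card_congr (K0.equivMapOfInjective _
    (Cfsg.Spor.M11).subtype_injective).toEquiv]
  exact le_trans (by decide +kernel) hle

/-- Validity of a tuple of base images. -/
def m11Valid (v : List ℕ) : Bool :=
  decide v.Nodup && v.all fun x => listD0.contains x && x != 0

theorem m11_valid (g : ↥Cfsg.Spor.M11) :
    m11Valid (M11Cert.base.map (m11Rep.act g)) = true := by
  have e : (M11Cert.base.all fun b => decide (b < 24) && listD0.contains b && b != 0) = true := by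
    decide +kernel
  simp only [List.all_eq_true, Bool.and_eq_true, decide_eq_true_eq, List.contains_eq_mem,
    bne_iff_ne] at e
  simp only [m11Valid, Bool.and_eq_true, decide_eq_true_eq, List.all_eq_true, List.mem_map,
    forall_exists_index, and_imp, forall_apply_eq_imp_iff₂, List.contains_eq_mem, bne_iff_ne]
  refine ⟨List.Nodup.map_on ?_ (by decide), fun b hb => ⟨?_, ?_⟩⟩
  · intro x hx y hy exy
    exact i2p_inj (e x hx).1.1 (e y hy).1.1
      ((g : Equiv.Perm GolayPt).injective (p2i_injective exy))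
  · show p2i ((g : Equiv.Perm GolayPt) (i2p b)) ∈ listD0
    have hb' : i2p b ∈ Cfsg.Spor.squareDodecad := by
      rw [mem_squareDodecad, p2i_i2p b (e b hb).1.1]; exact (e b hb).1.2
    rw [← mem_squareDodecad, ← (show (g : Equiv.Perm GolayPt) • Cfsg.Spor.squareDodecad =
      Cfsg.Spor.squareDodecad from g.2.1.2)]
    exact Finset.smul_mem_smul_finset hb'
  · show p2i ((g : Equiv.Perm GolayPt) (i2p b)) ≠ 0
    intro h0
    refine (e b hb).2 ?_
    have hfix : (g : Equiv.Perm GolayPt) (i2p 0) = i2p 0 := g.2.2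
    have h1 : (g : Equiv.Perm GolayPt) (i2p b) = i2p 0 := by
      rw [← i2p_p2i ((g : Equiv.Perm GolayPt) (i2p b)), h0]
    exact i2p_inj (e b hb).1.1 (by norm_num)
      ((g : Equiv.Perm GolayPt).injective (h1.trans hfix.symm))

theorem m11_of_commutingGraph {H : Type*} [Group H]
    (f : {h : H // h ≠ 1} ≃ {g : ↥Cfsg.Spor.M11 // g ≠ 1})
    (hf : ∀ x y : {h : H // h ≠ 1}, (x : H) * y = y * x ↔
      ((f x) : ↥Cfsg.Spor.M11) * (f y) = (f y) * (f x)) :
    Nonempty (H ≃* ↥Cfsg.Spor.M11) := by
  haveI := isSimpleGroup_M11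
  refine nonempty_mulEquiv_of_cert m11Rep M11Cert.prev M11Cert.prog m11_prev (by decide +kernel)
    M11Cert.gens m11_gen M11Cert.cls M11Cert.root M11Cert.tree (by decide +kernel)
    (by decide +kernel) M11Cert.syl (by decide +kernel) (by decide +kernel) M11Cert.seedPts
    M11Cert.spec m11Valid m11_valid (by decide +kernel) M11Cert.rows M11Cert.bounds
    (by decide +kernel) (by decide +kernel) ?_ (by decide +kernel) 48 2 4 Nat.prime_two ?_
    (by norm_num) ?_ (by decide +kernel) f hf
  · rw [card_M11]; decide +kernel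
  · rw [card_M11]; decide +kernel
  · rw [card_M11]; norm_num

end CfsgLib.Spec53
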