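import Cfsg.Agent.PrimeGraph57.Semidirect

/-!
Arbitrarily large groups with a prescribed prime graph, as semidirect products of powers of a
module of prime exponent with a finite group.
-/

set_option autoImplicit false

namespace CfsgLib.Spec53

open CfsgLib.PrimeGraph57

section

variable {V L : Type*} [AddCommGroup V] [Group L] [DistribMulAction L V]

/-- An element of order `r * ℓ` from an element of order `r` with a fixed vector of order `ℓ`. -/
theorem exists_semidirect_orderOf_mul {r ℓ : ℕ} (hc : Nat.Coprime r ℓ) {g : L}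
    (hg : orderOf g = r) {v : V} (hv : addOrderOf v = ℓ) (hfix : g • v = v) :
    ∃ h : Multiplicative V ⋊[actHom L V] L, orderOf h = r * ℓ := by
  refine ⟨SemidirectProduct.inr g * SemidirectProduct.inl (Multiplicative.ofAdd v), ?_⟩
  have hcomm : Commute (SemidirectProduct.inr g : Multiplicative V ⋊[actHom L V] L)
      (SemidirectProduct.inl (Multiplicative.ofAdd v)) := by
    refine SemidirectProduct.ext ?_ ?_
    · simp only [SemidirectProduct.mul_left, SemidirectProduct.left_inl, SemidirectProduct.left_inr,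
        SemidirectProduct.right_inl, SemidirectProduct.right_inr, map_one, one_mul, mul_one]
      exact congrArg Multiplicative.ofAdd hfix
    · simp
  have e1 : orderOf (SemidirectProduct.inr g : Multiplicative V ⋊[actHom L V] L) = r := by
    rw [orderOf_injective _ SemidirectProduct.inr_injective, hg]
  have e2 : orderOf (SemidirectProduct.inl (Multiplicative.ofAdd v) :
      Multiplicative V ⋊[actHom L V] L) = ℓ := by
    rw [orderOf_injective _ SemidirectProduct.inl_injective, orderOf_ofAdd_eq_addOrderOf, hv]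
  rw [hcomm.orderOf_mul_eq_mul_orderOf_of_coprime (by rw [e1, e2]; exact hc), e1, e2]

/-- The edges of the semidirect product. -/
theorem semidirect_edge_cases {ℓ : ℕ} (hℓ : ℓ.Prime) (hV : ∀ v : V, ℓ • v = 0) {p q : ℕ}
    (hp : p.Prime) (hq : q.Prime) (hpq : p ≠ q) {h : Multiplicative V ⋊[actHom L V] L}
    (hh : orderOf h = p * q) :
    (∃ g : L, orderOf g = p * q) ∨
      ∃ r : ℕ, r.Prime ∧ r ≠ ℓ ∧ p * q = r * ℓ ∧
        ∃ g : L, orderOf g = r ∧ ∃ v : V, v ≠ 0 ∧ g • v = v := by
  have hd : orderOf h.right ∣ p * q := hh ▸ orderOf_map_dvd SemidirectProduct.rightHom h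
  have kill : ∀ k : Multiplicative V ⋊[actHom L V] L, k.right = 1 → k ^ ℓ = 1 := by
    intro k hk
    have e : k = SemidirectProduct.inl k.left := SemidirectProduct.ext rfl (by simp [hk])
    rw [e, ← map_pow]
    have : k.left ^ ℓ = 1 := Multiplicative.toAdd.injective (by simp [hV])
    rw [this, map_one]
  have key : ∀ r s : ℕ, r.Prime → s.Prime → r ≠ s → p * q = r * s → orderOf h.right = r →
      (r ≠ ℓ ∧ s = ℓ ∧ ∃ v : V, v ≠ 0 ∧ h.right • v = v) := by
    intro r s hr hs hrs hmul hord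
    have hr1 : (h ^ r).right = 1 := by
      change SemidirectProduct.rightHom (h ^ r) = 1
      rw [map_pow]
      change h.right ^ r = 1
      rw [← hord, pow_orderOf_eq_one]
    have hdvd := orderOf_dvd_of_pow_eq_one (kill _ hr1)
    rw [orderOf_pow' h hr.ne_zero, hh, hmul, Nat.gcd_mul_right_left,
      Nat.mul_div_cancel_left _ hr.pos] at hdvd
    have hsℓ : s = ℓ := (Nat.prime_dvd_prime_iff_eq hs hℓ).1 hdvd
    refine ⟨fun e => hrs (e.trans hsℓ.symm), hsℓ, Multiplicative.toAdd (h ^ r).left, ?_, ?_⟩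
    · intro h0
      have h1 : h ^ r = 1 := SemidirectProduct.ext (Multiplicative.toAdd.injective h0) hr1
      have := orderOf_dvd_of_pow_eq_one h1
      rw [hh, hmul] at this
      have := Nat.le_of_dvd hr.pos this
      nlinarith [hs.two_le, hr.pos]
    · have hc := congrArg SemidirectProduct.left (Commute.self_pow h r).eq
      rw [SemidirectProduct.mul_left, SemidirectProduct.mul_left, hr1, map_one] at hc
      have := congrArg Multiplicative.toAdd hc
      rw [toAdd_mul, toAdd_mul, actHom_apply, MulAut.one_apply] at this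
      exact add_left_cancel (this.trans (add_comm _ _))
  obtain ⟨a, b, ha, hb, hab⟩ := exists_dvd_and_dvd_of_dvd_mul hd
  rcases (Nat.dvd_prime hp).1 ha with rfl | rfl <;> rcases (Nat.dvd_prime hq).1 hb with rfl | rfl
  · exfalso
    have h1 : h.right = 1 := orderOf_eq_one_iff.1 (by simpa using hab)
    have hdvd := orderOf_dvd_of_pow_eq_one (kill h h1)
    rw [hh] at hdvd
    rcases (Nat.dvd_prime hℓ).1 hdvd with e | e
    · exact hp.one_lt.ne' (Nat.eq_one_of_mul_eq_one_right e)
    · exact Nat.not_prime_mul hp.one_lt.ne' hq.one_lt.ne' (e ▸ hℓ)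
  · have hord : orderOf h.right = b := by simpa using hab
    obtain ⟨h1, h2, hv⟩ := key _ _ hq hp (Ne.symm hpq) (Nat.mul_comm _ _) hord
    exact Or.inr ⟨_, hq, h1, by rw [h2, Nat.mul_comm], h.right, hord, hv⟩
  · have hord : orderOf h.right = a := by simpa using hab
    obtain ⟨h1, h2, hv⟩ := key _ _ hp hq hpq rfl hord
    exact Or.inr ⟨_, hp, h1, by rw [h2], h.right, hord, hv⟩
  · exact Or.inl ⟨h.right, hab⟩

end

/-- Arbitrarily large finite groups with the prime graph of `L'`, built on a module `V` of exponent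
`ℓ` for a group `L`. -/
theorem large_group_of_module {L' L V : Type*} [Group L'] [Group L] [Finite L] [AddCommGroup V]
    [Finite V] [DistribMulAction L V] {ℓ : ℕ} (hℓ : ℓ.Prime) (hV : ∀ v : V, ℓ • v = 0)
    (hne : ∃ v : V, v ≠ 0) (hℓL : ℓ ∣ Nat.card L')
    (hprimes : ∀ p : ℕ, p.Prime → p ≠ ℓ → (p ∣ Nat.card L' ↔ p ∣ Nat.card L))
    (hsub : ∀ p q : ℕ, p.Prime → q.Prime → p ≠ q → (∃ g : L, orderOf g = p * q) →
      ∃ g : L', orderOf g = p * q)
    (hfix : ∀ r : ℕ, r.Prime → r ≠ ℓ → (∃ g : L, orderOf g = r ∧ ∃ v : V, v ≠ 0 ∧ g • v = v) →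
      ∃ g : L', orderOf g = r * ℓ)
    (hreal : ∀ p q : ℕ, p.Prime → q.Prime → p ≠ q → (∃ g : L', orderOf g = p * q) →
      (∃ g : L, orderOf g = p * q) ∨ ∃ r : ℕ, r.Prime ∧ r ≠ ℓ ∧ p * q = r * ℓ ∧
        ∃ g : L, orderOf g = r ∧ ∃ v : V, v ≠ 0 ∧ g • v = v)
    (N : ℕ) :
    ∃ (H : Type) (_ : Group H) (_ : Finite H), N < Nat.card H ∧
      ((∀ p : ℕ, p.Prime → (p ∣ Nat.card L' ↔ p ∣ Nat.card H)) ∧
      (∀ p q : ℕ, p.Prime → q.Prime → p ≠ q →
        ((∃ g : L', orderOf g = p * q) ↔ (∃ g : H, orderOf g = p * q)))) := by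
  classical
  obtain ⟨v₀, hv₀⟩ := hne
  haveI : Nontrivial V := ⟨⟨v₀, 0, hv₀⟩⟩
  let W := Fin (N + 1) → V
  haveI : Finite (Multiplicative W ⋊[actHom L W] L) :=
    Finite.of_equiv _ SemidirectProduct.equivProd.symm
  obtain ⟨H, gH, fH, ⟨me⟩⟩ := exists_small_model (Multiplicative W ⋊[actHom L W] L)
  have hW : ∀ w : W, ℓ • w = 0 := fun w => funext fun i => hV (w i)
  have hcard : Nat.card H = Nat.card W * Nat.card L := by
    rw [Nat.card_congr me.toEquiv, SemidirectProduct.card, Nat.card_congr Multiplicative.toAdd]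
  have hbig : N < Nat.card W := by
    rw [show Nat.card W = Nat.card V ^ (N + 1) by rw [show W = (Fin (N + 1) → V) from rfl, Nat.card_fun, Nat.card_fin]]
    calc N < N + 1 := N.lt_succ_self
      _ < 2 ^ (N + 1) := Nat.lt_two_pow_self
      _ ≤ _ := Nat.pow_le_pow_left (Finite.one_lt_card (α := V)) _
  refine ⟨H, gH, fH, ?_, ?_, ?_⟩
  · rw [hcard]; exact lt_of_lt_of_le hbig (Nat.le_mul_of_pos_right _ Nat.card_pos)
  · intro p hp
    rw [hcard]
    have hℓW : ℓ ∣ Nat.card W := by
      have h := addOrderOf_dvd_natCard (fun _ => v₀ : W)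
      rwa [addOrderOf_eq_prime (p := ℓ) (hp := ⟨hℓ⟩) (hW _)
        (fun e => hv₀ (congrFun e 0))] at h
    by_cases hpl : p = ℓ
    · subst hpl
      exact ⟨fun _ => Dvd.dvd.mul_right hℓW _, fun _ => hℓL⟩
    · rw [hprimes p hp hpl]
      refine ⟨fun h => Dvd.dvd.mul_left h _, fun h => ?_⟩
      refine (hp.dvd_mul.1 h).resolve_left fun h' => ?_
      haveI := Fact.mk hp
      obtain ⟨w, hw⟩ := exists_prime_addOrderOf_dvd_card' p h'
      have := addOrderOf_dvd_of_nsmul_eq_zero (hW w)
      rw [hw] at this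
      exact hpl ((Nat.prime_dvd_prime_iff_eq hp hℓ).1 this)
  · intro p q hp hq hpq
    constructor
    · intro hg
      obtain ⟨h, hh⟩ : ∃ h : Multiplicative W ⋊[actHom L W] L, orderOf h = p * q := by
        rcases hreal p q hp hq hpq hg with ⟨g, hg⟩ | ⟨r, hr, hrl, hmul, g, hg, v, hv, hfix⟩
        · exact ⟨SemidirectProduct.inr g,
            by rw [orderOf_injective _ SemidirectProduct.inr_injective, hg]⟩
        · rw [hmul]
          exact exists_semidirect_orderOf_mul ((Nat.coprime_primes hr hℓ).2 hrl) hg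
            (v := (fun _ => v : W)) (addOrderOf_eq_prime (p := ℓ) (hp := ⟨hℓ⟩) (hW _)
              (fun e => hv (congrFun e 0))) (funext fun _ => hfix)
      exact ⟨me.symm h, by rw [← hh]; exact me.symm.orderOf_eq h⟩
    · rintro ⟨x, hx⟩
      have hh : orderOf (me x) = p * q := by rw [← hx]; exact me.orderOf_eq x
      rcases semidirect_edge_cases hℓ hW hp hq hpq hh with hg | ⟨r, hr, hrl, hmul, g, hg, w, hw, hfx⟩
      · exact hsub p q hp hq hpq hg
      · rw [hmul]
        obtain ⟨i, hi⟩ := Function.ne_iff.1 hw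
        exact hfix r hr hrl ⟨g, hg, w i, hi, congrFun hfx i⟩

end CfsgLib.Spec53
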