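import Mathlib
import Cfsg.Agent.Spec53.SUSemisimple

/-!
The number of semisimple classes of the special unitary group.
-/

set_option autoImplicit false

namespace CfsgLib.Spec53

open Polynomial Matrix CfsgLib.Unitary Cfsg

open scoped _root_.Classical

variable {F : Type*} [Field F] [Fintype F] {q n : ℕ}

/-- Galois descent count for a semilinear involution of `F ^ m` given by an index involution and a
norm-one constant. -/
theorem card_fixed_semilinear (hF : Fintype.card F = q ^ 2) {m : ℕ} {c : F}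
    (hc : c ^ (q + 1) = 1) :
    Nat.card {a : Fin m → F // ∀ i, a i = c * a i.rev ^ q} = q ^ m := by
  set T : (Fin m → F) →+ (Fin m → F) :=
    { toFun := fun a i => c * a i.rev ^ q
      map_zero' := by funext i; simp [zero_pow_q hF]
      map_add' := fun a b => by funext i; simp [add_pow_q hF, mul_add] } with hT
  have hTT : ∀ a, T (T a) = a := fun a => by
    funext i
    show c * (c * a i.rev.rev ^ q) ^ q = a i
    rw [Fin.rev_rev, mul_pow, pow_q_q hF, ← mul_assoc, ← pow_succ', hc, one_mul]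
  set ψ : (Fin m → F) →+ (Fin m → F) := AddMonoidHom.id _ - T with hψ
  have hψa : ∀ a i, ψ a i = a i - c * a i.rev ^ q := fun a i => rfl
  obtain ⟨l, hl⟩ := exists_trace_eq hF (a := (1 : F)) (one_pow q)
  obtain ⟨w, hw0, hw⟩ : ∃ w : F, w ≠ 0 ∧ w ^ q = -w := by
    have hq := two_le_q hF
    have h2 := card_trace_zero hF
    by_contra hne
    push Not at hne
    have : Subsingleton {x : F // x + x ^ q = 0} := ⟨fun x y => Subtype.ext (by
      have hz : ∀ z : {x : F // x + x ^ q = 0}, (z : F) = 0 := fun z => by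
        by_contra h0
        exact hne z h0 (eq_neg_of_add_eq_zero_right z.2)
      rw [hz x, hz y])⟩
    rw [Nat.card_eq_one_iff_unique.2 ⟨this, ⟨⟨0, by simp [zero_pow_q hF]⟩⟩⟩] at h2
    omega
  have hrange : (ψ.range : Set (Fin m → F)) = {v | ∀ i, v i = -(c * v i.rev ^ q)} := by
    ext v
    constructor
    · rintro ⟨a, rfl⟩ i
      rw [hψa, hψa, Fin.rev_rev, sub_pow_q hF, mul_sub, mul_pow, pow_q_q hF, ← mul_assoc,
        ← pow_succ', hc, one_mul, neg_sub]
    · intro hv
      refine ⟨fun i => l * v i, funext fun i => ?_⟩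
      rw [hψa, mul_pow, ← mul_assoc, mul_comm c, mul_assoc,
        show c * v i.rev ^ q = -v i by rw [hv i, neg_neg]]
      linear_combination v i * hl
  have e1 : {a : Fin m → F // ∀ i, a i = c * a i.rev ^ q} ≃ ↥ψ.ker :=
    Equiv.subtypeEquivRight fun a => by
      rw [AddMonoidHom.mem_ker, funext_iff]
      simp [hψa, sub_eq_zero]
  have e2 : {a : Fin m → F // ∀ i, a i = c * a i.rev ^ q} ≃ ↥ψ.range :=
    { toFun := fun a => ⟨fun i => w * a.1 i, by
        rw [← SetLike.mem_coe, hrange]
        intro i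
        show w * a.1 i = -(c * (w * a.1 i.rev) ^ q)
        rw [mul_pow, hw, a.2 i]
        ring⟩
      invFun := fun v => ⟨fun i => w⁻¹ * v.1 i, by
        have hv : (v.1 : Fin m → F) ∈ (ψ.range : Set (Fin m → F)) := v.2
        rw [hrange] at hv
        intro i
        show w⁻¹ * v.1 i = c * (w⁻¹ * v.1 i.rev) ^ q
        rw [mul_pow, inv_pow, hw, hv i, inv_neg]
        ring⟩
      left_inv := fun a => Subtype.ext (funext fun i => by simp [hw0])
      right_inv := fun v => Subtype.ext (funext fun i => by simp [hw0]) }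
  have h1 := AddSubgroup.card_mul_index ψ.ker
  rw [AddSubgroup.index_ker, ← Nat.card_congr e1, ← Nat.card_congr e2, Nat.card_fun,
    Nat.card_eq_fintype_card (α := F), hF, Nat.card_fin, ← pow_mul, mul_comm 2 m, pow_mul,
    ← sq] at h1
  exact Nat.pow_left_injective two_ne_zero h1

/-- Self-dual monic polynomials with prescribed constant term `± 1`. -/
theorem card_selfDual_polys (hF : Fintype.card F = q ^ 2) {m : ℕ} {c : F} (hc : c * c = 1)
    (hcq : c ^ q = c) :
    Nat.card {P : F[X] // P.Monic ∧ P.natDegree = m + 1 ∧ P.coeff 0 = c ∧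
      conjRecip (conjHom hF) P = P} = q ^ m := by
  have hc1 : c ^ (q + 1) = 1 := by rw [pow_succ, hcq, hc]
  have hcinv : (c ^ q)⁻¹ = c := by rw [hcq]; exact inv_eq_of_mul_eq_one_right hc
  have hc0 : c ≠ 0 := fun h => by simp [h] at hc
  refine Eq.trans ?_ (card_fixed_semilinear hF (m := m) hc1)
  let e : {P : F[X] // P.Monic ∧ P.natDegree = m + 1} ≃ (Fin (m + 1) → F) :=
    (Polynomial.monicEquivDegreeLT (m + 1)).trans (Polynomial.degreeLTEquiv F (m + 1)).toEquiv
  have he : ∀ P j, e P j = P.1.coeff (j : ℕ) := by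
    intro P j
    show P.1.eraseLead.coeff (j : ℕ) = _
    rw [Polynomial.eraseLead_coeff_of_ne _ (by rw [P.2.2]; omega)]
  refine Nat.card_eq_of_bijective (fun P => ⟨fun i => P.1.coeff (i.val + 1), fun i => ?_⟩) ⟨?_, ?_⟩
  · obtain ⟨P, hm, hd, h0, hP⟩ := P
    have h := coeff_conjRecip (σ := conjHom hF) (P := P) (k := i.val + 1) (by omega)
    rw [hP, h0, conjHom_apply, conjHom_apply, hcinv, hd] at h
    show P.coeff (i.val + 1) = c * P.coeff (i.rev.val + 1) ^ q
    rw [h, Fin.val_rev]
    congr 3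
    omega
  · intro P Q h
    refine Subtype.ext (congrArg Subtype.val (e.injective
      (a₁ := ⟨P.1, P.2.1, P.2.2.1⟩) (a₂ := ⟨Q.1, Q.2.1, Q.2.2.1⟩) (funext fun j => ?_)) :)
    rw [he, he]
    refine Fin.cases ?_ (fun i => ?_) j
    · show P.1.coeff 0 = Q.1.coeff 0
      rw [P.2.2.2.1, Q.2.2.2.1]
    · exact congrFun (congrArg Subtype.val h) i
  · rintro ⟨a, ha⟩
    set P := e.symm (Fin.cons c a)
    have hco : ∀ j : Fin (m + 1), P.1.coeff (j : ℕ) = (Fin.cons c a : Fin (m + 1) → F) j := fun j => by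
      rw [← he P j, Equiv.apply_symm_apply]
    have h0 : P.1.coeff 0 = c := hco 0
    have hi : ∀ i : Fin m, P.1.coeff (i.val + 1) = a i := fun i => by
      simpa using hco i.succ
    refine ⟨⟨P.1, P.2.1, P.2.2, h0, ?_⟩, Subtype.ext (funext hi)⟩
    refine Polynomial.ext fun k => ?_
    rcases le_or_gt k (m + 1) with hk | hk
    · rw [coeff_conjRecip (by rw [P.2.2]; exact hk), h0, conjHom_apply, conjHom_apply, hcinv,
        P.2.2]
      rcases Nat.eq_zero_or_pos k with rfl | hk0
      · have htop : P.1.coeff (m + 1) = 1 := by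
          have := P.2.1.coeff_natDegree; rwa [P.2.2] at this
        rw [Nat.sub_zero, htop, one_pow, mul_one, h0]
      rcases hk.eq_or_lt with rfl | hlt
      · have htop : P.1.coeff (m + 1) = 1 := by
          have := P.2.1.coeff_natDegree; rwa [P.2.2] at this
        rw [Nat.sub_self, h0, htop, hcq, hc]
      · obtain ⟨j, rfl⟩ : ∃ j, k = j + 1 := ⟨k - 1, by omega⟩
        have h := ha ⟨j, by omega⟩
        rw [← hi, ← hi, Fin.val_rev] at h
        rw [h]
        congr 3
        simp only []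
        omega
    · rw [Polynomial.coeff_eq_zero_of_natDegree_lt (by
          rw [natDegree_conjRecip (by rw [h0]; exact hc0), P.2.2]; exact hk),
        Polynomial.coeff_eq_zero_of_natDegree_lt (by rw [P.2.2]; exact hk)]

/-- The number of semisimple classes of `SU_n(q)` is `q ^ (n - 1)`. -/
theorem card_semisimple_classes_su (p : ℕ) [Fact p.Prime] [CharP F p]
    (hF : Fintype.card F = q ^ 2) (hn : 1 ≤ n) :
    Nat.card {c : ConjClasses ↥(SU n F q) //
      ∃ g : ↥(SU n F q), ConjClasses.mk g = c ∧ (orderOf g).Coprime p} = q ^ (n - 1) := by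
  obtain ⟨m, rfl⟩ : ∃ m, n = m + 1 := ⟨n - 1, by omega⟩
  rw [Nat.add_sub_cancel]
  have hc : ((-1 : F) ^ (m + 1)) * (-1) ^ (m + 1) = 1 := by
    rw [← mul_pow, neg_mul_neg, one_mul, one_pow]
  have hcq : ((-1 : F) ^ (m + 1)) ^ q = (-1) ^ (m + 1) := by
    rw [← pow_mul, mul_comm, pow_mul, neg_pow_q hF, one_pow]
  refine Eq.trans ?_ (card_selfDual_polys hF (m := m) hc hcq)
  let cp : ↥(SU (m + 1) F q) → F[X] := fun g =>
    ((g : Matrix.SpecialLinearGroup (Fin (m + 1)) F) : Matrix (Fin (m + 1)) (Fin (m + 1)) F).charpoly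
  have hcp : ∀ g h, IsConj g h → cp g = cp h := fun g h hgh => by
    obtain ⟨w, hw⟩ := isConj_iff.1 (MonoidHom.map_isConj
      ((Matrix.SpecialLinearGroup.toGL (R := F) (n := Fin (m + 1))).comp (SU (m + 1) F q).subtype)
      hgh)
    have h1 := congrArg (fun v : GL (Fin (m + 1)) F =>
      (v : Matrix (Fin (m + 1)) (Fin (m + 1)) F).charpoly) hw
    simp only [Units.val_mul, Matrix.coe_units_inv, Matrix.charpoly_units_conj] at h1
    exact h1
  have hc0 : ∀ g, (cp g).coeff 0 = (-1) ^ (m + 1) := fun g => by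
    have h1 := CfsgLib.Classical.Semisimple.det_eq_coeff
      (M := ((g : Matrix.SpecialLinearGroup (Fin (m + 1)) F) :
        Matrix (Fin (m + 1)) (Fin (m + 1)) F))
    rw [Matrix.SpecialLinearGroup.det_coe] at h1
    have h2 := congrArg ((-1 : F) ^ (m + 1) * ·) h1
    simp only [mul_one, ← mul_assoc, hc, one_mul] at h2
    exact h2.symm
  have hsd : ∀ g, conjRecip (conjHom hF) (cp g) = cp g := fun g => by
    have h := conjRecip_charpoly_of_mem hF (SetLike.coe_mem (suToGU g))
    rw [suToGU_val] at h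
    exact h
  have hmon : ∀ g, (cp g).Monic := fun g => Matrix.charpoly_monic _
  have hdeg : ∀ g, (cp g).natDegree = m + 1 := fun g =>
    (Matrix.charpoly_natDegree_eq_dim _).trans (Fintype.card_fin _)
  refine Nat.card_eq_of_bijective (fun c => ⟨cp (Classical.choose c.2),
    hmon _, hdeg _, hc0 _, hsd _⟩) ⟨?_, ?_⟩
  · intro c d hcd
    have hc' := Classical.choose_spec c.2
    have hd := Classical.choose_spec d.2
    refine Subtype.ext ?_
    rw [← hc'.1, ← hd.1, ConjClasses.mk_eq_mk_iff_isConj]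
    exact su_isConj_of_charpoly_eq p hF hc'.2 hd.2 (congrArg Subtype.val hcd)
  · rintro ⟨P, hm, hd, h0, hP⟩
    obtain ⟨g, hg, hgc⟩ := exists_gu_charpoly p hF hm hd
      (by rw [h0]; exact pow_ne_zero _ (neg_ne_zero.2 one_ne_zero)) hP
    have hdet : ((g : GL (Fin (m + 1)) F) : Matrix (Fin (m + 1)) (Fin (m + 1)) F).det = 1 := by
      rw [CfsgLib.Classical.Semisimple.det_eq_coeff, hgc, h0, hc]
    obtain ⟨s, hs⟩ : g ∈ (suToGU : ↥(SU (m + 1) F q) →* ↥(GU (m + 1) F q)).range := by
      rw [← ker_detGU, MonoidHom.mem_ker]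
      exact Units.ext hdet
    have hso : (orderOf s).Coprime p := by
      rwa [← orderOf_injective _ suToGU_injective, hs]
    refine ⟨⟨ConjClasses.mk s, s, rfl, hso⟩, Subtype.ext ?_⟩
    have hex : ∃ g' : ↥(SU (m + 1) F q),
        ConjClasses.mk g' = ConjClasses.mk s ∧ (orderOf g').Coprime p := ⟨s, rfl, hso⟩
    show cp (Classical.choose hex) = P
    rw [hcp _ s (ConjClasses.mk_eq_mk_iff_isConj.1 (Classical.choose_spec hex).1), ← hgc, ← hs]
    rfl

end CfsgLib.Spec53
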