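import Mathlib
import Cfsg.Agent.Spec53.PGL2Spectrum

set_option autoImplicit false

/-!
A large group with the element orders dividing `6`, `9`, `q - 1`, `(q+1)/2` for `q = 3^odd`:
`(M ^ n) : (2 × L2(q))`, with `M` the natural module twisted by its Frobenius conjugate.
-/

namespace CfsgLib.Spec53.ReeCube

open Matrix

variable {K : Type*} [Field K] [CharP K 3]

/-- the acting pairs -/
abbrev Γ (K : Type*) [Field K] : Type _ := SpecialLinearGroup (Fin 2) K × ℤˣ

/-- the four-dimensional module, `n` copies -/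
abbrev V (K : Type*) [Field K] (n : ℕ) : Type _ := Fin n → Matrix (Fin 2) (Fin 2) K

/-- the sign in `K` -/
def sgn (e : ℤˣ) : K := ((e : ℤ) : K)

theorem sgn_mul (e f : ℤˣ) : (sgn (e * f) : K) = sgn e * sgn f := by simp [sgn]

theorem sgn_one : (sgn 1 : K) = 1 := by simp [sgn]

theorem sgn_neg_one : (sgn (-1) : K) = -1 := by simp [sgn]

/-- cube of the entries -/
noncomputable def cub : Matrix (Fin 2) (Fin 2) K →+* Matrix (Fin 2) (Fin 2) K :=
  (frobenius K 3).mapMatrix

/-- the twisted tensor action on one copy -/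
noncomputable def op (γ : Γ K) (A : Matrix (Fin 2) (Fin 2) K) : Matrix (Fin 2) (Fin 2) K :=
  (sgn γ.2 : K) • ((γ.1 : Matrix (Fin 2) (Fin 2) K) * A * (cub (γ.1 : Matrix (Fin 2) (Fin 2) K))ᵀ)

theorem op_one (A : Matrix (Fin 2) (Fin 2) K) : op (1 : Γ K) A = A := by
  simp [op, sgn_one]

theorem op_mul (γ δ : Γ K) (A : Matrix (Fin 2) (Fin 2) K) : op (γ * δ) A = op γ (op δ A) := by
  simp [op, sgn_mul, map_mul, transpose_mul, Matrix.mul_assoc, smul_smul, mul_comm]

theorem op_add (γ : Γ K) (A B : Matrix (Fin 2) (Fin 2) K) : op γ (A + B) = op γ A + op γ B := by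
  simp [op, Matrix.mul_add, Matrix.add_mul, smul_add]

/-- the action on `n` copies -/
noncomputable def act (n : ℕ) : Γ K →* MulAut (Multiplicative (V K n)) where
  toFun γ := AddEquiv.toMultiplicative
    { toFun := fun v i => op γ (v i)
      invFun := fun v i => op γ⁻¹ (v i)
      left_inv := fun v => funext fun i => by simp [← op_mul, op_one]
      right_inv := fun v => funext fun i => by simp [← op_mul, op_one]
      map_add' := fun v w => funext fun i => op_add γ (v i) (w i) }
  map_one' := MulEquiv.ext fun v => funext fun i => op_one ((Multiplicative.toAdd v) i)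
  map_mul' γ δ := MulEquiv.ext fun v => funext fun i => op_mul γ δ ((Multiplicative.toAdd v) i)

theorem act_apply {n : ℕ} (γ : Γ K) (v : Multiplicative (V K n)) (i : Fin n) :
    Multiplicative.toAdd (act n γ v) i = op γ (Multiplicative.toAdd v i) := rfl

/-- the group -/
abbrev X (K : Type*) [Field K] [CharP K 3] (n : ℕ) : Type _ :=
  Multiplicative (V K n) ⋊[(act (K := K) n).range.subtype] ((act (K := K) n).range)

theorem two_eq : (2 : K) = -1 := by
  have := CharP.cast_eq_zero K 3
  push_cast at this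
  linear_combination this

theorem neg_one_not_sq [Fintype K] (h4 : Fintype.card K % 4 = 3) (t : K) : t ^ 2 ≠ -1 := by
  intro h
  have := (FiniteField.isSquare_neg_one_iff (F := K)).1 ⟨t, by rw [← h, sq]⟩
  exact this h4

theorem ch2 (g : Matrix (Fin 2) (Fin 2) K) (hd : g.det = 1) : g * g = g.trace • g - 1 := by
  have := g.aeval_self_charpoly
  rw [charpoly_fin_two, hd] at this
  simp only [map_sub, map_add, map_mul, map_pow, Polynomial.aeval_X, Polynomial.aeval_C,
    map_one, Algebra.algebraMap_eq_smul_one, smul_mul_assoc, one_mul] at this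
  rw [sq] at this
  rw [← sub_eq_zero, ← this]
  abel

theorem trace_cub (g : Matrix (Fin 2) (Fin 2) K) : (cub g).trace = g.trace ^ 3 := by
  simp [cub, trace_fin_two, RingHom.mapMatrix_apply, frobenius_def, add_pow_char]

/-- a nonzero fixed vector forces a very special element -/
theorem fixed [Fintype K] (h4 : Fintype.card K % 4 = 3) (γ : Γ K) {A : Matrix (Fin 2) (Fin 2) K}
    (hA : A ≠ 0) (h : op γ A = A) :
    (γ.1 : Matrix (Fin 2) (Fin 2) K).trace = 0 ∨
      (γ.2 = 1 ∧ (γ.1 : Matrix (Fin 2) (Fin 2) K).trace ^ 2 = 4) := by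
  set g := (γ.1 : Matrix (Fin 2) (Fin 2) K) with hg
  set t := g.trace with ht
  set e : K := sgn γ.2 with he
  set c := cub g with hc
  let J : Matrix (Fin 2) (Fin 2) K := !![0, 1; -1, 0]
  have hdg : g.det = 1 := γ.1.2
  have hdc : c.det = 1 := by
    rw [hc, cub, ← RingHom.map_det, hdg, map_one]
  have hee : e * e = 1 := by
    rw [he, ← sgn_mul]
    rcases Int.units_eq_one_or γ.2 with h | h <;> simp [h, sgn]
  have hJ : cᵀ * J * c = J := by
    have hd : c 0 0 * c 1 1 - c 0 1 * c 1 0 = 1 := by rw [← det_fin_two]; exact hdc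
    ext i j
    fin_cases i <;> fin_cases j <;>
      simp [J, mul_apply, Fin.sum_univ_two] <;>
      first | ring1 | linear_combination hd | linear_combination -hd
  set B := A * J with hB
  have hB0 : B ≠ 0 := by
    intro h0
    apply hA
    have hJJ : J * J = -1 := by
      ext i j; fin_cases i <;> fin_cases j <;> simp [J, mul_apply, Fin.sum_univ_two]
    have : A * (J * J) = 0 := by rw [← Matrix.mul_assoc, ← hB, h0, Matrix.zero_mul]
    rwa [hJJ, Matrix.mul_neg, Matrix.mul_one, neg_eq_zero] at this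
  -- `g B = e B c`
  have h1 : g * A * cᵀ = e • A := by
    have := congrArg (fun M => e • M) h
    simpa [op, smul_smul, ← he, hee] using this
  have h2 : g * B = e • (B * c) := by
    have := congrArg (fun M => M * (J * c)) h1
    simp only [smul_mul_assoc, Matrix.mul_assoc] at this
    rw [show cᵀ * (J * c) = J by rw [← Matrix.mul_assoc, hJ]] at this
    rw [hB, this, Matrix.mul_assoc]
  have hg2 := ch2 g hdg
  have hc2 := ch2 c hdc
  have h3 : g * g * B = B * (c * c) := by
    rw [Matrix.mul_assoc, h2, Matrix.mul_smul, ← Matrix.mul_assoc, h2, Matrix.smul_mul, smul_smul,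
      hee, one_smul, Matrix.mul_assoc]
  rw [hg2, hc2, Matrix.sub_mul, Matrix.mul_sub, Matrix.smul_mul, Matrix.mul_smul, h2, one_mul,
    mul_one, trace_cub, smul_smul, sub_left_inj] at h3
  have h5 : (t * e - t ^ 3) • (B * c) = 0 := by rw [sub_smul, h3, ← ht, sub_self]
  have hBc : B * c ≠ 0 := by
    intro h0
    apply hB0
    have := congrArg (fun M => M * c⁻¹) h0
    simpa [Matrix.mul_assoc, Matrix.mul_nonsing_inv _ (by simp [hdc] : IsUnit c.det)] using this
  have h6 : t * (e - t ^ 2) = 0 := by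
    have := (smul_eq_zero.1 h5).resolve_right hBc
    linear_combination this
  rcases mul_eq_zero.1 h6 with h7 | h7
  · exact Or.inl h7
  · rw [sub_eq_zero] at h7
    rcases Int.units_eq_one_or γ.2 with hu | hu
    · refine Or.inr ⟨hu, ?_⟩
      rw [← h7, he, hu, sgn_one]
      have h3 : (3 : K) = 0 := by exact_mod_cast CharP.cast_eq_zero K 3
      linear_combination -h3
    · exfalso
      apply neg_one_not_sq h4 t
      rw [← h7, he, hu, sgn_neg_one]

/-- kernel of the action -/
theorem act_eq_one_iff {n : ℕ} (γ : Γ K) :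
    act (n + 1) γ = 1 ↔ γ.2 = 1 ∧ ∃ s : K, (γ.1 : Matrix (Fin 2) (Fin 2) K) = scalar (Fin 2) s := by
  set g := (γ.1 : Matrix (Fin 2) (Fin 2) K) with hg
  have hd : g 0 0 * g 1 1 - g 0 1 * g 1 0 = 1 := by rw [← det_fin_two]; exact γ.1.2
  constructor
  · intro h
    have hop : ∀ A, op γ A = A := fun A => by
      have := congrArg (fun f : MulAut (Multiplicative (V K (n + 1))) =>
        Multiplicative.toAdd (f (Multiplicative.ofAdd fun _ => A)) 0) h
      simpa [act_apply] using this
    have hee : sgn γ.2 ≠ (0 : K) := by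
      rcases Int.units_eq_one_or γ.2 with h | h <;> simp [h, sgn]
    have e00 : ∀ i j k l, sgn γ.2 * (g i k * g j l ^ 3) = (single k l (1 : K)) i j := fun i j k l => by
      have := congrFun (congrFun (hop (single k l (1 : K))) i) j
      rw [← this]
      simp [op, ← hg, cub, frobenius_def, mul_apply, single, Fin.sum_univ_two]
      fin_cases k <;> fin_cases l <;> simp
    have h01 : g 0 1 = 0 := by
      have := e00 0 0 1 1
      simpa [single, hee] using this
    have h10 : g 1 0 = 0 := by
      have := e00 1 1 0 0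
      simpa [single, hee] using this
    have hA : sgn γ.2 * (g 0 0 * g 0 0 ^ 3) = 1 := by simpa [single] using e00 0 0 0 0
    have hB : sgn γ.2 * (g 0 0 * g 1 1 ^ 3) = 1 := by simpa [single] using e00 0 1 0 1
    rw [h01, zero_mul, sub_zero] at hd
    -- `x = g 0 0` satisfies `x ^ 2 = sgn` and `sgn * x ^ 4 = 1`
    set x := g 0 0 with hx
    have hx2 : sgn γ.2 = x ^ 2 := by
      have h := congrArg (fun z => z * x ^ 2) hB
      linear_combination h - sgn γ.2 * (x ^ 2 * g 1 1 ^ 2 + x * g 1 1 + 1) * hd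
    have hx6 : x ^ 6 = 1 := by linear_combination hA - x * x ^ 3 * hx2
    have hx1 : x ^ 2 = 1 := by
      have h3 : (3 : K) = 0 := by exact_mod_cast CharP.cast_eq_zero K 3
      have : (x ^ 2 - 1) ^ 3 = 0 := by linear_combination hx6 - (x ^ 4 - x ^ 2) * h3
      exact sub_eq_zero.1 (pow_eq_zero_iff (n := 3) (by norm_num) |>.1 this)
    refine ⟨?_, x, ?_⟩
    · rcases Int.units_eq_one_or γ.2 with h | h
      · exact h
      · exfalso
        rw [h, sgn_neg_one, hx1] at hx2
        have h3 : (3 : K) = 0 := by exact_mod_cast CharP.cast_eq_zero K 3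
        exact one_ne_zero (α := K) (by linear_combination h3 + hx2)
    · have h11 : g 1 1 = x := by linear_combination x * hd - g 1 1 * hx1
      ext i j; fin_cases i <;> fin_cases j <;> simp [scalar_apply, h01, h10, h11, ← hx]
  · rintro ⟨he, s, hs⟩
    have hs2 : s * s = 1 := by
      have hgs : g = scalar (Fin 2) s := hs
      rw [hgs] at hd; simpa [scalar_apply] using hd
    refine MulEquiv.ext fun v => ?_
    apply Multiplicative.toAdd.injective
    funext i
    rw [act_apply, MulAut.one_apply]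
    ext a b
    have hgs : (γ.1 : Matrix (Fin 2) (Fin 2) K) = scalar (Fin 2) s := hs
    simp [op, hgs, he, sgn_one, cub, frobenius_def, scalar_apply, mul_apply,
      diagonal, Fin.sum_univ_two]
    have hq : s * s ^ 3 = 1 := by linear_combination (s * s + 1) * hs2
    generalize Multiplicative.toAdd v i = W
    fin_cases a <;> fin_cases b <;> simp
    · linear_combination W 0 0 * hq
    · linear_combination W 0 1 * hq
    · linear_combination W 1 0 * hq
    · linear_combination W 1 1 * hq

theorem rangeRestrict_pow_eq_one {n : ℕ} (γ : Γ K) (k : ℕ) :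
    (act (n + 1)).rangeRestrict γ ^ k = 1 ↔
      γ.2 ^ k = 1 ∧ ∃ s : K, (γ.1 : Matrix (Fin 2) (Fin 2) K) ^ k = scalar (Fin 2) s := by
  rw [← map_pow, ← Subtype.coe_inj, MonoidHom.coe_rangeRestrict, OneMemClass.coe_one,
    act_eq_one_iff, Prod.pow_snd, Prod.pow_fst]
  exact Iff.rfl

/-- the order of an element: with or without fixed points -/
theorem pow_bound {n : ℕ} (y : X K n) (γ : Γ K) (hγ : act n γ = (y.right : MulAut _)) {k : ℕ}
    (hk : y.right ^ k = 1) :
    y ^ (3 * k) = 1 ∧ ((∀ A, op γ A = A → A = 0) → y ^ k = 1) := by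
  have hr : (y ^ k).right = 1 := by
    rw [← SemidirectProduct.rightHom_eq_right, map_pow, SemidirectProduct.rightHom_eq_right, hk]
  set w := (y ^ k).left with hw
  have hyk : y ^ k = SemidirectProduct.inl w := by
    ext1
    · exact (SemidirectProduct.left_inl w).symm
    · rw [SemidirectProduct.right_inl, hr]
  constructor
  · rw [mul_comm, pow_mul, hyk, ← map_pow]
    have : w ^ 3 = 1 := by
      apply Multiplicative.toAdd.injective
      rw [toAdd_pow, toAdd_one]
      funext i
      ext a b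
      show 3 • (Multiplicative.toAdd w i a b) = 0
      rw [nsmul_eq_mul, CharP.cast_eq_zero K 3, zero_mul]
    rw [this, map_one]
  · intro hfree
    have hc : y * SemidirectProduct.inl w = SemidirectProduct.inl w * y := by
      rw [← hyk, ← pow_succ', ← pow_succ]
    have hfix : act n γ w = w := by
      have := congrArg SemidirectProduct.left hc
      simp only [SemidirectProduct.mul_left, SemidirectProduct.left_inl,
        SemidirectProduct.right_inl, map_one, MulAut.one_apply, Subgroup.coe_subtype] at this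
      rw [mul_comm w, ← hγ] at this
      exact mul_left_cancel this
    rw [hyk, show w = 1 from Multiplicative.toAdd.injective (funext fun i => ?_), map_one]
    apply hfree
    rw [← act_apply, hfix]

variable [Fintype K]

/-- every element of `X` has order dividing `6`, `9`, `q - 1` or `(q+1)/2` -/
theorem order_dvd {n : ℕ} (h8 : Fintype.card K % 8 = 3) (y : X K (n + 1)) :
    orderOf y ∣ 6 ∨ orderOf y ∣ 9 ∨ orderOf y ∣ Fintype.card K - 1 ∨
      orderOf y ∣ (Fintype.card K + 1) / 2 := by
  haveI : Fact (Nat.Prime 3) := ⟨by norm_num⟩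
  obtain ⟨γ, hγ⟩ := y.right.2
  have hR : y.right = (act (n + 1)).rangeRestrict γ := Subtype.ext hγ.symm
  set g := (γ.1 : Matrix (Fin 2) (Fin 2) K) with hg
  have hdg : g.det = 1 := γ.1.2
  have h4 : Fintype.card K % 4 = 3 := by omega
  have hsq : γ.2 ^ 2 = 1 := Int.units_sq _
  have hg2 := ch2 g hdg
  by_cases ht0 : g.trace = 0
  · -- involutions
    have hk : y.right ^ 2 = 1 := by
      rw [hR, rangeRestrict_pow_eq_one, ← hg]
      refine ⟨hsq, -1, ?_⟩
      rw [sq, hg2, ht0, zero_smul, zero_sub, map_neg, map_one]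
    exact Or.inl (orderOf_dvd_of_pow_eq_one (pow_bound y γ hγ hk).1)
  have hfree : (γ.2 = 1 → g.trace ^ 2 ≠ 4) → ∀ A, op γ A = A → A = 0 := by
    intro hne A hA
    by_contra hA0
    rcases fixed h4 γ hA0 hA with h | ⟨h, h'⟩
    exacts [ht0 h, hne h h']
  by_cases ht : g.trace ^ 2 = 4
  · have hs : g ^ 3 = scalar (Fin 2) (-g.trace) := by
      have h3 : (3 : K) = 0 := by exact_mod_cast CharP.cast_eq_zero K 3
      rw [pow_succ, sq, hg2, Matrix.sub_mul, smul_mul_assoc, hg2, one_mul, smul_sub, smul_smul]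
      rw [← sq, ht, show (4 : K) = 1 by linear_combination h3, one_smul, map_neg, scalar_apply,
        ← smul_one_eq_diagonal]
      abel
    rcases Int.units_eq_one_or γ.2 with hu | hu
    · have hk : y.right ^ 3 = 1 := by
        rw [hR, rangeRestrict_pow_eq_one, ← hg, hu]
        exact ⟨one_pow _, _, hs⟩
      exact Or.inr (Or.inl (orderOf_dvd_of_pow_eq_one (pow_bound y γ hγ hk).1))
    · have hk : y.right ^ 6 = 1 := by
        rw [hR, rangeRestrict_pow_eq_one, ← hg, show (6 : ℕ) = 3 * 2 from rfl, pow_mul g, hs,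
          ← map_pow]
        exact ⟨by rw [mul_comm, pow_mul, hsq, one_pow], _, rfl⟩
      refine Or.inl (orderOf_dvd_of_pow_eq_one ((pow_bound y γ hγ hk).2 (hfree ?_)))
      intro h1
      rw [h1] at hu
      exact absurd hu (by decide)
  have hscal : ∀ k : ℕ, g ^ (2 * k) = 1 → ∃ s : K, g ^ k = scalar (Fin 2) s := by
    intro k hk
    have h2 := ch2 (g ^ k) (by rw [det_pow, hdg, one_pow])
    rw [← pow_add, ← two_mul, hk] at h2
    have h3 : (g ^ k).trace • g ^ k = (2 : K) • (1 : Matrix (Fin 2) (Fin 2) K) := by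
      rw [two_smul]
      exact (eq_sub_iff_add_eq.1 h2).symm
    have h0 : (g ^ k).trace ≠ 0 := by
      intro h0
      rw [h0, zero_smul, two_eq] at h3
      have := congrFun (congrFun h3 0) 0
      simp at this
    refine ⟨2 / (g ^ k).trace, ?_⟩
    have := congrArg (fun M => ((g ^ k).trace)⁻¹ • M) h3
    simp only [smul_smul, inv_mul_cancel₀ h0, one_smul] at this
    exact this.trans (by rw [div_eq_inv_mul, smul_one_eq_diagonal, scalar_apply])
  rcases trichotomy 3 g (by rw [hdg]; exact one_ne_zero) with ⟨h, -⟩ | h | h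
  · exact absurd (by rw [h, hdg, mul_one]) ht
  · refine Or.inr (Or.inr (Or.inl (orderOf_dvd_of_pow_eq_one ?_)))
    refine (pow_bound y γ hγ ?_).2 (hfree fun _ => ht)
    rw [hR, rangeRestrict_pow_eq_one, ← hg]
    exact ⟨by rw [show Fintype.card K - 1 = 2 * ((Fintype.card K - 1) / 2) by omega, pow_mul,
      hsq, one_pow], 1, by rw [h, map_one]⟩
  · refine Or.inr (Or.inr (Or.inr (orderOf_dvd_of_pow_eq_one ?_)))
    refine (pow_bound y γ hγ ?_).2 (hfree fun _ => ht)
    rw [hR, rangeRestrict_pow_eq_one, ← hg]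
    refine ⟨?_, hscal _ ?_⟩
    · rw [show (Fintype.card K + 1) / 2 = 2 * ((Fintype.card K + 1) / 4) by omega, pow_mul, hsq,
        one_pow]
    · rw [show 2 * ((Fintype.card K + 1) / 2) = Fintype.card K + 1 by omega, h, hdg, map_one]

/-- elements of the four orders -/
theorem exists_order {n : ℕ} (h8 : Fintype.card K % 8 = 3) {d : ℕ}
    (hd : d = 6 ∨ d = 9 ∨ d = Fintype.card K - 1 ∨ d = (Fintype.card K + 1) / 2) :
    ∃ y : X K (n + 1), orderOf y = d := by
  haveI : Fact (Nat.Prime 3) := ⟨by norm_num⟩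
  let u : SpecialLinearGroup (Fin 2) K := ⟨!![1, 1; 0, 1], by simp [det_fin_two]⟩
  have hu : ∀ k : ℕ, (u : Matrix (Fin 2) (Fin 2) K) ^ k = !![1, (k : K); 0, 1] := by
    intro k
    induction k with
    | zero => simp [one_fin_two]
    | succ k ih =>
      rw [pow_succ, ih, show (u : Matrix (Fin 2) (Fin 2) K) = !![1, 1; 0, 1] from rfl]
      ext i j; fin_cases i <;> fin_cases j <;> simp [mul_apply, Fin.sum_univ_two, add_comm]
  have hus : ∀ k : ℕ, (∃ s : K, (u : Matrix (Fin 2) (Fin 2) K) ^ k = scalar (Fin 2) s) ↔ 3 ∣ k := by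
    intro k
    rw [hu, ← CharP.cast_eq_zero_iff K 3]
    constructor
    · rintro ⟨s, hs⟩
      have := congrFun (congrFun hs 0) 1
      simpa [scalar_apply] using this
    · intro h
      exact ⟨1, by rw [h, map_one, one_fin_two]⟩
  have key : ∀ γ : Γ K, ∀ d : ℕ, (∀ k : ℕ, (γ.2 ^ k = 1 ∧
      ∃ s : K, (γ.1 : Matrix (Fin 2) (Fin 2) K) ^ k = scalar (Fin 2) s) ↔ d ∣ k) →
      ∃ y : X K (n + 1), orderOf y = d := by
    intro γ d h
    refine ⟨SemidirectProduct.inr ((act (n + 1)).rangeRestrict γ), ?_⟩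
    rw [orderOf_injective _ SemidirectProduct.inr_injective]
    exact orderOf_eq_of_pow_iff fun k => by rw [rangeRestrict_pow_eq_one, h]
  have hneg : ∀ k : ℕ, (-1 : ℤˣ) ^ k = 1 ↔ 2 ∣ k := fun k => by
    rw [neg_one_pow_eq_one_iff_even (by decide : (-1 : ℤˣ) ≠ 1), even_iff_two_dvd]
  -- squares in PGL give elements of SL
  have half : ∀ N : ℕ, N ∣ Fintype.card K - 1 ∨ N ∣ Fintype.card K + 1 → 2 ∣ N →
      ∃ g : SpecialLinearGroup (Fin 2) K, ∀ k : ℕ,
        (∃ s : K, (g : Matrix (Fin 2) (Fin 2) K) ^ k = scalar (Fin 2) s) ↔ N / 2 ∣ k := by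
    intro N hN h2
    have hm : N ∈ {n : ℕ | n = 3 ∨ n ∣ Fintype.card K - 1 ∨ n ∣ Fintype.card K + 1} := Or.inr hN
    rw [← range_orderOf_pgl2 (F := K) 3] at hm
    obtain ⟨z, hz⟩ := hm
    obtain ⟨g, rfl⟩ := QuotientGroup.mk_surjective z
    set G := (g : Matrix (Fin 2) (Fin 2) K) with hG
    have hd0 : G.det ≠ 0 := ((Matrix.isUnit_iff_isUnit_det _).1 g.isUnit).ne_zero
    refine ⟨⟨G.det⁻¹ • G ^ 2, ?_⟩, fun k => ?_⟩
    · rw [det_smul, det_pow, Fintype.card_fin, ← mul_pow, inv_mul_cancel₀ hd0, one_pow]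
    · show (∃ s : K, (G.det⁻¹ • G ^ 2) ^ k = scalar (Fin 2) s) ↔ _
      have : N ∣ 2 * k ↔ N / 2 ∣ k := by
        obtain ⟨N', rfl⟩ := h2
        rw [Nat.mul_div_cancel_left _ two_pos, Nat.mul_dvd_mul_iff_left two_pos]
      rw [← this, ← hz, orderOf_dvd_iff_pow_eq_one, mk_pow_eq_one_iff, ← hG, pow_mul, smul_pow]
      constructor
      · rintro ⟨s, hs⟩
        refine ⟨G.det ^ k * s, ?_⟩
        have := congrArg (fun M => G.det ^ k • M) hs
        simp only [smul_smul, ← mul_pow, mul_inv_cancel₀ hd0, one_pow, one_smul] at this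
        rw [this, scalar_apply, scalar_apply, ← diagonal_smul]
        rfl
      · rintro ⟨s, hs⟩
        refine ⟨G.det⁻¹ ^ k * s, ?_⟩
        rw [hs, scalar_apply, scalar_apply, ← diagonal_smul]
        rfl
  rcases hd with rfl | rfl | rfl | rfl
  · refine key (u, -1) 6 fun k => ?_
    rw [hneg, hus]; omega
  · let β := (act (n + 1)).rangeRestrict ((u, 1) : Γ K)
    let v : Multiplicative (V K (n + 1)) := Multiplicative.ofAdd fun _ => !![0, 0; 0, 1]
    let y : X K (n + 1) := ⟨v, β⟩
    have hβ : β ^ 3 = 1 := by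
      rw [rangeRestrict_pow_eq_one]; exact ⟨one_pow _, (hus 3).2 dvd_rfl⟩
    refine ⟨y, orderOf_eq_prime_pow (p := 3) (n := 1) ?_ (pow_bound y (u, 1) rfl hβ).1⟩
    intro h
    rw [pow_one] at h
    have := congrArg (fun z : X K (n + 1) => Multiplicative.toAdd z.left 0 0 0) h
    have hcu : cub (u : Matrix (Fin 2) (Fin 2) K) = !![1, 1; 0, 1] := by
      ext i j; fin_cases i <;> fin_cases j <;> simp [cub, u, frobenius_def]
    have o1 : op ((u, 1) : Γ K) !![0, 0; 0, 1] = !![1, 1; 1, 1] := by
      rw [op, sgn_one, one_smul, hcu]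
      ext i j; fin_cases i <;> fin_cases j <;> simp [u, mul_apply, Fin.sum_univ_two]
    have o2 : op ((u, 1) : Γ K) !![1, 1; 1, 1] = !![4, 2; 2, 1] := by
      rw [op, sgn_one, one_smul, hcu]
      ext i j; fin_cases i <;> fin_cases j <;> simp [u, mul_apply, Fin.sum_univ_two] <;> norm_num
    simp [y, β, v, pow_succ, act_apply, o1, o2, SemidirectProduct.mul_left] at this
    have h3 : (3 : K) = 0 := by exact_mod_cast CharP.cast_eq_zero K 3
    exact one_ne_zero (α := K) (by linear_combination 2 * h3 - this)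
  · obtain ⟨g, hg⟩ := half (Fintype.card K - 1) (Or.inl dvd_rfl) (by omega)
    refine key (g, -1) _ fun k => ?_
    rw [hneg, hg]
    constructor
    · intro h
      have hc : Nat.Coprime 2 ((Fintype.card K - 1) / 2) := by
        rw [Nat.coprime_two_left, Nat.odd_iff]; omega
      have := hc.mul_dvd_of_dvd_of_dvd h.1 h.2
      rwa [show 2 * ((Fintype.card K - 1) / 2) = Fintype.card K - 1 by omega] at this
    · intro h
      exact ⟨(by omega : 2 ∣ Fintype.card K - 1).trans h, (Nat.div_dvd_of_dvd (by omega)).trans h⟩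
  · obtain ⟨g, hg⟩ := half (Fintype.card K + 1) (Or.inr dvd_rfl) (by omega)
    refine key (g, 1) _ fun k => ?_
    rw [hg, one_pow]; simp

end CfsgLib.Spec53.ReeCube
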